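import Mathlib
import Cfsg.Agent.H13.AbInv2

/-!
# Abelian `p`-groups with a repeated invariant
-/

set_option autoImplicit false
set_option linter.all false
open Cfsg Cfsg.FusionSystem

namespace Cfsg.Agent.H13

open Cfsg.Agent.H28

section
variable {ι : Type*} {G : ι → Type*} [∀ i, CommGroup (G i)]

/-- split off two factors of a product. -/
theorem exists_split (i j : ι) (hij : i ≠ j) :
    Nonempty (((k : ι) → G k) ≃* (G i × G j) × ((k : {k : ι // k ≠ i ∧ k ≠ j}) → G k)) := by
  classical
  let f : ((k : ι) → G k) →* (G i × G j) × ((k : {k : ι // k ≠ i ∧ k ≠ j}) → G k) :=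
    { toFun := fun g => ((g i, g j), fun k => g k)
      map_one' := rfl
      map_mul' := fun _ _ => rfl }
  refine ⟨MulEquiv.ofBijective f ⟨?_, ?_⟩⟩
  · intro g h hgh
    have h1 : g i = h i := congrArg (fun z => z.1.1) hgh
    have h2 : g j = h j := congrArg (fun z => z.1.2) hgh
    have h3 : ∀ k : {k : ι // k ≠ i ∧ k ≠ j}, g k = h k := fun k =>
      congrFun (congrArg (fun z => z.2) hgh) k
    funext k
    by_cases hk : k = i
    · subst hk; exact h1
    by_cases hk' : k = j
    · subst hk'; exact h2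
    exact h3 ⟨k, hk, hk'⟩
  · rintro ⟨⟨x, y⟩, g⟩
    let g0 : (k : ι) → G k := fun k => if h : k ≠ i ∧ k ≠ j then g ⟨k, h⟩ else 1
    refine ⟨Function.update (Function.update g0 j y) i x, ?_⟩
    refine Prod.ext (Prod.ext ?_ ?_) ?_
    · show Function.update (Function.update g0 j y) i x i = x
      rw [Function.update_self]
    · show Function.update (Function.update g0 j y) i x j = y
      rw [Function.update_of_ne (Ne.symm hij), Function.update_self]
    · funext k
      show Function.update (Function.update g0 j y) i x k = g k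
      rw [Function.update_of_ne k.2.1, Function.update_of_ne k.2.2]
      show (if h : (k : ι) ≠ i ∧ (k : ι) ≠ j then g ⟨k, h⟩ else 1) = g k
      rw [dif_pos k.2]

end

/-- structure of abelian `p`-groups: distinct invariants or a repeated one. -/
theorem distinct_or_repeated {V : Type*} [CommGroup V] [Finite V] {p : ℕ} [Fact p.Prime]
    (hV : IsPGroup p V) :
    (∃ (ι : Type) (_ : Finite ι) (a : ι → ℕ), Function.Injective a ∧ (∀ i, 1 ≤ a i) ∧
      Nonempty (V ≃* Multiplicative ((i : ι) → ZMod (p ^ a i)))) ∨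
    ∃ (n : ℕ) (H : Type) (_ : CommGroup H), 0 < n ∧
      Nonempty (V ≃* (Multiplicative (ZMod (p ^ n)) × Multiplicative (ZMod (p ^ n))) × H) := by
  classical
  have hp := Fact.out (p := p.Prime)
  obtain ⟨ι, _, n, hn1, ⟨e⟩⟩ := CommGroup.equiv_prod_multiplicative_zmod_of_finite V
  obtain ⟨m, hm⟩ := IsPGroup.iff_card.1 hV
  haveI : ∀ i, NeZero (n i) := fun i => ⟨by have := hn1 i; omega⟩
  have hcard : Nat.card V = ∏ i, n i := by
    rw [Nat.card_congr e.toEquiv, Nat.card_pi]
    exact Finset.prod_congr rfl fun i _ => Nat.card_zmod _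
  have ha : ∀ i, ∃ a, n i = p ^ a := by
    intro i
    have : n i ∣ p ^ m := by
      rw [← hm, hcard]; exact Finset.dvd_prod_of_mem _ (Finset.mem_univ i)
    obtain ⟨a, -, ha⟩ := (Nat.dvd_prime_pow hp).1 this
    exact ⟨a, ha⟩
  choose a ha using ha
  obtain rfl : n = fun i => p ^ a i := funext ha
  have ha1 : ∀ i, 1 ≤ a i := by
    intro i
    by_contra h
    have h0 : a i = 0 := by omega
    have := hn1 i
    simp only [h0, pow_zero] at this
    omega
  by_cases hinj : Function.Injective a
  · left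
    exact ⟨ι, inferInstance, a, hinj, ha1, ⟨e.trans (MulEquiv.piMultiplicative _).symm⟩⟩
  · right
    rw [Function.Injective] at hinj
    push Not at hinj
    obtain ⟨i, j, hij, hne⟩ := hinj
    obtain ⟨f⟩ := exists_split (G := fun i => Multiplicative (ZMod (p ^ a i))) i j hne
    refine ⟨a i, (k : {k : ι // k ≠ i ∧ k ≠ j}) → Multiplicative (ZMod (p ^ a k)), inferInstance,
      ha1 i, ⟨e.trans (f.trans ?_)⟩⟩
    refine MulEquiv.prodCongr (MulEquiv.prodCongr (MulEquiv.refl _) ?_) (MulEquiv.refl _)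
    exact (ZMod.ringEquivCongr (by rw [hij])).toAddEquiv.toMultiplicative

section
variable {M H V : Type*} [CommGroup M] [CommGroup H] [Group V]

/-- lift an automorphism of `M × M` to `V ≃ (M × M) × H`. -/
def liftAut (e : V ≃* (M × M) × H) : MulAut (M × M) →* MulAut V where
  toFun g := (e.trans (MulEquiv.prodCongr g (MulEquiv.refl H))).trans e.symm
  map_one' := by
    refine MulEquiv.ext fun x => ?_
    show e.symm ((e x).1, (e x).2) = x
    exact e.symm_apply_apply x
  map_mul' g h := by
    refine MulEquiv.ext fun x => ?_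
    show e.symm (g (h (e x).1), (e x).2) =
      e.symm (g (e (e.symm (h (e x).1, (e x).2))).1, (e (e.symm (h (e x).1, (e x).2))).2)
    rw [e.apply_symm_apply]

theorem liftAut_injective (e : V ≃* (M × M) × H) : Function.Injective (liftAut e) := by
  intro g h hgh
  refine MulEquiv.ext fun x => ?_
  have h1 := DFunLike.congr_fun hgh (e.symm (x, 1))
  have h2 : e.symm (g (e (e.symm (x, 1))).1, (e (e.symm (x, 1))).2) =
    e.symm (h (e (e.symm (x, 1))).1, (e (e.symm (x, 1))).2) := h1
  rw [e.apply_symm_apply] at h2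
  exact congrArg Prod.fst (e.symm.injective h2)

/-- `(x, y) ↦ (y⁻¹, x)`. -/
def rotAut (M : Type*) [CommGroup M] : MulAut (M × M) where
  toFun x := (x.2⁻¹, x.1)
  invFun x := (x.2, x.1⁻¹)
  left_inv x := by simp
  right_inv x := by simp
  map_mul' x y := by simp [mul_comm]

/-- `(x, y) ↦ (y, x)`. -/
def swapAut (M : Type*) [CommGroup M] : MulAut (M × M) := MulEquiv.prodComm

/-- `(x, y) ↦ (y⁻¹, x y⁻¹)`. -/
def triAut (M : Type*) [CommGroup M] : MulAut (M × M) where
  toFun x := (x.2⁻¹, x.1 * x.2⁻¹)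
  invFun x := (x.2 * x.1⁻¹, x.1⁻¹)
  left_inv x := by simp
  right_inv x := by simp
  map_mul' x y := by
    refine Prod.ext ?_ ?_
    · simp [mul_comm]
    · show (x.1 * y.1) * (x.2 * y.2)⁻¹ = (x.1 * x.2⁻¹) * (y.1 * y.2⁻¹)
      rw [mul_inv, mul_mul_mul_comm]

theorem rot_apply (x y : M) : rotAut M (x, y) = (y⁻¹, x) := rfl
theorem swap_apply (x y : M) : swapAut M (x, y) = (y, x) := rfl
theorem tri_apply (x y : M) : triAut M (x, y) = (y⁻¹, x * y⁻¹) := rfl

theorem rot_four : rotAut M ^ 4 = 1 := by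
  refine MulEquiv.ext fun x => ?_
  obtain ⟨x, y⟩ := x
  simp [pow_succ, rot_apply]

theorem swap_two : swapAut M ^ 2 = 1 := by
  refine MulEquiv.ext fun x => ?_
  obtain ⟨x, y⟩ := x
  simp [pow_succ, swap_apply]

theorem tri_three : triAut M ^ 3 = 1 := by
  refine MulEquiv.ext fun x => ?_
  obtain ⟨x, y⟩ := x
  simp [pow_succ, tri_apply]

theorem swap_rot : swapAut M * rotAut M * swapAut M = (rotAut M)⁻¹ := by
  rw [eq_inv_iff_mul_eq_one]
  refine MulEquiv.ext fun x => ?_
  obtain ⟨x, y⟩ := x
  simp [rot_apply, swap_apply]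

/-- a repeated invariant: a bad `p'`-group of automorphisms. -/
theorem exists_bad [Finite V] {p n : ℕ} [Fact p.Prime] (hn : 0 < n)
    (e : V ≃* (Multiplicative (ZMod (p ^ n)) × Multiplicative (ZMod (p ^ n))) × H) :
    ¬ ∀ H : Subgroup (MulAut V), (Nat.card H).Coprime p →
      IsMulCommutative H ∧ ∀ h ∈ H, h ^ (p - 1) = 1 := by
  intro h
  have hp := Fact.out (p := p.Prime)
  set M := Multiplicative (ZMod (p ^ n)) with hM
  have hinj := liftAut_injective e
  set u : M := Multiplicative.ofAdd 1 with hu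
  have hu1 : u ≠ 1 := by
    intro h1
    have h2 : (1 : ZMod (p ^ n)) = 0 := h1
    have h3 : (p ^ n : ℕ) ∣ 1 := by
      rw [← ZMod.natCast_eq_zero_iff]; push_cast; exact h2
    have h4 := Nat.dvd_one.1 h3
    have h5 := Nat.one_lt_pow hn.ne' hp.one_lt
    omega
  by_cases h2 : p = 2
  · subst h2
    have h3 : (liftAut e (triAut M)) ^ 3 = 1 := by
      rw [← map_pow, tri_three, map_one]
    obtain ⟨-, h4⟩ := h (Subgroup.zpowers (liftAut e (triAut M))) (by
      rw [Nat.card_zpowers]
      exact Nat.Coprime.coprime_dvd_left (orderOf_dvd_of_pow_eq_one h3) (by norm_num))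
    have h5 := h4 _ (Subgroup.mem_zpowers _)
    have h6 : triAut M = 1 := by
      apply hinj
      rw [map_one]; simpa using h5
    have h7 := DFunLike.congr_fun h6 (u, 1)
    rw [tri_apply] at h7
    have h8 : (1 : M)⁻¹ = u := congrArg Prod.fst h7
    rw [inv_one] at h8
    exact hu1 h8.symm
  · -- `p` odd: a dihedral group of order `8`
    have hs : IsPGroup 2 (Subgroup.zpowers (liftAut e (swapAut M))) :=
      isPGroup_zpowers_of_pow (n := 1) (by rw [pow_one, ← map_pow, swap_two, map_one])
    have hr : IsPGroup 2 (Subgroup.zpowers (liftAut e (rotAut M))) :=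
      isPGroup_zpowers_of_pow (n := 2) (by
        rw [show (2 : ℕ) ^ 2 = 4 from rfl, ← map_pow, rot_four, map_one])
    have hinv : (swapAut M)⁻¹ = swapAut M := by
      rw [inv_eq_iff_mul_eq_one, ← pow_two, swap_two]
    have hN : Subgroup.zpowers (liftAut e (swapAut M)) ≤
        Subgroup.normalizer (Subgroup.zpowers (liftAut e (rotAut M)) : Set (MulAut V)) := by
      rw [Subgroup.zpowers_le]
      haveI : Finite (Subgroup.zpowers (liftAut e (rotAut M))) :=
        (isOfFinOrder_iff_pow_eq_one.2 ⟨4, by norm_num, by rw [← map_pow, rot_four, map_one]⟩).finite_zpowers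
      refine mem_normalizer_of_finite fun x hx => ?_
      obtain ⟨k, rfl⟩ := Subgroup.mem_zpowers_iff.1 hx
      rw [← conj_zpow]
      refine Subgroup.zpow_mem _ ?_ k
      rw [← map_inv, hinv, ← map_mul, ← map_mul, swap_rot, map_inv]
      exact Subgroup.inv_mem _ (Subgroup.mem_zpowers _)
    have hH := IsPGroup.to_sup_of_normal_right' hs hr hN
    set D := Subgroup.zpowers (liftAut e (swapAut M)) ⊔ Subgroup.zpowers (liftAut e (rotAut M))
      with hD
    haveI : Finite (MulAut V) :=
      Finite.of_injective (fun b : MulAut V => (b : V → V)) DFunLike.coe_injective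
    obtain ⟨k, hk⟩ := IsPGroup.iff_card.1 hH
    have hcop : (Nat.card D).Coprime p := by
      rw [hk]
      exact Nat.Coprime.pow_left k ((Nat.coprime_primes Nat.prime_two hp).2 (Ne.symm h2))
    obtain ⟨h3, -⟩ := h D hcop
    have h4 := h3.is_comm.comm
      ⟨liftAut e (swapAut M), Subgroup.mem_sup_left (Subgroup.mem_zpowers _)⟩
      ⟨liftAut e (rotAut M), Subgroup.mem_sup_right (Subgroup.mem_zpowers _)⟩
    have h5 : liftAut e (swapAut M * rotAut M) = liftAut e (rotAut M * swapAut M) := by
      rw [map_mul, map_mul]; exact congrArg Subtype.val h4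
    have h6 := DFunLike.congr_fun (hinj h5) (u, 1)
    have h7 : u = u⁻¹ := congrArg Prod.fst h6
    have h8 : u * u = 1 := by
      nth_rewrite 2 [h7]; exact mul_inv_cancel u
    have h9 : (1 : ZMod (p ^ n)) + 1 = 0 := h8
    have h10 : (p ^ n : ℕ) ∣ 2 := by
      rw [← ZMod.natCast_eq_zero_iff, ← h9]; norm_num
    have h11 : p ∣ 2 := (dvd_pow_self p hn.ne').trans h10
    exact h2 ((Nat.prime_dvd_prime_iff_eq hp Nat.prime_two).1 h11)

end

end Cfsg.Agent.H13
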