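import Mathlib
import Cfsg.Agent.H13.ConsE
import Cfsg.Agent.H28.FusFactor3
import Cfsg.Agent.S5118
import Cfsg.Agent.S5135

/-!
# Constrained fusion systems of groups: subnormal subgroups and central quotients
-/

set_option autoImplicit false
set_option linter.all false
open Cfsg Cfsg.FusionSystem

namespace Cfsg.Agent.H13

open Cfsg.Agent.H28
open Cfsg.Agent

universe u v w

section
variable {G : Type u} [Group G] {G' : Type v} [Group G'] {p : ℕ}

/-- The system of a subgroup, moved along an isomorphism. -/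
theorem fs_iso_factor {H T : Subgroup G} (hTH : T ≤ H) (e : ↥H ≃* G') {T' : Subgroup G'}
    (hT' : ∀ x : ↥H, e x ∈ T' ↔ (x : G) ∈ T) :
    (fusionSystemOfSubgroup H T hTH).IsFactorSystem ⊥ (e.toMonoidHom.comp (Subgroup.inclusion hTH))
      (groupFusionSystem T') := by
  have htf : ∀ x (hx : x ∈ T), tf (e.toMonoidHom.comp (Subgroup.inclusion hTH)) x = e ⟨x, hTH hx⟩ :=
    fun x hx => tf_apply _ hx
  have hr : (e.toMonoidHom.comp (Subgroup.inclusion hTH)).range = T' := by
    ext y
    constructor
    · rintro ⟨x, rfl⟩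
      exact (hT' (Subgroup.inclusion hTH x)).2 x.2
    · intro hy
      obtain ⟨x, rfl⟩ := e.surjective y
      exact ⟨⟨x, (hT' x).1 hy⟩, rfl⟩
  refine isFactor_of_mor bot_le (fun x hx => ?_) hr fun P' f' => ?_
  · rw [htf x hx, map_eq_one_iff e e.injective, Subgroup.mem_bot]
    constructor
    · intro h; exact congrArg Subtype.val h
    · intro h; exact Subtype.ext h
  · rw [mor_group]
    constructor
    · rintro ⟨h1, h2, g, h3⟩
      obtain ⟨h, rfl⟩ := e.surjective g
      refine ⟨h1, fun x => h * x * (h : G)⁻¹, ?_, fun x hx => ?_⟩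
      · refine mor_fs_conj h.2 preimageAlong_le fun x hx => ?_
        obtain ⟨hxT, hxP⟩ := mem_preimageAlong.1 hx
        rw [htf x hxT] at hxP
        have h4 := h2 _ hxP
        rw [h3 _ hxP, ← map_mul, ← map_inv, ← map_mul, hT'] at h4
        exact h4
      · obtain ⟨hxT, hxP⟩ := mem_preimageAlong.1 hx
        rw [htf x hxT] at hxP
        have h4 := h2 _ hxP
        rw [h3 _ hxP, ← map_mul, ← map_inv, ← map_mul, hT'] at h4
        rw [htf x hxT, h3 _ hxP]
        have h5 := htf _ h4
        refine Eq.trans ?_ h5.symm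
        rw [← map_mul, ← map_inv, ← map_mul]
    · rintro ⟨h1, f, hf, h2⟩
      obtain ⟨h3, h4, g, hg, h5⟩ := mor_fs.1 hf
      have key : ∀ y ∈ P', f' y = e ⟨g, hg⟩ * y * (e ⟨g, hg⟩)⁻¹ ∧ f' y ∈ T' := by
        intro y hy
        obtain ⟨x, hx, rfl⟩ := exists_preimage hr h1 hy
        have hxT := h3 hx
        rw [h2 x hx, htf x hxT, htf _ (h4 x hx), hT']
        refine ⟨?_, h4 x hx⟩
        rw [← map_mul, ← map_inv, ← map_mul]
        congr 1
        exact Subtype.ext (h5 x hx)
      exact ⟨h1, fun y hy => (key y hy).2, _, fun y hy => (key y hy).1⟩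

theorem bot_central {Ω : Type u} [Group Ω] {S : Subgroup Ω} {F : FusionSystem S} : F.IsCentral ⊥ := by
  rw [isCentral_iff]
  refine ⟨bot_le, fun P f hf => ⟨f, by rwa [sup_bot_eq], fun _ _ => rfl, fun x hx => ?_⟩⟩
  rw [Subgroup.mem_bot] at hx
  subst hx
  exact hf.one

theorem sylIn_subnormal [Finite G] [Fact p.Prime] (S : Sylow p G) {H : Subgroup G} (hH : H.IsSubnormal) :
    L.SylIn p ((S : Subgroup G) ⊓ H) H := by
  induction hH with
  | top => rw [inf_top_eq]; exact L.sylIn_top S
  | step H K hle hK hN ih =>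
    have h1 := coprime_index_sylIn ih hle ((Subgroup.normal_subgroupOf_iff_le_normalizer hle).1 hN)
    rwa [inf_assoc, inf_eq_right.2 hle] at h1

/-- The fusion system of a subnormal subgroup is constrained. -/
theorem constrained_subnormal [Finite G] [Fact p.Prime] (S : Sylow p G)
    (hF : (groupFusionSystem (S : Subgroup G)).IsConstrained p) (H : Subgroup G) (hH : H.IsSubnormal) :
    (groupFusionSystem ((S : Subgroup G).subgroupOf H)).IsConstrained p := by
  induction hH with
  | top =>
    have h1 := fs_iso_factor (H := (⊤ : Subgroup G)) (T := (S : Subgroup G)) le_top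
      (MulEquiv.refl ↥(⊤ : Subgroup G)) (T' := (S : Subgroup G).subgroupOf ⊤) (fun x => Iff.rfl)
    rw [← group_eq_fs] at h1
    exact constrained_factor S.isPGroup' hF bot_central h1
  | step H K hle hK hN ih =>
    have hsy := sylIn_subnormal S hK
    set T := hsy.toSylow with hTdef
    have hT : (T : Subgroup K) = (S : Subgroup G).subgroupOf K := by
      rw [hTdef, L.SylIn.toSylow_coe, Subgroup.inf_subgroupOf_right]
    rw [← hT] at ih
    haveI := hN
    have h1 := S5118.result p T (H.subgroupOf K)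
    have h2 := constrained_of_normalIn T.isPGroup' ih h1
    have h3 := fs_iso_factor (H := H.subgroupOf K) (T := (T : Subgroup K) ⊓ H.subgroupOf K) inf_le_right
      (Subgroup.subgroupOfEquivOfLe hle) (T' := (S : Subgroup G).subgroupOf H) (fun x => by
        rw [hT]
        show ((x : K) : G) ∈ (S : Subgroup G) ↔ ((x : K) : G) ∈ (S : Subgroup G) ∧ _
        exact ⟨fun h => ⟨h, x.2⟩, fun h => h.1⟩)
    exact constrained_factor (isPGroup_of_le T.isPGroup' inf_le_left) h2 bot_central h3

/-- The fusion system of a quotient by a central subgroup is constrained. -/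
theorem constrained_central_quotient [Finite G] [Fact p.Prime] (S : Sylow p G)
    (hF : (groupFusionSystem (S : Subgroup G)).IsConstrained p) (Z : Subgroup G) [Z.Normal]
    (hZ : Z ≤ Subgroup.center G) :
    (groupFusionSystem ((S : Subgroup G).map (QuotientGroup.mk' Z))).IsConstrained p := by
  refine constrained_factor S.isPGroup' hF (Z := (S : Subgroup G) ⊓ Z) ?_ (S5135.result p S Z)
  rw [isCentral_iff]
  refine ⟨inf_le_left, fun P f hf => ?_⟩
  obtain ⟨h1, h2, g, h3⟩ := mor_group.1 hf
  have hfix : ∀ x ∈ (S : Subgroup G) ⊓ Z, g * x * g⁻¹ = x := fun x hx => by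
    rw [Subgroup.mem_center_iff.1 (hZ hx.2) g, mul_inv_cancel_right]
  refine ⟨fun x => g * x * g⁻¹, mor_group_conj (sup_le h1 inf_le_left) (fun x hx => ?_), fun x hx =>
    (h3 x hx).symm, hfix⟩
  have h4 : P ⊔ ((S : Subgroup G) ⊓ Z) ≤ (S : Subgroup G).comap (MulAut.conj g).toMonoidHom := by
    refine sup_le (fun x hx => ?_) (fun x hx => ?_)
    · show g * x * g⁻¹ ∈ (S : Subgroup G)
      rw [← h3 x hx]; exact h2 x hx
    · show g * x * g⁻¹ ∈ (S : Subgroup G)
      rw [hfix x hx]; exact hx.1
  exact h4 hx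

end

end Cfsg.Agent.H13
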