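import Mathlib
import Cfsg.Agent.H13.FusInvar
import Cfsg.Agent.H28.FusProp
import Cfsg.Agent.H28.PIdx2

/-!
# Subsystems of `p`-power index are normal
-/

set_option autoImplicit false
set_option linter.all false
open Cfsg Cfsg.FusionSystem

namespace Cfsg.Agent.H13

open Cfsg.Agent.H28

variable {Ω : Type*} [Group Ω] {S T : Subgroup Ω} {F : FusionSystem S} {E : FusionSystem T}
  {p : ℕ} {P Q R : Subgroup Ω} {f g h : Ω → Ω}

theorem ppi_aInv [Fact p.Prime] [Finite S] (hS : IsPGroup p S) (hT : F.StronglyClosed T)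
    (hE : E.IsSaturated p) (hEF : ∀ P f, Mor E P f → Mor F P f)
    (hpp : ∀ P ≤ T, ∀ α ∈ F.autGroup P, (orderOf α).Coprime p → α ∈ E.autGroup P) : AInv F E := by
  have hTS := hT.1
  have hTfin : Finite T := finite_of_le hTS
  have hTp := hS.to_le hTS
  suffices h : ∀ P f, Mor E P f → (∀ α ∈ F.autGroup T, ∃ g, Mor E (img P (autFun α)) g ∧
      ∀ x ∈ P, g (autFun α x) = autFun α (f x)) from fun P f hf α hα => h P f hf α hα
  have hC : MapProp E (fun P f => ∀ α ∈ F.autGroup T, ∃ g, Mor E (img P (autFun α)) g ∧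
      ∀ x ∈ P, g (autFun α x) = autFun α (f x)) := by
    refine ⟨?_, ?_, ?_, ?_⟩
    · intro P f g hP hfg h α hα
      obtain ⟨k, hk, h1⟩ := h α hα
      exact ⟨k, hk, fun x hx => by rw [h1 x hx, hfg x hx]⟩
    · intro P s hP hs α hα
      have hαm := mor_autFun hTS hα
      refine ⟨fun y => autFun α s * y * (autFun α s)⁻¹,
        mor_conj (img_le_iff.2 fun x hx => autFun_mem _ (hP hx)) (autFun_mem _ hs), fun x hx => ?_⟩
      show autFun α s * autFun α x * (autFun α s)⁻¹ = autFun α (s * x * s⁻¹)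
      rw [hαm.conj hs (hP hx)]
    · intro P Q f g hf hg hm h1 h2 α hα
      obtain ⟨a, ha, h3⟩ := h1 α hα
      obtain ⟨b, hb, h4⟩ := h2 α hα
      refine ⟨fun y => b (a y), ha.comp hb ?_, fun x hx => ?_⟩
      · intro y hy
        obtain ⟨x, hx, rfl⟩ := ((mor_autFun hTS hα).mono hf.le).mem_img.1 hy
        rw [h3 x hx]; exact mem_img_of_mem (hm x hx)
      · show b (a (autFun α x)) = autFun α (g (f x))
        rw [h3 x hx, h4 _ (hm x hx)]
    · intro P f i hf hi h1 h2 h3 α hα
      obtain ⟨a, ha, h4⟩ := h3 α hα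
      obtain ⟨b, hb, hb1, hb2, hb3⟩ := ha.inverse
      have himg : img (img P (autFun α)) a = img (img P f) (autFun α) := by
        rw [((mor_autFun hTS hα).mono hf.le).img_comp, hf.img_comp]
        exact img_congr h4
      rw [himg] at hb
      refine ⟨b, hb, fun y hy => ?_⟩
      obtain ⟨x, hx, rfl⟩ := hf.mem_img.1 hy
      rw [← h4 x hx, hb1 _ (mem_img_of_mem hx), h1 x hx]
  intro P f hf
  refine alperin_prop hTp hE hC (fun P hP δ hδ => ?_) hf
  have hPn := (fn_of_essential_or_top hP).1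
  have hPT : P ≤ T := hPn.1
  obtain ⟨γ, hγ, s, hs, hsP, hδs⟩ := aut_decomp (FN.fa hTp hE hPn) hδ
  -- the residual part
  have h1 : ∀ α ∈ F.autGroup T, ∃ g, Mor E (img P (autFun α)) g ∧
      ∀ x ∈ P, g (autFun α x) = autFun α (autFun (γ : MulAut P) x) := by
    intro α hα
    have hαm : Mor F P (autFun α) := (mor_autFun hTS hα).mono hPT
    have hQT : img P (autFun α) ≤ T := img_le_iff.2 fun x hx => autFun_mem _ (hPT hx)
    have hle : (pResidual p (E.autGroup P)).map (E.autGroup P).subtype ≤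
        (E.autGroup (img P (autFun α))).comap hαm.transport.toMonoidHom := by
      rw [Subgroup.map_le_iff_le_comap]
      unfold pResidual
      rw [Subgroup.closure_le]
      intro γ hγ
      show hαm.transport (γ : MulAut P) ∈ E.autGroup (img P (autFun α))
      apply hpp _ hQT
      · apply hαm.transport_mem
        exact (mor_autFun_iff (hPT.trans hTS)).1 (hEF _ _ (mor_autFun hPT γ.2))
      · rw [MulEquiv.orderOf_eq, Subgroup.orderOf_coe]
        exact hγ
    have h2 := hle ⟨γ, hγ, rfl⟩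
    have h3 : hαm.transport (γ : MulAut P) ∈ E.autGroup (img P (autFun α)) := h2
    exact ⟨_, mor_autFun hQT h3, fun x hx => hαm.transport_apply _ hx⟩
  have hconj := hC.conj P s hPT hs
  have h2 := hC.comp P P (fun x => s * x * s⁻¹) (autFun (γ : MulAut P)) (mor_conj hPT hs)
    (mor_autFun hPT γ.2) hsP hconj h1
  exact hC.congr P _ _ hPT (fun x hx => (hδs x hx).symm) h2

theorem ppi_fr [Fact p.Prime] [Finite S] (hS : IsPGroup p S) (hF : F.IsSaturated p)
    (hT : F.StronglyClosed T) (hEF : ∀ P f, Mor E P f → Mor F P f) (hA : AInv F E)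
    (hpp : ∀ P ≤ T, ∀ α ∈ F.autGroup P, (orderOf α).Coprime p → α ∈ E.autGroup P)
    (hf : Mor F P f) : Fr F E (P ⊓ T) f := by
  have hTS := hT.1
  have hTfin : Finite T := finite_of_le hTS
  have hrT : ∀ g, Mor F T g → Fr F E T g := by
    intro f hf
    have himg : img T f = T := img_sc_eq hT hf le_rfl
    obtain ⟨α, hα, h1⟩ := hf.exists_aut himg
    exact ⟨α, hα, fun x => x, mor_self le_rfl, fun x hx => (h1 x hx).symm⟩
  have hC : MapProp F (fun P f => Fr F E (P ⊓ T) f) := by
    refine ⟨?_, ?_, ?_, ?_⟩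
    · intro P f g hP hfg h
      exact h.congr fun x hx => hfg x hx.1
    · intro P s hP hs
      exact (hrT _ (mor_conj hTS hs)).mono inf_le_right
    · intro P Q f g hf hg hm h1 h2
      exact h1.comp hA hTS h2 fun x hx => ⟨hm x hx.1, sc_apply hT hf hx.1 hx.2⟩
    · intro P f i hf hi h1 h2 h3
      obtain ⟨j, hj, hj1, hj2⟩ := h3.inverse hA hTS
      have himg : img P f ⊓ T = img (P ⊓ T) f := by
        apply le_antisymm
        · rintro y ⟨hy, hyT⟩
          obtain ⟨x, hx, rfl⟩ := hf.mem_img.1 hy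
          refine mem_img_of_mem ⟨hx, ?_⟩
          have := sc_apply hT hi hy hyT
          rwa [h1 x hx] at this
        · rw [img_le_iff]
          exact fun x hx => ⟨mem_img_of_mem hx.1, sc_apply hT hf hx.1 hx.2⟩
      show Fr F E (img P f ⊓ T) i
      rw [himg]
      refine hj.congr fun y hy => ?_
      obtain ⟨x, hx, rfl⟩ := (hf.mono inf_le_left).mem_img.1 hy
      rw [hj1 x hx, h1 x hx.1]
  refine alperin_prop hS hF (C := fun P f => Fr F E (P ⊓ T) f) hC (fun P hP δ hδ => ?_) hf
  have hPn := (fn_of_essential_or_top hP).1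
  have hPS : P ≤ S := hPn.1
  have hPfin : Finite P := finite_of_le hPS
  obtain ⟨γ, hγ, s, hs, hsP, hδs⟩ := aut_decomp (FN.fa hS hF hPn) hδ
  have hstab : ∀ γ ∈ F.autGroup P, ∀ x ∈ P ⊓ T, autFun γ x ∈ P ⊓ T := fun γ hγ x hx =>
    ⟨autFun_mem _ hx.1, sc_apply hT (mor_autFun hPS hγ) hx.1 hx.2⟩
  have hPTfin : Finite (P ⊓ T : Subgroup Ω) := finite_of_le (inf_le_left : P ⊓ T ≤ P)
  let K : Subgroup (F.autGroup P) :=
    { carrier := {γ | Mor E (P ⊓ T) (autFun (γ : MulAut P))}
      mul_mem' := by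
        intro a b ha hb
        refine (hb.comp ha fun x hx => hstab _ b.2 x hx).congr fun x hx => ?_
        show autFun (a : MulAut P) (autFun (b : MulAut P) x) = _
        rw [← autFun_mul _ _ hx.1]; rfl
      one_mem' := (mor_id inf_le_right).congr fun x hx => (autFun_one hx.1).symm
      inv_mem' := by
        intro a ha
        obtain ⟨i, hi, h1, h2, h3⟩ := ha.inverse
        have himg : img (P ⊓ T) (autFun (a : MulAut P)) = P ⊓ T :=
          eq_of_le_of_card (img_le_iff.2 fun x hx => hstab _ a.2 x hx) ha.card_img.ge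
        rw [himg] at hi h2
        refine hi.congr fun x hx => ?_
        have h4 := h2 x hx
        have hix : i x ∈ P ⊓ T := by
          rw [himg] at h3
          rw [← h3]; exact mem_img_of_mem hx
        show i x = autFun (a : MulAut P)⁻¹ x
        conv_rhs => rw [← h4]
        rw [autFun_inv_apply _ hix.1] }
  have hK : pResidual p (F.autGroup P) ≤ K := by
    unfold pResidual
    rw [Subgroup.closure_le]
    intro γ hγ
    show Mor E (P ⊓ T) (autFun (γ : MulAut P))
    obtain ⟨b, hb, hbo⟩ := exists_restrict (inf_le_left : P ⊓ T ≤ P) (γ : MulAut P)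
      (hstab _ γ.2)
    have hbF : b ∈ F.autGroup (P ⊓ T) :=
      mem_autGroup_of_mor ((mor_autFun hPS γ.2).mono inf_le_left) (fun y => by
        rw [← autFun_coe]; exact hb y y.2)
    have hbc : (orderOf b).Coprime p := by
      refine Nat.Coprime.coprime_dvd_left hbo ?_
      rw [Subgroup.orderOf_coe]; exact hγ
    have hbE := hpp _ inf_le_right b hbF hbc
    exact (mor_autFun inf_le_right hbE).congr hb
  have h1 : Fr F E (P ⊓ T) (autFun (γ : MulAut P)) := fr_of_mor hTS (hK hγ)
  have h2 : Fr F E (P ⊓ T) (fun x => s * x * s⁻¹) := (hrT _ (mor_conj hTS hs)).mono inf_le_right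
  refine (h2.comp hA hTS h1 fun x hx => ⟨hsP x hx.1, sc_conj hT hs hx.2⟩).congr fun x hx => ?_
  exact (hδs x hx.1).symm

theorem ppi_normal [Fact p.Prime] [Finite S] (hS : IsPGroup p S) (hF : F.IsSaturated p)
    (hTS : T ≤ S) (hTn : ∀ s ∈ S, ∀ t ∈ T, s * t * s⁻¹ ∈ T) (hhyp : F.hyperfocalSubgroup p ≤ T)
    (hE : E.IsSaturated p) (hEF : ∀ P f, Mor E P f → Mor F P f)
    (hpp : ∀ P ≤ T, ∀ α ∈ F.autGroup P, (orderOf α).Coprime p → α ∈ E.autGroup P) :
    E.IsNormalIn F p := by
  have hTfin : Finite T := finite_of_le hTS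
  have hTp := hS.to_le hTS
  have hTnorm : S ≤ Subgroup.normalizer (T : Set Ω) := fun s hs =>
    mem_normalizer_of_finite (hTn s hs)
  have hT : F.StronglyClosed T := hyp_stronglyClosed_of_le hS hF hhyp hTS hTnorm
  have hA := ppi_aInv hS hT hE hEF hpp
  have hsub : E.IsSubsystemOf F := subsystem_iff.2 hEF
  rw [normalIn_iff]
  refine ⟨⟨hE, hF, invariant_iff.2 ⟨hsub, hT, hA, fun P f hP hf => ?_⟩⟩, ?_⟩
  · have := ppi_fr hS hF hT hEF hA hpp hf
    rwa [inf_eq_left.2 hP] at this
  -- the extension condition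
  set C := centralizerIn S T with hCdef
  have hCT : ∀ s ∈ S, ∀ c ∈ C, s * c * s⁻¹ ∈ C := by
    intro s hs c hc
    rw [hCdef, mem_centralizerIn] at hc ⊢
    refine ⟨S.mul_mem (S.mul_mem hs hc.1) (S.inv_mem hs), fun t ht => ?_⟩
    have h1 : s⁻¹ * t * s ∈ T := by
      have := hTn s⁻¹ (S.inv_mem hs) t ht
      rwa [inv_inv] at this
    calc s * c * s⁻¹ * t = s * (c * (s⁻¹ * t * s)) * s⁻¹ := by group
      _ = s * ((s⁻¹ * t * s) * c) * s⁻¹ := by rw [hc.2 _ h1]
      _ = t * (s * c * s⁻¹) := by group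
  have hTC : T ⊔ C ≤ S := sup_le hTS centralizerIn_le
  have hTCfin : Finite (T ⊔ C : Subgroup Ω) := finite_of_le hTC
  have hfinA : Finite (MulAut (T ⊔ C : Subgroup Ω)) := finite_mulAut
  have hfinT : Finite (MulAut T) := finite_mulAut
  have hTm : T ≤ T ⊔ C := le_sup_left
  have hCm : C ≤ T ⊔ C := le_sup_right
  -- the subgroup of extendable automorphisms
  let K : Subgroup (MulAut T) :=
    { carrier := {α | ∃ β ∈ F.autGroup (T ⊔ C), (∀ x ∈ T, autFun β x = autFun α x) ∧
        ∀ c ∈ C, c⁻¹ * autFun β c ∈ T ∧ c⁻¹ * autFun β c ∈ C}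
      mul_mem' := by
        rintro a b ⟨β, hβ, h1, h2⟩ ⟨γ, hγ, h3, h4⟩
        refine ⟨β * γ, (F.autGroup _).mul_mem hβ hγ, fun x hx => ?_, fun c hc => ?_⟩
        · rw [autFun_mul _ _ (hTm hx), autFun_mul _ _ hx, h3 x hx, h1 _ (autFun_mem _ hx)]
        · obtain ⟨h5, h6⟩ := h4 c hc
          have hβm := mor_autFun hTC hβ
          have e : c⁻¹ * autFun (β * γ) c =
              (c⁻¹ * autFun β c) * autFun β (c⁻¹ * autFun γ c) := by
            rw [autFun_mul _ _ (hCm hc), hβm.mul ((T ⊔ C).inv_mem (hCm hc)) (autFun_mem _ (hCm hc)),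
              hβm.inv (hCm hc)]
            group
          obtain ⟨h7, h8⟩ := h2 c hc
          rw [e]
          refine ⟨T.mul_mem h7 ?_, C.mul_mem h8 ?_⟩
          · rw [h1 _ h5]; exact autFun_mem _ h5
          · have := (h2 _ h6).2
            have h9 := C.mul_mem h6 this
            rwa [mul_inv_cancel_left] at h9
      one_mem' := ⟨1, (F.autGroup _).one_mem, fun x hx => by
        rw [autFun_one hx, autFun_one (hTm hx)], fun c hc => by
        rw [autFun_one (hCm hc), inv_mul_cancel]; exact ⟨T.one_mem, C.one_mem⟩⟩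
      inv_mem' := by
        rintro a ⟨β, hβ, h1, h2⟩
        refine ⟨β⁻¹, (F.autGroup _).inv_mem hβ, fun x hx => ?_, fun c hc => ?_⟩
        · have h3 := h1 _ (autFun_mem a⁻¹ hx)
          rw [autFun_apply_inv _ hx] at h3
          conv_lhs => rw [← h3]
          rw [autFun_inv_apply _ (hTm (autFun_mem _ hx))]
        · -- β permutes C
          have hβm := mor_autFun hTC hβ
          have hβC : ∀ c ∈ C, autFun β c ∈ C := fun c hc => by
            have := C.mul_mem hc (h2 c hc).2
            rwa [mul_inv_cancel_left] at this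
          have hCfin : Finite C := finite_of_le centralizerIn_le
          have himg : img C (autFun β) = C :=
            eq_of_le_of_card (img_le_iff.2 hβC) (hβm.mono hCm).card_img.ge
          have hc' : c ∈ img C (autFun β) := by rw [himg]; exact hc
          obtain ⟨d, hd, rfl⟩ := (hβm.mono hCm).mem_img.1 hc'
          rw [autFun_inv_apply _ (hCm hd)]
          obtain ⟨h3, h4⟩ := h2 d hd
          have e : (autFun β d)⁻¹ * d = (d⁻¹ * autFun β d)⁻¹ := by group
          rw [e]
          exact ⟨T.inv_mem h3, C.inv_mem h4⟩ }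
  intro α hα
  have hTn' : E.IsFullyNormalized T := fullyNormalized_top
  obtain ⟨γ, hγ, s, hs, hsT, hαs⟩ := aut_decomp (FN.fa hTp hE hTn') hα
  have hFn : F.IsFullyNormalized T := by
    rw [fullyNormalized_iff]
    refine ⟨hTS, fun k hk => ?_⟩
    rw [img_sc_eq hT hk le_rfl]
  -- p'-elements
  have hcop : ∀ γ ∈ E.autGroup T, (orderOf γ).Coprime p → γ ∈ K := by
    intro γ hγ hγc
    have hγF : γ ∈ F.autGroup T := (mor_autFun_iff hTS).1 (hEF _ _ (mor_autFun le_rfl hγ))
    have hγm := mor_autFun hTS hγF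
    obtain ⟨k, hk, hkγ⟩ := receptive_extend (P := T) (f := autFun γ)
      (by rw [img_autFun]; exact FN.rec hS hF hFn) hγm
    have hle : T ⊔ C ≤ Nf S T (autFun γ) := sup_le hγm.le_Nf hγm.centralizer_le_Nf
    have hk' := hk.mono hle
    have hkC : ∀ c ∈ C, k c ∈ C := by
      intro c hc
      rw [hCdef, mem_centralizerIn]
      refine ⟨hk'.mem (hCm hc), fun t ht => ?_⟩
      have ht' : autFun γ⁻¹ t ∈ T := autFun_mem _ ht
      have e : t = k (autFun γ⁻¹ t) := by rw [hkγ _ ht', autFun_apply_inv _ ht]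
      rw [e, ← hk'.mul (hCm hc) (hTm ht'), ← hk'.mul (hTm ht') (hCm hc),
        (mem_centralizerIn.1 hc).2 _ ht']
    have himg : img (T ⊔ C) k = T ⊔ C := by
      refine eq_of_le_of_card ?_ hk'.card_img.ge
      rw [hk'.img_sup]
      refine sup_le ?_ ?_
      · rw [img_le_iff]; intro x hx; rw [hkγ x hx]; exact hTm (autFun_mem _ hx)
      · rw [img_le_iff]; intro x hx; exact hCm (hkC x hx)
    obtain ⟨β, hβ, hβk⟩ := hk'.exists_aut himg
    obtain ⟨j, hj1, hj2⟩ := exists_pprime_pow (Fact.out : p.Prime) β (orderOf_pos β).ne'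
    have hβT : ∀ n : ℕ, ∀ x ∈ T, autFun (β ^ n) x = autFun (γ ^ n) x := by
      intro n
      induction n with
      | zero => intro x hx; rw [pow_zero, pow_zero, autFun_one hx, autFun_one (hTm hx)]
      | succ n ih =>
        intro x hx
        rw [pow_succ', pow_succ', autFun_mul _ _ (hTm hx), autFun_mul _ _ hx, ih x hx,
          hβk _ (hTm (autFun_mem _ hx)), hkγ _ (autFun_mem _ hx)]
    have hdvd : orderOf γ ∣ orderOf β := by
      rw [orderOf_dvd_iff_pow_eq_one]
      apply mulAut_ext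
      intro x hx
      rw [← hβT _ x hx, pow_orderOf_eq_one, autFun_one hx, autFun_one (hTm hx)]
    have hj3 := hj2 _ hγc hdvd
    have hγj : γ ^ j = γ := by
      have := pow_inj_mod (x := γ) (n := j) (m := 1)
      rw [pow_one] at this
      rw [this]
      exact hj3
    have hβC : ∀ n : ℕ, ∀ c ∈ C, autFun (β ^ n) c ∈ C := by
      intro n
      induction n with
      | zero => intro x hx; rw [pow_zero, autFun_one (hCm hx)]; exact hx
      | succ n ih =>
        intro x hx
        rw [pow_succ', autFun_mul _ _ (hCm hx), hβk _ (hCm (ih x hx))]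
        exact hkC _ (ih x hx)
    have hβjF : β ^ j ∈ F.autGroup (T ⊔ C) := (F.autGroup _).pow_mem hβ j
    refine ⟨β ^ j, hβjF, fun x hx => by rw [hβT j x hx, hγj], fun c hc => ⟨?_, ?_⟩⟩
    · exact hhyp (hyp_coprime hTC hβjF hj1 (hCm hc))
    · exact C.mul_mem (C.inv_mem hc) (hβC j c hc)
  have hres : (γ : MulAut T) ∈ K := by
    have : (pResidual p (E.autGroup T)).map (E.autGroup T).subtype ≤ K := by
      rw [Subgroup.map_le_iff_le_comap]
      unfold pResidual
      rw [Subgroup.closure_le]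
      intro γ hγ
      exact hcop _ γ.2 (by
        show (orderOf ((γ : E.autGroup T) : MulAut T)).Coprime p
        rw [Subgroup.orderOf_coe]; exact hγ)
    exact this ⟨γ, hγ, rfl⟩
  -- conjugation by s
  have hsn : s ∈ Subgroup.normalizer (T : Set Ω) := hTnorm (hTS hs)
  have hcs : conjAut T s hsn ∈ K := by
    have hsm : s ∈ Subgroup.normalizer ((T ⊔ C : Subgroup Ω) : Set Ω) := by
      apply mem_normalizer_of_finite
      intro x hx
      exact (T ⊔ C).mul_mem ((T ⊔ C).mul_mem (hTm hs) hx) ((T ⊔ C).inv_mem (hTm hs))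
    refine ⟨conjAut (T ⊔ C) s hsm, autInducedBy_le hTC le_rfl (conjAut_mem hsm (hTS hs)), ?_, ?_⟩
    · intro x hx
      rw [autFun_conjAut hsm (hTm hx), autFun_conjAut hsn hx]
    · intro c hc
      rw [autFun_conjAut hsm (hCm hc), ← (mem_centralizerIn.1 hc).2 s hs]
      simp [T.one_mem, C.one_mem]
  have hfinal : α = (γ : MulAut T) * conjAut T s hsn := by
    apply mulAut_ext
    intro x hx
    rw [hαs x hx, autFun_mul _ _ hx, autFun_conjAut hsn hx]
  have : α ∈ K := by rw [hfinal]; exact K.mul_mem hres hcs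
  exact this

end Cfsg.Agent.H13
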