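import Mathlib
import Cfsg.Agent.H28.FusInv
import Cfsg.Agent.H28.FusInner
import Cfsg.Agent.H28.FusNormal2
import Cfsg.Agent.H28.Model5

/-!
# The centre of a fusion system as a direct factor of `Z(S)`
-/

set_option autoImplicit false
set_option linter.all false
open Cfsg Cfsg.FusionSystem

namespace Cfsg.Agent.H13

open Cfsg.Agent.H28

section

variable {A V : Type*} [Group A] [CommGroup V] (ρ : A →* MulAut V)

/-- fixed points of a subgroup. -/
def fixρ (B : Subgroup A) : Subgroup V where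
  carrier := {v | ∀ b ∈ B, ρ b v = v}
  mul_mem' := by intro a b ha hb α hα; rw [map_mul, ha α hα, hb α hα]
  one_mem' := by intro α _; exact map_one _
  inv_mem' := by intro a ha α hα; rw [map_inv, ha α hα]

/-- if `|A:B|` is prime to `|V|` then `C_V(A)` is a direct factor of `C_V(B)`. -/
theorem exists_compl_fixed [Finite A] [Finite V] (B : Subgroup A) (hcop : B.index.Coprime (Nat.card V)) :
    ∃ K : Subgroup V, K ≤ fixρ ρ B ∧ fixρ ρ ⊤ ⊓ K = ⊥ ∧ fixρ ρ ⊤ ⊔ K = fixρ ρ B := by
  classical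
  haveI := Fintype.ofFinite (A ⧸ B)
  have hwd : ∀ v ∈ fixρ ρ B, ∀ a b : A, QuotientGroup.leftRel B a b → ρ a v = ρ b v := by
    intro v hv a b hab
    rw [QuotientGroup.leftRel_apply] at hab
    have := hv _ hab
    rw [map_mul, map_inv] at this
    have h2 := congrArg (ρ a) this
    simpa using h2.symm
  let φ : fixρ ρ B → A ⧸ B → V := fun v => Quotient.lift (fun a => ρ a v) (hwd v v.2)
  have hφ : ∀ (v : fixρ ρ B) (a : A), φ v (QuotientGroup.mk a) = ρ a v := fun v a => rfl
  let t : fixρ ρ B →* V :=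
    { toFun := fun v => ∏ q : A ⧸ B, φ v q
      map_one' := by
        refine Finset.prod_eq_one fun q _ => ?_
        obtain ⟨a, rfl⟩ := QuotientGroup.mk_surjective q
        rw [hφ]; exact map_one _
      map_mul' := by
        intro v w
        rw [← Finset.prod_mul_distrib]
        refine Finset.prod_congr rfl fun q _ => ?_
        obtain ⟨a, rfl⟩ := QuotientGroup.mk_surjective q
        rw [hφ, hφ, hφ]; exact map_mul _ _ _ }
  have htfix : ∀ v, t v ∈ fixρ ρ ⊤ := by
    intro v c _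
    show ρ c (∏ q : A ⧸ B, φ v q) = ∏ q : A ⧸ B, φ v q
    rw [map_prod]
    refine Fintype.prod_equiv (MulAction.toPerm c) _ _ fun q => ?_
    obtain ⟨a, rfl⟩ := QuotientGroup.mk_surjective q
    rw [hφ]
    show ρ c (ρ a v) = φ v (QuotientGroup.mk (c * a))
    rw [hφ, map_mul]; rfl
  have htop : fixρ ρ ⊤ ≤ fixρ ρ B := fun v hv b hb => hv b trivial
  have htpow : ∀ v (hv : v ∈ fixρ ρ ⊤), t ⟨v, htop hv⟩ = v ^ B.index := by
    intro v hv
    show ∏ q : A ⧸ B, φ ⟨v, htop hv⟩ q = v ^ B.index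
    rw [Finset.prod_congr rfl (g := fun _ => v) (fun q _ => ?_), Finset.prod_const, Finset.card_univ,
      Subgroup.index_eq_card, Nat.card_eq_fintype_card]
    obtain ⟨a, rfl⟩ := QuotientGroup.mk_surjective q
    rw [hφ]; exact hv a trivial
  have hpow : ∀ v : V, v ^ B.index = 1 → v = 1 := by
    intro v hv
    have h1 : orderOf v ∣ B.index := orderOf_dvd_of_pow_eq_one hv
    have h2 : orderOf v ∣ Nat.card V := orderOf_dvd_natCard v
    have h3 := Nat.dvd_gcd h1 h2
    rw [hcop] at h3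
    exact orderOf_eq_one_iff.1 (Nat.dvd_one.1 h3)
  refine ⟨t.ker.map (fixρ ρ B).subtype, Subgroup.map_subtype_le _, ?_, ?_⟩
  · rw [eq_bot_iff]
    rintro v ⟨hv, w, hw, rfl⟩
    rw [Subgroup.mem_bot]
    apply hpow
    have h1 := htpow w hv
    have h2 : t w = 1 := hw
    exact h1.symm.trans h2
  · apply le_antisymm (sup_le htop (Subgroup.map_subtype_le _))
    intro v hv
    -- a root of `t v` in `C_V(A)`
    have hcop' : (Nat.card (fixρ ρ ⊤)).Coprime B.index :=
      (hcop.coprime_dvd_right (Subgroup.card_subgroup_dvd_card _)).symm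
    obtain ⟨u, hu⟩ : ∃ u : fixρ ρ ⊤, u ^ B.index = ⟨t ⟨v, hv⟩, htfix _⟩ :=
      ⟨_, (powCoprime hcop').right_inv _⟩
    have hu' : (u : V) ^ B.index = t ⟨v, hv⟩ := congrArg Subtype.val hu
    have e : v = (u : V) * ((u : V)⁻¹ * v) := by group
    rw [e]
    refine Subgroup.mul_mem_sup u.2 ⟨⟨(u : V)⁻¹ * v, ?_⟩, ?_, rfl⟩
    · exact (fixρ ρ B).mul_mem ((fixρ ρ B).inv_mem (htop u.2)) hv
    · show t _ = 1
      have h3 : (⟨(u : V)⁻¹ * v, (fixρ ρ B).mul_mem ((fixρ ρ B).inv_mem (htop u.2)) hv⟩ : fixρ ρ B) =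
          (⟨u, htop u.2⟩ : fixρ ρ B)⁻¹ * ⟨v, hv⟩ := rfl
      rw [h3, map_mul, map_inv, htpow _ u.2, hu', inv_mul_cancel]

end

variable {Ω : Type*} [Group Ω] {S : Subgroup Ω} {F : FusionSystem S} {p : ℕ}

theorem center_direct_factor [Fact p.Prime] [Finite S] (hS : IsPGroup p S) (hF : F.IsSaturated p)
    (hZ : (S ⊓ Subgroup.centralizer (S : Set Ω)) ≤ F.core) :
    ∃ K : Subgroup Ω, K ≤ (S ⊓ Subgroup.centralizer (S : Set Ω)) ∧ F.center ⊓ K = ⊥ ∧
      F.center ⊔ K = (S ⊓ Subgroup.centralizer (S : Set Ω)) := by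
  classical
  set Q := F.core with hQ
  have hQn : F.IsNormal Q := core_normal
  have hQS : Q ≤ S := normal_le hQn
  haveI : Finite Q := finite_of_le hQS
  haveI : Finite (MulAut Q) := finite_mulAut
  have hQsc := normal_stronglyClosed hQn
  have hfn : F.IsFullyNormalized Q := fullyNormalized_of_normal hQS (sc_normalizer hQsc)
  obtain ⟨R, hR⟩ := (FN.fa hS hF hfn).2
  letI : CommGroup (Subgroup.center Q) := { (inferInstance : Group (Subgroup.center Q)) with
    mul_comm := fun a b => Subtype.ext (Subgroup.mem_center_iff.1 b.2 a) }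
  let ρ : F.autGroup Q →* MulAut (Subgroup.center Q) :=
    { toFun := fun a => Subgroup.centerCongr (a : MulAut Q)
      map_one' := by ext x; rfl
      map_mul' := by intro a b; ext x; rfl }
  have hρ : ∀ (a : F.autGroup Q) (v : Subgroup.center Q), ((ρ a v : Q) : Ω) = autFun (a : MulAut Q) (v : Q) := by
    intro a v
    rw [autFun_coe]; rfl
  have hcop : (R : Subgroup (F.autGroup Q)).index.Coprime (Nat.card (Subgroup.center Q)) := by
    obtain ⟨k, hk⟩ := IsPGroup.iff_card.1 ((isPGroup_of_le hS hQS).to_subgroup (Subgroup.center Q))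
    rw [hk]
    exact Nat.Coprime.pow_right k (((Nat.Prime.coprime_iff_not_dvd Fact.out).2 R.not_dvd_index).symm)
  obtain ⟨K, hK1, hK2, hK3⟩ := exists_compl_fixed ρ (R : Subgroup (F.autGroup Q)) hcop
  let j : Subgroup.center Q →* Ω := Q.subtype.comp (Subgroup.center Q).subtype
  have hj : Function.Injective j := Q.subtype_injective.comp (Subgroup.subtype_injective _)
  have hjv : ∀ v : Subgroup.center Q, j v = ((v : Q) : Ω) := fun v => rfl
  have eB : (fixρ ρ (R : Subgroup (F.autGroup Q))).map j = S ⊓ Subgroup.centralizer (S : Set Ω) := by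
    apply le_antisymm
    · rintro _ ⟨v, hv, rfl⟩
      refine ⟨hQS (v : Q).2, Subgroup.mem_centralizer_iff.2 fun s hs => ?_⟩
      have hsN : s ∈ Subgroup.normalizer (Q : Set Ω) := sc_normalizer hQsc hs
      have h1 : conjAut Q s hsN ∈ autInducedBy S Q := conjAut_mem hsN hs
      have h2 : conjAut Q s hsN ∈ F.autGroup Q := autInducedBy_le hQS le_rfl h1
      have h3 : (⟨_, h2⟩ : F.autGroup Q) ∈ (R : Subgroup (F.autGroup Q)) := by
        rw [hR]; exact h1
      have h4 := hρ ⟨_, h2⟩ v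
      rw [hv _ h3, autFun_conjAut hsN (v : Q).2] at h4
      rw [hjv]
      calc s * ((v : Q) : Ω) = (s * ((v : Q) : Ω) * s⁻¹) * s := by group
        _ = ((v : Q) : Ω) * s := by rw [← h4]
    · intro z hz
      have hzQ : z ∈ Q := hZ hz
      have hzc : (⟨z, hzQ⟩ : Q) ∈ Subgroup.center Q := by
        rw [Subgroup.mem_center_iff]
        intro g
        exact Subtype.ext (Subgroup.mem_centralizer_iff.1 hz.2 g (hQS g.2))
      refine ⟨⟨⟨z, hzQ⟩, hzc⟩, ?_, rfl⟩
      intro b hb
      rw [hR, Subgroup.mem_subgroupOf] at hb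
      obtain ⟨s, hs, hss⟩ := mem_autInducedBy'.1 hb
      apply Subtype.ext
      apply Subtype.ext
      rw [hρ, hss _ hzQ]
      show s * z * s⁻¹ = z
      rw [Subgroup.mem_centralizer_iff.1 hz.2 s hs, mul_inv_cancel_right]
  have eA : (fixρ ρ ⊤).map j = F.center := by
    apply le_antisymm
    · rintro _ ⟨v, hv, rfl⟩
      have hc : F.IsCentral (Subgroup.zpowers (j v)) := by
        rw [central_iff hS hF]
        refine ⟨by rw [Subgroup.zpowers_le]; exact hQS (v : Q).2, ?_⟩
        rintro _ ⟨k, rfl⟩ P f hf hxP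
        obtain ⟨g, hg, hgf, him⟩ := (isNormal_iff.1 hQn).2 P f hf
        obtain ⟨α, hα, hαg⟩ := (hg.mono le_sup_right).exists_aut him
        have h1 := hρ ⟨α, hα⟩ v
        rw [hv ⟨α, hα⟩ trivial, hαg _ (v : Q).2] at h1
        have hjQ : j v ∈ P ⊔ Q := Subgroup.mem_sup_right (v : Q).2
        have h2 := hg.zpow hjQ k
        have h3 : g (j v) = j v := h1.symm
        rw [h3] at h2
        rw [← hgf _ hxP]; exact h2
      exact le_center hc (Subgroup.mem_zpowers _)
    · intro z hz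
      have hcc := center_central (F := F)
      have hz2 := F.center_le_centralizer hz
      have hzS : z ∈ S := hcc.1 hz
      rw [central_iff hS hF] at hcc
      have hzQ : z ∈ Q := hZ ⟨hzS, hz2⟩
      have hzc : (⟨z, hzQ⟩ : Q) ∈ Subgroup.center Q := by
        rw [Subgroup.mem_center_iff]
        intro g
        exact Subtype.ext (Subgroup.mem_centralizer_iff.1 hz2 g (hQS g.2))
      refine ⟨⟨⟨z, hzQ⟩, hzc⟩, fun a _ => ?_, rfl⟩
      apply Subtype.ext
      apply Subtype.ext
      rw [hρ]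
      exact hcc.2 z hz Q _ (mor_autFun hQS a.2) hzQ
  refine ⟨K.map j, ?_, ?_, ?_⟩
  · rw [← eB]; exact Subgroup.map_mono hK1
  · rw [← eA, ← Subgroup.map_inf _ _ _ hj, hK2, Subgroup.map_bot]
  · rw [← eA, ← Subgroup.map_sup, hK3, eB]

end Cfsg.Agent.H13
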