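import Mathlib
import Cfsg.Agent.H28.Mach7

/-!
The reduction machine for control theorems, with a weaker closure condition.
-/

set_option autoImplicit false
set_option linter.all false
open Cfsg Cfsg.FusionSystem
open Cfsg.Agent.H28

namespace Cfsg.Agent.H13

universe u v w

section
variable {Ω : Type u} [Group Ω] {S T : Subgroup Ω} {F E D : FusionSystem S} {P Q R V U X : Subgroup Ω}
  {f g k χ : Ω → Ω} {x y s t : Ω} {p : ℕ}

/-- The data of a control theorem. -/
structure CtrlCls2 (p : ℕ) (C : ∀ (Ω : Type u) [Group Ω] (S : Subgroup Ω), FusionSystem S → Prop)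
    (W : ∀ (Ω : Type u) [Group Ω], Subgroup Ω → Subgroup Ω) : Prop where
  W1 : ∀ (Ω : Type u) [Group Ω] (S : Subgroup Ω) [Finite S], IsPGroup p S → S ≠ ⊥ → W Ω S ≠ ⊥
  W2 : ∀ (Ω : Type u) [Group Ω] (S : Subgroup Ω), W Ω S ≤ S
  W3 : ∀ (Ω : Type u) [Group Ω] (S : Subgroup Ω) [Finite S], IsPGroup p S →
    ((W Ω S).subgroupOf S).Characteristic
  C1 : ∀ (Ω : Type u) [Group Ω] (S : Subgroup Ω) [Finite S] (F : FusionSystem S), IsPGroup p S →
    F.IsSaturated p → C Ω S F → ∀ U (hU : F.IsFullyNormalized U),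
      C Ω (normalizerIn S U) (normSys F U hU.1)
  C2 : ∀ (Ω : Type u) [Group Ω] (S : Subgroup Ω) [Finite S] (F : FusionSystem S), IsPGroup p S →
    F.IsSaturated p → C Ω S F → ∀ Q, F.IsNormal Q →
    (∀ g, Mor F Q g → ∃ s ∈ S, ∀ x ∈ Q, g x = s * x * s⁻¹) → ∀ (Ω' : Type u) [Group Ω'] (S' : Subgroup Ω')
      (θ : S →* Ω') (E : FusionSystem S'), F.IsFactorSystem Q θ E → C Ω' S' E
  C3 : ∀ (Ω : Type u) [Group Ω] (S : Subgroup Ω) [Finite S] (F : FusionSystem S), IsPGroup p S →
    F.IsSaturated p → C Ω S F → ∀ Q (hQ : F.IsNormal Q),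
      C Ω S (scSys F Q hQ.1 (normal_normalizer hQ))
  M : ∀ (Ω : Type u) [Group Ω] (S : Subgroup Ω) [Finite S] (F : FusionSystem S), IsPGroup p S →
    F.IsConstrained p → C Ω S F → F.IsNormal (W Ω S)

/-- The reduction machine for control theorems. -/
theorem ctrl_machine2 {p : ℕ} [Fact p.Prime]
    {C : ∀ (Ω : Type u) [Group Ω] (S : Subgroup Ω), FusionSystem S → Prop}
    {W : ∀ (Ω : Type u) [Group Ω], Subgroup Ω → Subgroup Ω}
    (hM : CtrlCls2 p C W) : ∀ (n : ℕ) (Ω : Type u) [Group Ω] (S : Subgroup Ω) [Finite S]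
      (F : FusionSystem S), Nat.card S ≤ n → IsPGroup p S → F.IsSaturated p → C Ω S F →
      F.IsNormal (W Ω S) := by
  intro n
  induction n with
  | zero =>
    intro Ω _ S _ F hn
    exact absurd (Nat.card_pos (α := S)) (by omega)
  | succ n ih =>
    intro Ω _ S _
    suffices h : ∀ (m : ℕ) (F : FusionSystem S), fsCard F ≤ m → Nat.card S ≤ n + 1 → IsPGroup p S →
        F.IsSaturated p → C Ω S F → F.IsNormal (W Ω S) from
      fun F h1 h2 h3 h4 => h _ F le_rfl h1 h2 h3 h4
    intro m
    induction m using Nat.strong_induction_on with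
    | _ m ihm =>
    intro F hm hn hS hF hC
    by_contra hne
    have hSne : S ≠ ⊥ := by
      rintro rfl
      apply hne
      have h1 : W Ω ⊥ = ⊥ := le_bot_iff.1 (hM.W2 Ω ⊥)
      rw [h1]; exact isNormal_bot
    have hWS := hM.W2 Ω S
    have hWn : S ≤ Subgroup.normalizer ((W Ω S : Subgroup Ω) : Set Ω) :=
      char_le_normalizerIn hWS (hM.W3 Ω S hS)
    have hnE : ¬ F ≤ normS F (W Ω S) hWS hWn := fun h =>
      hne (normS_eq_iff.1 (fs_le_antisymm normS_le h))
    -- subsystems
    have hsub : ∀ D : FusionSystem S, D ≤ F → D ≠ F → D.IsSaturated p → C Ω S D →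
        D ≤ normS F (W Ω S) hWS hWn := by
      intro D hD hDF hDs hDC
      have h1 := fsCard_lt hD hDF
      exact le_normS_of_normal hD (ihm _ (lt_of_lt_of_le h1 hm) D le_rfl hn hS hDs hDC)
    have hnot : ∀ V (hV : V ≤ S) (hSV : S ≤ Subgroup.normalizer (V : Set Ω)), ¬ F.IsNormal V →
        normS F V hV hSV ≤ normS F (W Ω S) hWS hWn := by
      intro V hV hSV hVn
      refine hsub _ normS_le (fun h => hVn (normS_eq_iff.1 h)) (normS_saturated hS hF) ?_
      exact castSys_prop (C Ω) (normalizerIn_eq hSV)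
        (hM.C1 Ω S F hS hF hC V (fullyNormalized_of_normal hV hSV))
    -- a nontrivial normal subgroup
    have hex : ∃ V ≤ S, V ≠ ⊥ ∧ F.IsNormal V := by
      by_contra hno
      apply hnE
      refine le_of_local hS hF hSne (fun V hV hSV hVne => hnot V hV hSV fun hVn =>
        hno ⟨V, hV, hVne, hVn⟩) (fun U hU hUne hlt => ?_)
      haveI : Finite (normalizerIn S U) := finite_of_le normalizerIn_le
      have hcard := card_lt_of_lt' hlt
      have hTp := isPGroup_of_le hS (normalizerIn_le (S := S) (P := U))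
      have hsat := normSys_saturated hS hF hU
      have hTne : normalizerIn S U ≠ ⊥ := by
        intro h
        apply hUne
        rw [eq_bot_iff, ← h]
        exact le_normalizerIn hU.1
      exact ⟨W Ω (normalizerIn S U), hM.W2 _ _, hM.W1 _ _ hTp hTne, hM.W3 _ _ hTp,
        ih Ω (normalizerIn S U) _ (by omega) hTp hsat (hM.C1 Ω S F hS hF hC U hU)⟩
    obtain ⟨V, hV, hVne, hVn⟩ := hex
    have hQ : F.IsNormal F.core := core_normal
    have hQne : F.core ≠ ⊥ := fun h => hVne (by rw [eq_bot_iff, ← h]; exact le_core hVn)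
    have hcen : ¬ centralizerIn S F.core ≤ F.core := by
      intro h
      apply hne
      refine hM.M Ω S F hS ⟨hF, F.core, hQ, ?_⟩ hC
      exact centric_of_fullyCentralized
        (FN.fc hS hF (fullyNormalized_of_normal hQ.1 (normal_normalizer hQ))) h
    have hmax : ∀ V, F.IsNormal V → V ≤ F.core := fun V hV => le_core hV
    generalize F.core = Q at hQ hQne hcen hmax
    have hQS := hQ.1
    have hN := normal_normalizer hQ
    have hsc := normal_stronglyClosed hQ
    have hRS : Q ⊔ centralizerIn S Q ≤ S := sup_le hQS centralizerIn_le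
    have hRn : S ≤ Subgroup.normalizer ((Q ⊔ centralizerIn S Q : Subgroup Ω) : Set Ω) := by
      intro s hs
      haveI : Finite (Q ⊔ centralizerIn S Q : Subgroup Ω) := finite_of_le hRS
      apply mem_normalizer_of_finite
      have h3 : (Q ⊔ centralizerIn S Q) ≤
          (Q ⊔ centralizerIn S Q).comap (MulAut.conj s).toMonoidHom := by
        refine sup_le (fun t ht => ?_) (fun c hc => ?_)
        · exact Subgroup.mem_comap.2 (le_sup_left (b := centralizerIn S Q)
            ((Subgroup.mem_normalizer_iff.1 (hN hs) t).1 ht))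
        · refine Subgroup.mem_comap.2 (le_sup_right (a := Q) ?_)
          show s * c * s⁻¹ ∈ centralizerIn S Q
          obtain ⟨hcS, hc'⟩ := mem_centralizerIn.1 hc
          refine mem_centralizerIn.2 ⟨mul_mem (mul_mem hs hcS) (inv_mem hs), fun y hy => ?_⟩
          have h4 : s⁻¹ * y * s ∈ Q := by
            have := (Subgroup.mem_normalizer_iff.1 (hN (inv_mem hs)) y).1 hy
            rwa [inv_inv] at this
          have h5 := hc' _ h4
          calc s * c * s⁻¹ * y = s * (c * (s⁻¹ * y * s)) * s⁻¹ := by group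
            _ = y * (s * c * s⁻¹) := by rw [h5]; group
      exact fun x hx => h3 hx
    have hnotn : ¬ F.IsNormal (Q ⊔ centralizerIn S Q) := fun h =>
      hcen (le_sup_right.trans (hmax _ h))
    have hR := hnot _ hRS hRn hnotn
    by_cases hsceq : scSys F Q hQS hN = F
    · -- every `F`-map acts on `Q` as an element of `S`
      have hin : ∀ g, Mor F Q g → ∃ s ∈ S, ∀ x ∈ Q, g x = s * x * s⁻¹ := by
        intro g hg
        rw [← hsceq] at hg
        obtain ⟨-, g', -, h1, s, hs, h2⟩ := mor_scSys'.1 hg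
        exact ⟨s, hs, fun x hx => by rw [← h1 x hx, h2 x hx]⟩
      haveI hQn : (Q.subgroupOf S).Normal := ⟨fun q hq s =>
        (Subgroup.mem_normalizer_iff.1 (hN s.2) (q : Ω)).1 hq⟩
      have hk : ∀ x ∈ S, tf (QuotientGroup.mk' (Q.subgroupOf S)) x = 1 ↔ x ∈ Q := by
        intro x hx
        rw [tf_apply _ hx]
        exact (QuotientGroup.eq_one_iff _)
      have hE := factorSys_isFactor (F := F) hsc hk
      set θ := QuotientGroup.mk' (Q.subgroupOf S) with hθdef
      set E := factorSys F Q hsc θ hk with hEdef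
      have hr := hE.2.2.1
      haveI : Finite θ.range := Finite.of_surjective θ.rangeRestrict θ.rangeRestrict_surjective
      have hS' : IsPGroup p θ.range := hS.of_surjective θ.rangeRestrict θ.rangeRestrict_surjective
      have hE' : E.IsSaturated p := surj_saturated hS hF (factor_surj hS hF hsc hE)
      have hcard := card_preimageAlong hk hE.1 hE.2.2.1 (le_refl θ.range)
      have hpre : preimageAlong θ θ.range = S := by
        apply le_antisymm preimageAlong_le
        intro x hx
        exact mem_preimageAlong.2 ⟨hx, tf_mem_range hx⟩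
      rw [hpre] at hcard
      haveI : Finite Q := finite_of_le hQS
      have h2 : 1 < Nat.card Q := by
        rw [← Nat.card_unique (α := (⊥ : Subgroup Ω))]
        exact card_lt_of_lt' (bot_lt_iff_ne_bot.2 hQne)
      have hS'pos : 0 < Nat.card θ.range := Nat.card_pos
      have hlt : Nat.card θ.range < Nat.card S := by
        rw [hcard]; nlinarith
      have hS'ne : θ.range ≠ ⊥ := by
        intro h
        apply hcen
        rw [h, Subgroup.card_bot, mul_one] at hcard
        have h3 : Q = S := eq_of_le_of_card hQS hcard.le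
        exact centralizerIn_le.trans h3.ge
      have hWE := ih _ θ.range E (by omega) hS' hE' (hM.C2 Ω S F hS hF hC _ hQ hin _ θ.range θ E hE)
      have h3 := preimage_normal_of_inner hS hF hQ hin hE hWE
      refine hM.W1 _ θ.range hS' hS'ne ?_
      rw [eq_bot_iff]
      intro y hy
      obtain ⟨x, hx, rfl⟩ := exists_preimage hr (hM.W2 _ _) hy
      rw [Subgroup.mem_bot]
      exact (hk x (preimageAlong_le hx)).2 (hmax _ h3 hx)
    · have h1 := hsub _ scSys_le hsceq (scSys_saturated hS hF) (hM.C3 Ω S F hS hF hC Q hQ)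
      apply hnE
      rw [le_iff_mor]
      intro P f hf
      obtain ⟨τ, c, hτ, h3, h4, hc, h5, h6⟩ := factorization hS hF hQ hf
      have h7 : Mor (normS F (W Ω S) hWS hWn) P τ := by
        apply le_iff_mor.1 hR
        refine mor_normS.2 ⟨hf.le, τ, hτ, fun _ _ => rfl, h4⟩
      have h8 : Q ≤ img (P ⊔ Q) τ := by
        conv_lhs => rw [← h3]
        exact img_mono le_sup_right
      have h9 : Mor (normS F (W Ω S) hWS hWn) (img (P ⊔ Q) τ) c := by
        apply le_iff_mor.1 h1
        refine mor_scSys'.2 ⟨hc.le, c, by rw [sup_eq_left.2 h8]; exact hc, fun _ _ => rfl, 1,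
          S.one_mem, fun x hx => by rw [h5 x hx]; simp⟩
      exact (h7.comp h9 fun x hx => mem_img_of_mem (le_sup_left (b := Q) hx)).congr
        fun x hx => (h6 x hx).symm

end
end Cfsg.Agent.H13
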