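import Mathlib
import Cfsg.Agent.H2.QD4

/-!
A plane lemma: from an action of `SL₂(p)` on a section to an action on a plane or a Heisenberg group.
-/

set_option autoImplicit false
set_option linter.all false

namespace Cfsg.Agent.H13

open Cfsg.Agent

section
variable {p : ℕ} [hp : Fact p.Prime]

/-- the standard transvections -/
def slA (p : ℕ) : Matrix.SpecialLinearGroup (Fin 2) (ZMod p) :=
  ⟨!![1, 1; 0, 1], by simp [Matrix.det_fin_two]⟩

def slB (p : ℕ) : Matrix.SpecialLinearGroup (Fin 2) (ZMod p) :=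
  ⟨!![1, 0; 1, 1], by simp [Matrix.det_fin_two]⟩

theorem pow_two_pow_eq_one_of_pgroup {R : Type*} [Group R] (hp2 : p ≠ 2) (hR : IsPGroup p R)
    {m : R} {k : ℕ} (h : m ^ 2 ^ k = 1) : m = 1 := by
  obtain ⟨j, hj⟩ := hR m
  have h1 : orderOf m ∣ 2 ^ k := orderOf_dvd_of_pow_eq_one h
  have h2 : orderOf m ∣ p ^ j := orderOf_dvd_of_pow_eq_one hj
  have h3 : Nat.Coprime (2 ^ k) (p ^ j) := by
    apply Nat.Coprime.pow
    exact (Nat.coprime_primes Nat.prime_two hp.out).2 (Ne.symm hp2)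
  have h4 : orderOf m = 1 := Nat.eq_one_of_dvd_coprimes h3 h1 h2
  exact orderOf_eq_one_iff.1 h4

theorem plane_lemma (hp2 : p ≠ 2) {R : Type*} [Group R] [Finite R] (hR : IsPGroup p R)
    {E : Type*} [Group E] [Finite E] (τ : E →* MulAut R) {x y : E}
    (hgen : Subgroup.closure {x, y} = ⊤) (π : R →* Multiplicative (Fin 2 → ZMod p))
    (hπ : Function.Surjective π)
    (hx : ∀ r, π (τ x r) = Multiplicative.ofAdd ((slA p).1.mulVec (π r).toAdd))
    (hy : ∀ r, π (τ y r) = Multiplicative.ofAdd ((slB p).1.mulVec (π r).toAdd))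
    (hM : ∀ e : E, (∃ k, e ^ 2 ^ k = 1) → ∀ m, π m = 1 → τ e m = m) :
    ∃ (a b : R) (x' y' : E) (c : ℕ),
      Commute a (a * b * a⁻¹ * b⁻¹) ∧ Commute b (a * b * a⁻¹ * b⁻¹) ∧ a ^ p = 1 ∧ b ^ p = 1 ∧
      π a = Multiplicative.ofAdd ![1, 0] ∧ π b = Multiplicative.ofAdd ![0, 1] ∧
      τ x' a = a ∧ τ x' b = a * b * (a * b * a⁻¹ * b⁻¹) ^ c ∧
      τ y' a = a * b * (a * b * a⁻¹ * b⁻¹) ^ c ∧ τ y' b = b := by
  classical
  -- the homomorphism to SL₂
  let ι : (Fin 2 → ZMod p) → Set R := fun k => {r | π r = Multiplicative.ofAdd k}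
  have hι : Function.Injective ι := by
    intro k l hkl
    obtain ⟨r, hr⟩ := hπ (Multiplicative.ofAdd k)
    have h1 : r ∈ ι k := hr
    rw [hkl] at h1
    have h2 : π r = Multiplicative.ofAdd l := h1
    rw [hr] at h2
    exact Multiplicative.ofAdd.injective h2
  have hset : ∀ (e : E) (A : Matrix.SpecialLinearGroup (Fin 2) (ZMod p)),
      (∀ r, π (τ e r) = Multiplicative.ofAdd (A.1.mulVec (π r).toAdd)) →
      ∀ k, (τ e) '' (ι k) = ι (A.1.mulVec k) := by
    intro e A h k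
    ext r
    constructor
    · rintro ⟨s, hs, rfl⟩
      have hs' : π s = Multiplicative.ofAdd k := hs
      show π (τ e s) = _
      rw [h, hs']; rfl
    · intro hr
      have hr' : π r = Multiplicative.ofAdd (A.1.mulVec k) := hr
      refine ⟨(τ e)⁻¹ r, ?_, MulAut.apply_inv_self R (τ e) r⟩
      have h1 := h ((τ e)⁻¹ r)
      rw [MulAut.apply_inv_self, hr'] at h1
      have h2 : A.1.mulVec k = A.1.mulVec (π ((τ e)⁻¹ r)).toAdd := Multiplicative.ofAdd.injective h1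
      have h3 : (A⁻¹ * A).1.mulVec k = (A⁻¹ * A).1.mulVec (π ((τ e)⁻¹ r)).toAdd := by
        rw [Matrix.SpecialLinearGroup.coe_mul, ← Matrix.mulVec_mulVec, ← Matrix.mulVec_mulVec, h2]
      rw [inv_mul_cancel, Matrix.SpecialLinearGroup.coe_one, Matrix.one_mulVec,
        Matrix.one_mulVec] at h3
      show π ((τ e)⁻¹ r) = Multiplicative.ofAdd k
      rw [h3]; rfl
  obtain ⟨φ, hφx, hφy, hφ⟩ := H2.exists_sl_hom (X := Set R) hgen (fun e s => (τ e) '' s)
    (fun s => by simp) (fun g h s => by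
      rw [map_mul, Set.image_image]; rfl) hι (hset x (slA p) hx) (hset y (slB p) hy)
  have hφ' : ∀ e r, π (τ e r) = Multiplicative.ofAdd ((φ e).1.mulVec (π r).toAdd) := by
    intro e r
    have h1 : τ e r ∈ (τ e) '' (ι (π r).toAdd) := ⟨r, rfl, rfl⟩
    rw [hφ] at h1
    exact h1
  have hsurj : Function.Surjective φ := by
    rw [← MonoidHom.range_eq_top]
    apply H2.eq_top_of_two
    · refine ⟨x, ?_⟩
      rw [hφx]
      apply Subtype.ext
      ext i j
      fin_cases i <;> fin_cases j <;> simp [slA, Matrix.SpecialLinearGroup.transvection, Matrix.transvection]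
    · refine ⟨y, ?_⟩
      rw [hφy]
      apply Subtype.ext
      ext i j
      fin_cases i <;> fin_cases j <;> simp [slB, Matrix.SpecialLinearGroup.transvection, Matrix.transvection]
  obtain ⟨T, hT2, ⟨t, htT, ht⟩, hN⟩ := H2.exists_two_local φ hsurj
  have h2pow : ∀ s ∈ T, ∃ k, s ^ 2 ^ k = 1 := by
    intro s hs
    obtain ⟨k, hk⟩ := hT2 ⟨s, hs⟩
    exact ⟨k, congrArg Subtype.val hk⟩
  -- elements of `T` acting trivially on the plane act trivially
  have htriv : ∀ s ∈ T, φ s = 1 → ∀ r, τ s r = r := by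
    intro s hs hs1 r
    obtain ⟨k, hk⟩ := h2pow s hs
    have h1 : π (r⁻¹ * τ s r) = 1 := by
      rw [map_mul, map_inv, hφ', hs1, Matrix.SpecialLinearGroup.coe_one, Matrix.one_mulVec]
      exact inv_mul_cancel _
    have h2 := hM s ⟨k, hk⟩ _ h1
    have h3 : ∀ n : ℕ, τ (s ^ n) r = r * (r⁻¹ * τ s r) ^ n := by
      intro n
      induction n with
      | zero => simp
      | succ n ih =>
        rw [pow_succ' s, map_mul, MulAut.mul_apply, ih, map_mul, map_pow, h2]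
        have e1 : τ s r = r * (r⁻¹ * τ s r) := by group
        generalize r⁻¹ * τ s r = m at e1 ⊢
        rw [e1, pow_succ' m, mul_assoc]
    have h4 := h3 (2 ^ k)
    rw [hk, map_one, MulAut.one_apply] at h4
    have h5 : (r⁻¹ * τ s r) ^ 2 ^ k = 1 := by
      have := mul_left_cancel (a := r) (b := 1) (c := (r⁻¹ * τ s r) ^ 2 ^ k) (by rw [mul_one]; exact h4)
      exact this.symm
    have h6 := pow_two_pow_eq_one_of_pgroup hp2 hR h5
    rw [inv_mul_eq_one] at h6
    exact h6.symm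
  have hneg : ∀ v : Fin 2 → ZMod p, (φ t).1.mulVec v = -v := by
    intro v
    rw [ht, Matrix.neg_mulVec, Matrix.one_mulVec]
  have htt : ∀ r, τ t (τ t r) = r := by
    intro r
    have h1 : φ (t * t) = 1 := by
      apply Subtype.ext
      rw [map_mul, Matrix.SpecialLinearGroup.coe_mul, ht]
      simp
    have := htriv (t * t) (mul_mem htT htT) h1 r
    rwa [map_mul, MulAut.mul_apply] at this
  have htn : ∀ n ∈ Subgroup.normalizer (T : Set E), ∀ r, τ n (τ t r) = τ t (τ n r) := by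
    intro n hn r
    have h1 : n * t * n⁻¹ ∈ T := (Subgroup.mem_normalizer_iff.1 hn t).1 htT
    have hcc : φ (t⁻¹ * (n * t * n⁻¹)) = 1 := by
      have h2 : φ n * φ t = φ t * φ n := by
        apply Subtype.ext
        rw [Matrix.SpecialLinearGroup.coe_mul, Matrix.SpecialLinearGroup.coe_mul, ht]
        simp
      rw [map_mul, map_mul, map_mul, map_inv, map_inv, h2]
      group
    have h3 := htriv _ (mul_mem (inv_mem htT) h1) hcc
    have h4 : τ (n * t * n⁻¹) (τ n r) = τ t (τ n r) := by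
      have h5 := h3 (τ n r)
      rw [map_mul, MulAut.mul_apply, map_inv] at h5
      have h6 := congrArg (τ t) h5
      rwa [MulAut.apply_inv_self] at h6
    rw [← h4, ← MulAut.mul_apply, ← MulAut.mul_apply, ← map_mul, ← map_mul]
    congr 2
    group
  have hfix : ∀ m, π m = 1 → τ t m = m := hM t (h2pow t htT)
  -- the elements `r⁻¹ t(r)`
  have hu1 : ∀ r, τ t (r⁻¹ * τ t r) = (r⁻¹ * τ t r)⁻¹ := by
    intro r
    rw [map_mul, htt, map_inv, mul_inv_rev, inv_inv]
  have hu2 : ∀ r m, π m = 1 → Commute (r⁻¹ * τ t r) m := by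
    intro r m hm
    have h1 : π (r * m * r⁻¹) = 1 := by
      rw [map_mul, map_mul, hm, map_inv, mul_one, mul_inv_cancel]
    have h2 := hfix _ h1
    rw [map_mul, map_mul, map_inv, hfix m hm] at h2
    show r⁻¹ * τ t r * m = m * (r⁻¹ * τ t r)
    have h3 : τ t r * m = r * m * r⁻¹ * τ t r := by rw [← h2]; group
    rw [mul_assoc, h3]; group
  have huniq : ∀ v w, τ t v = v⁻¹ → τ t w = w⁻¹ → π v = π w → (∀ m, π m = 1 → Commute v m) →
      v = w := by
    intro v w hv hw hvw hc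
    have hm : π (v⁻¹ * w) = 1 := by rw [map_mul, map_inv, hvw, inv_mul_cancel]
    obtain ⟨m, hm1, rfl⟩ : ∃ m, π m = 1 ∧ w = v * m := ⟨v⁻¹ * w, hm, by group⟩
    rw [map_mul, hv, hfix m hm1, mul_inv_rev] at hw
    have h1 : m⁻¹ * v⁻¹ = v⁻¹ * m⁻¹ := ((hc m hm1).inv_inv).eq.symm
    rw [h1] at hw
    have h2 : m = m⁻¹ := mul_left_cancel hw
    have h3 : m ^ 2 ^ 1 = 1 := by
      rw [pow_one, sq]
      nth_rewrite 2 [h2]
      exact mul_inv_cancel m
    rw [pow_two_pow_eq_one_of_pgroup hp2 hR h3, mul_one]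
  have hex : ∀ v : Fin 2 → ZMod p, ∃ u, τ t u = u⁻¹ ∧ π u = Multiplicative.ofAdd v ∧
      ∀ m, π m = 1 → Commute u m := by
    intro v
    have h20 : (2 : ZMod p) ≠ 0 := by
      intro h
      have h1 : ((2 : ℕ) : ZMod p) = 0 := by exact_mod_cast h
      rw [ZMod.natCast_eq_zero_iff] at h1
      exact hp2 ((Nat.prime_dvd_prime_iff_eq hp.out Nat.prime_two).1 h1)
    obtain ⟨r, hr⟩ := hπ (Multiplicative.ofAdd (-((2 : ZMod p)⁻¹ • v)))
    refine ⟨r⁻¹ * τ t r, hu1 r, ?_, hu2 r⟩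
    rw [map_mul, map_inv, hφ', hneg, hr]
    rw [← ofAdd_neg, ← ofAdd_add]
    congr 1
    rw [toAdd_ofAdd, neg_neg, ← add_smul]
    have : (2 : ZMod p)⁻¹ + (2 : ZMod p)⁻¹ = 1 := by
      rw [← two_mul, mul_inv_cancel₀ h20]
    rw [this, one_smul]
  obtain ⟨a, ha1, ha2, ha3⟩ := hex ![1, 0]
  obtain ⟨b, hb1, hb2, hb3⟩ := hex ![0, 1]
  have hz : π (a * b * a⁻¹ * b⁻¹) = 1 := by
    rw [map_mul, map_mul, map_mul, map_inv, map_inv, mul_comm (π a) (π b)]
    group
  have hcp : ∀ (u : R), τ t u = u⁻¹ → (∃ v : Fin 2 → ZMod p, π u = Multiplicative.ofAdd v) → u ^ p = 1 := by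
    rintro u hu ⟨v, hv⟩
    have h1 : π (u ^ p) = 1 := by
      rw [map_pow, hv, ← ofAdd_nsmul]
      have : p • v = 0 := by
        funext i
        simp
      rw [this]; rfl
    have h2 := hfix _ h1
    rw [map_pow, hu] at h2
    have h3 : (u ^ p) ^ 2 ^ 1 = 1 := by
      rw [pow_one, sq]
      nth_rewrite 1 [← h2]
      rw [inv_pow, inv_mul_cancel]
    exact pow_two_pow_eq_one_of_pgroup hp2 hR h3
  have hap := hcp a ha1 ⟨_, ha2⟩
  have hbp := hcp b hb1 ⟨_, hb2⟩
  generalize hzdef : a * b * a⁻¹ * b⁻¹ = z at hz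
  have hza : Commute a z := ha3 z hz
  have hzb : Commute b z := hb3 z hz
  have hab : a * b * a⁻¹ = z * b := by rw [← hzdef]; group
  have hzp : z ^ p = 1 := by
    have h1 : (a * b * a⁻¹) ^ p = z ^ p * b ^ p := by rw [hab, hzb.symm.mul_pow]
    have h2 : (a * b * a⁻¹) ^ p = a * b ^ p * a⁻¹ := conj_pow
    rw [h2, hbp] at h1
    simpa using h1.symm
  obtain ⟨c, hc⟩ : ∃ c, p = 2 * c + 1 := by
    obtain ⟨k, hk⟩ := hp.out.odd_of_ne_two hp2
    exact ⟨k, hk⟩
  have hba : b⁻¹ * a⁻¹ = a⁻¹ * b⁻¹ * z⁻¹ := by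
    rw [← hzdef]; group
  have hwt : τ t (a * b * z ^ c) = (a * b * z ^ c)⁻¹ := by
    rw [map_mul, map_mul, ha1, hb1, map_pow, hfix z hz, mul_inv_rev, mul_inv_rev, hba]
    have h1 : Commute (a⁻¹ * b⁻¹ * z⁻¹) (z ^ c)⁻¹ := by
      apply Commute.inv_right
      apply Commute.pow_right
      exact (hza.inv_left.mul_left hzb.inv_left).mul_left (Commute.refl z).inv_left
    rw [← h1.eq]
    have h2 : z ^ c = z⁻¹ * (z ^ c)⁻¹ := by
      have h3 : z ^ c * z ^ c * z = 1 := by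
        rw [← pow_add, ← pow_succ, show c + c + 1 = p by omega, hzp]
      rw [← mul_inv_rev, eq_inv_iff_mul_eq_one, ← mul_assoc]
      exact h3
    rw [mul_assoc (a⁻¹ * b⁻¹), ← h2]
  have hw3 : ∀ m, π m = 1 → Commute (a * b * z ^ c) m := by
    intro m hm
    refine ((ha3 m hm).mul_left (hb3 m hm)).mul_left (Commute.pow_left ?_ _)
    rw [← hzdef]
    exact (((ha3 m hm).mul_left (hb3 m hm)).mul_left (ha3 m hm).inv_left).mul_left
      (hb3 m hm).inv_left
  have hwπ : π (a * b * z ^ c) = Multiplicative.ofAdd ![1, 1] := by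
    rw [map_mul, map_mul, map_pow, hz, one_pow, mul_one, ha2, hb2, ← ofAdd_add]
    congr 1
    funext i
    fin_cases i <;> simp
  obtain ⟨x', hx'T, hx'⟩ := hN (slA p)
  obtain ⟨y', hy'T, hy'⟩ := hN (slB p)
  have hτu : ∀ n ∈ Subgroup.normalizer (T : Set E), ∀ u, τ t u = u⁻¹ → τ t (τ n u) = (τ n u)⁻¹ := by
    intro n hn u hu
    rw [← htn n hn, hu, map_inv]
  refine ⟨a, b, x', y', c, hzdef ▸ hza, hzdef ▸ hzb, hap, hbp, ha2, hb2, ?_, ?_, ?_, ?_⟩
  · refine (huniq a _ ha1 (hτu x' hx'T a ha1) ?_ ha3).symm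
    rw [hφ', hx', ha2]
    congr 1
    funext i
    fin_cases i <;> simp [slA, Matrix.mulVec, dotProduct, Fin.sum_univ_two]
  · rw [hzdef]
    refine (huniq _ _ hwt (hτu x' hx'T b hb1) ?_ hw3).symm
    rw [hφ', hx', hb2, hwπ]
    congr 1
    funext i
    fin_cases i <;> simp [slA, Matrix.mulVec, dotProduct, Fin.sum_univ_two]
  · rw [hzdef]
    refine (huniq _ _ hwt (hτu y' hy'T a ha1) ?_ hw3).symm
    rw [hφ', hy', ha2, hwπ]
    congr 1
    funext i
    fin_cases i <;> simp [slB, Matrix.mulVec, dotProduct, Fin.sum_univ_two]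
  · refine (huniq b _ hb1 (hτu y' hy'T b hb1) ?_ hb3).symm
    rw [hφ', hy', hb2]
    congr 1
    funext i
    fin_cases i <;> simp [slB, Matrix.mulVec, dotProduct, Fin.sum_univ_two]

end
end Cfsg.Agent.H13
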