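import Mathlib
import Cfsg.Agent.H13.PStab2
import Cfsg.Agent.H2.QD5
import Cfsg.Agent.H2.Frat
import Cfsg.Agent.H28.FusSurj

/-!
Quadratic action and Heisenberg planes.
-/

set_option autoImplicit false
set_option linter.all false

namespace Cfsg.Agent.H13

open Cfsg.Agent

section
variable {p : ℕ} [hp : Fact p.Prime] {Γ : Type*} [Group Γ]

/-- the pair generates a plane or a Heisenberg group -/
def Hei (p : ℕ) (a b : Γ) : Prop :=
  Commute a (a * b * a⁻¹ * b⁻¹) ∧ Commute b (a * b * a⁻¹ * b⁻¹) ∧ a ^ p = 1 ∧ b ^ p = 1 ∧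
    ∀ i j : ℤ, a ^ i * b ^ j ∈ Subgroup.zpowers (a * b * a⁻¹ * b⁻¹) → (p : ℤ) ∣ i ∧ (p : ℤ) ∣ j

theorem hei_map_iff {Γ' : Type*} [Group Γ'] (f : Γ →* Γ') (hf : Function.Injective f) {a b : Γ} :
    Hei p (f a) (f b) ↔ Hei p a b := by
  unfold Hei
  have hz : f a * f b * (f a)⁻¹ * (f b)⁻¹ = f (a * b * a⁻¹ * b⁻¹) := by
    rw [map_mul, map_mul, map_mul, map_inv, map_inv]
  rw [hz]
  have hcm : ∀ u v : Γ, Commute (f u) (f v) ↔ Commute u v := by
    intro u v
    constructor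
    · intro h
      apply hf
      rw [map_mul, map_mul]; exact h
    · intro h; exact h.map f
  have h1 : ∀ u : Γ, (f u) ^ p = 1 ↔ u ^ p = 1 := by
    intro u
    rw [← map_pow, ← map_one f, hf.eq_iff]
  have h2 : ∀ (u v : Γ), f u ∈ Subgroup.zpowers (f v) ↔ u ∈ Subgroup.zpowers v := by
    intro u v
    rw [Subgroup.mem_zpowers_iff, Subgroup.mem_zpowers_iff]
    constructor
    · rintro ⟨k, hk⟩
      exact ⟨k, hf (by rw [map_zpow]; exact hk)⟩
    · rintro ⟨k, hk⟩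
      exact ⟨k, by rw [← map_zpow, hk]⟩
  rw [hcm, hcm, h1, h1]
  simp only [← map_zpow, ← map_mul, h2]

theorem hei_of_hom {a b : Γ} (h1 : Commute a (a * b * a⁻¹ * b⁻¹)) (h2 : Commute b (a * b * a⁻¹ * b⁻¹))
    (h3 : a ^ p = 1) (h4 : b ^ p = 1) (π : Γ →* Multiplicative (Fin 2 → ZMod p))
    (ha : π a = Multiplicative.ofAdd ![1, 0]) (hb : π b = Multiplicative.ofAdd ![0, 1]) :
    Hei p a b := by
  refine ⟨h1, h2, h3, h4, fun i j hij => ?_⟩
  have hz : π (a * b * a⁻¹ * b⁻¹) = 1 := by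
    rw [map_mul, map_mul, map_mul, map_inv, map_inv, mul_comm (π a) (π b)]
    group
  obtain ⟨k, hk⟩ := Subgroup.mem_zpowers_iff.1 hij
  have h5 : π (a ^ i * b ^ j) = 1 := by rw [← hk, map_zpow, hz, one_zpow]
  rw [map_mul, map_zpow, map_zpow, ha, hb, ← ofAdd_zsmul, ← ofAdd_zsmul, ← ofAdd_add] at h5
  have h6 : (i • ![1, 0] + j • ![0, 1] : Fin 2 → ZMod p) = 0 := h5
  constructor
  · have := congrFun h6 0
    simp at this
    exact (ZMod.intCast_zmod_eq_zero_iff_dvd i p).1 (by simpa using this)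
  · have := congrFun h6 1
    simp at this
    exact (ZMod.intCast_zmod_eq_zero_iff_dvd j p).1 (by simpa using this)

theorem Hei.swap {a b : Γ} (h : Hei p a b) (i j : ℤ) :
    b ^ j * a ^ i = a ^ i * b ^ j * (a * b * a⁻¹ * b⁻¹) ^ (-(i * j)) := by
  have hza := h.1
  have hzb := h.2.1
  generalize hz : a * b * a⁻¹ * b⁻¹ = z at hza hzb
  have h1 : ∀ j : ℤ, a * b ^ j * a⁻¹ = b ^ j * z ^ j := by
    intro j
    rw [← conj_zpow, show a * b * a⁻¹ = b * z by rw [hzb.eq, ← hz]; group, hzb.mul_zpow]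
  have h2 : ∀ i j : ℤ, b ^ j * a ^ i * (b ^ j)⁻¹ = a ^ i * z ^ (-(i * j)) := by
    intro i j
    rw [← conj_zpow]
    have h3 : b ^ j * a * (b ^ j)⁻¹ = a * z ^ (-j) := by
      have h4 := h1 j
      have h5 : a * b ^ j = b ^ j * z ^ j * a := by rw [← h4]; group
      have h6 : Commute a (z ^ j) := hza.zpow_right j
      have h7 : b ^ j * a = a * b ^ j * z ^ (-j) := by
        rw [h5, mul_assoc (b ^ j), ← h6.eq, zpow_neg]; group
      have h8 : Commute (b ^ j) (z ^ (-j)) := (hzb.zpow_left j).zpow_right (-j)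
      rw [h7, mul_assoc a, h8.eq]; group
    rw [h3, (hza.zpow_right (-j)).mul_zpow, ← zpow_mul]
    congr 2; ring
  have h3 := h2 i j
  have h8 : Commute (b ^ j) (z ^ (-(i * j))) := (hzb.zpow_left j).zpow_right _
  rw [mul_assoc (a ^ i), h8.eq, ← mul_assoc, ← h3]; group

theorem Hei.mul_form {a b : Γ} (h : Hei p a b) (i j k i' j' k' : ℤ) :
    a ^ i * b ^ j * (a * b * a⁻¹ * b⁻¹) ^ k * (a ^ i' * b ^ j' * (a * b * a⁻¹ * b⁻¹) ^ k') =
      a ^ (i + i') * b ^ (j + j') * (a * b * a⁻¹ * b⁻¹) ^ (-(i' * j) + k + k') := by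
  have hba := h.swap
  have hza := h.1
  have hzb := h.2.1
  generalize hz : a * b * a⁻¹ * b⁻¹ = z at hza hzb hba ⊢
  have hzk : ∀ (n m : ℤ), Commute (z ^ n) (a ^ m) := fun n m => ((hza.zpow_left m).zpow_right n).symm
  have hzk' : ∀ (n m : ℤ), Commute (z ^ n) (b ^ m) := fun n m => ((hzb.zpow_left m).zpow_right n).symm
  have e1 : a ^ i * b ^ j * z ^ k * (a ^ i' * b ^ j' * z ^ k') =
      a ^ i * (b ^ j * a ^ i') * b ^ j' * (z ^ k * z ^ k') := by
    have h1 : z ^ k * (a ^ i' * b ^ j') = a ^ i' * b ^ j' * z ^ k :=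
      ((hzk k i').mul_right (hzk' k j')).eq
    calc a ^ i * b ^ j * z ^ k * (a ^ i' * b ^ j' * z ^ k')
        = a ^ i * b ^ j * (z ^ k * (a ^ i' * b ^ j')) * z ^ k' := by group
      _ = _ := by rw [h1]; group
  rw [e1, hba i' j]
  have e2 : a ^ i * (a ^ i' * b ^ j * z ^ (-(i' * j))) * b ^ j' =
      a ^ (i + i') * b ^ (j + j') * z ^ (-(i' * j)) := by
    have h1 := (hzk' (-(i' * j)) j').eq
    calc a ^ i * (a ^ i' * b ^ j * z ^ (-(i' * j))) * b ^ j'
        = a ^ i * a ^ i' * b ^ j * (z ^ (-(i' * j)) * b ^ j') := by group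
      _ = _ := by rw [h1, zpow_add, zpow_add]; group
  rw [e2, zpow_add, zpow_add]; group

theorem Hei.form {a b : Γ} (h : Hei p a b) {d : Γ} (hd : d ∈ Subgroup.closure {a, b}) :
    ∃ i j k : ℤ, d = a ^ i * b ^ j * (a * b * a⁻¹ * b⁻¹) ^ k := by
  induction hd using Subgroup.closure_induction with
  | mem d hd =>
    rcases hd with rfl | rfl
    · exact ⟨1, 0, 0, by simp⟩
    · exact ⟨0, 1, 0, by simp⟩
  | one => exact ⟨0, 0, 0, by simp⟩
  | mul d e _ _ ihd ihe =>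
    obtain ⟨i, j, k, rfl⟩ := ihd
    obtain ⟨i', j', k', rfl⟩ := ihe
    exact ⟨_, _, _, h.mul_form i j k i' j' k'⟩
  | inv d _ ih =>
    obtain ⟨i, j, k, rfl⟩ := ih
    refine ⟨-i, -j, -k - i * j, ?_⟩
    rw [inv_eq_iff_mul_eq_one, h.mul_form]
    have e1 : -(-i * j) + k + (-k - i * j) = 0 := by ring
    rw [e1]; simp

theorem Hei.commute_z {a b : Γ} (h : Hei p a b) {x : Γ} (hx : x ∈ Subgroup.closure {a, b}) :
    Commute x (a * b * a⁻¹ * b⁻¹) := by
  obtain ⟨i, j, k, rfl⟩ := h.form hx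
  exact ((h.1.zpow_left i).mul_left (h.2.1.zpow_left j)).mul_left ((Commute.refl _).zpow_left k)

theorem Hei.z_mem {a b : Γ} : a * b * a⁻¹ * b⁻¹ ∈ Subgroup.closure {a, b} := by
  have ha : a ∈ Subgroup.closure {a, b} := Subgroup.subset_closure (Or.inl rfl)
  have hb : b ∈ Subgroup.closure {a, b} := Subgroup.subset_closure (Or.inr rfl)
  exact mul_mem (mul_mem (mul_mem ha hb) (inv_mem ha)) (inv_mem hb)

theorem Hei.exists_hom {a b : Γ} (h : Hei p a b) :
    ∃ ρ : Subgroup.closure {a, b} →* Multiplicative (Fin 2 → ZMod p),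
      (∀ d : Subgroup.closure {a, b}, (d : Γ) = a → ρ d = Multiplicative.ofAdd ![1, 0]) ∧
      (∀ d : Subgroup.closure {a, b}, (d : Γ) = b → ρ d = Multiplicative.ofAdd ![0, 1]) ∧
      ∀ d : Subgroup.closure {a, b}, ρ d = 1 ↔ (d : Γ) ∈ Subgroup.zpowers (a * b * a⁻¹ * b⁻¹) := by
  have huniq : ∀ i j k i' j' k' : ℤ, a ^ i * b ^ j * (a * b * a⁻¹ * b⁻¹) ^ k =
      a ^ i' * b ^ j' * (a * b * a⁻¹ * b⁻¹) ^ k' → (p : ℤ) ∣ i - i' ∧ (p : ℤ) ∣ j - j' := by
    intro i j k i' j' k' he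
    apply h.2.2.2.2
    have hzb := h.2.1
    generalize a * b * a⁻¹ * b⁻¹ = z at he hzb ⊢
    refine Subgroup.mem_zpowers_iff.2 ⟨k' - k, ?_⟩
    have h1 : a ^ (i - i') * b ^ (j - j') = b ^ j' * z ^ (k' - k) * b ^ (-j') := by
      have h2 : a ^ (i - i') * b ^ j * z ^ k = b ^ j' * z ^ k' := by
        have : a ^ (i - i') = (a ^ i')⁻¹ * a ^ i := by
          rw [← zpow_neg, ← zpow_add]; congr 1; ring
        rw [this, mul_assoc, mul_assoc, ← mul_assoc (a ^ i), he]; group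
      have h3 : a ^ (i - i') * b ^ j = b ^ j' * z ^ (k' - k) := by
        have h5 : a ^ (i - i') * b ^ j = a ^ (i - i') * b ^ j * z ^ k * (z ^ k)⁻¹ := by
          rw [mul_inv_cancel_right]
        rw [h5, h2, mul_assoc, zpow_sub z]
      rw [← h3, sub_eq_add_neg j, zpow_add]; group
    have h4 : Commute (b ^ j') (z ^ (k' - k)) := (hzb.zpow_left _).zpow_right _
    rw [h1, h4.eq]; group
  obtain ⟨ρ, hρ⟩ := H28.exists_hom_of_rel (X := Subgroup.closure {a, b})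
    (Y := Multiplicative (Fin 2 → ZMod p))
    (fun d v => ∃ i j k : ℤ, (d : Γ) = a ^ i * b ^ j * (a * b * a⁻¹ * b⁻¹) ^ k ∧
      v = Multiplicative.ofAdd ![(i : ZMod p), (j : ZMod p)])
    (fun d => by
      obtain ⟨i, j, k, hd⟩ := h.form d.2
      exact ⟨_, i, j, k, hd, rfl⟩)
    (by
      rintro d _ _ ⟨i, j, k, hd, rfl⟩ ⟨i', j', k', hd', rfl⟩
      rw [hd] at hd'
      obtain ⟨h1, h2⟩ := huniq _ _ _ _ _ _ hd'
      have h3 : (i : ZMod p) = i' := by
        rw [← sub_eq_zero, ← Int.cast_sub, ZMod.intCast_zmod_eq_zero_iff_dvd]; exact h1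
      have h4 : (j : ZMod p) = j' := by
        rw [← sub_eq_zero, ← Int.cast_sub, ZMod.intCast_zmod_eq_zero_iff_dvd]; exact h2
      rw [h3, h4])
    (by
      rintro d d' _ _ ⟨i, j, k, hd, rfl⟩ ⟨i', j', k', hd', rfl⟩
      refine ⟨i + i', j + j', -(i' * j) + k + k', ?_, ?_⟩
      · rw [Subgroup.coe_mul, hd, hd', h.mul_form]
      · rw [← ofAdd_add]
        congr 1
        funext t
        fin_cases t <;> simp)
  refine ⟨ρ, ?_, ?_, ?_⟩
  · intro d hd
    obtain ⟨i, j, k, h1, h2⟩ := hρ d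
    rw [hd] at h1
    have h3 : a ^ (1 : ℤ) * b ^ (0 : ℤ) * (a * b * a⁻¹ * b⁻¹) ^ (0 : ℤ) =
      a ^ i * b ^ j * (a * b * a⁻¹ * b⁻¹) ^ k := by rw [← h1]; simp
    obtain ⟨h4, h5⟩ := huniq _ _ _ _ _ _ h3
    rw [← ZMod.intCast_zmod_eq_zero_iff_dvd] at h4 h5
    push_cast at h4 h5
    rw [h2]
    congr 1
    funext t
    fin_cases t
    · simpa using (sub_eq_zero.1 h4).symm
    · simpa using h5
  · intro d hd
    obtain ⟨i, j, k, h1, h2⟩ := hρ d
    rw [hd] at h1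
    have h3 : a ^ (0 : ℤ) * b ^ (1 : ℤ) * (a * b * a⁻¹ * b⁻¹) ^ (0 : ℤ) =
      a ^ i * b ^ j * (a * b * a⁻¹ * b⁻¹) ^ k := by rw [← h1]; simp
    obtain ⟨h4, h5⟩ := huniq _ _ _ _ _ _ h3
    rw [← ZMod.intCast_zmod_eq_zero_iff_dvd] at h4 h5
    push_cast at h4 h5
    rw [h2]
    congr 1
    funext t
    fin_cases t
    · simpa using h4
    · simpa using (sub_eq_zero.1 h5).symm
  · intro d
    obtain ⟨i, j, k, h1, h2⟩ := hρ d
    constructor
    · intro h3
      rw [h2] at h3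
      have h4 : (![(i : ZMod p), (j : ZMod p)] : Fin 2 → ZMod p) = 0 := h3
      have h5 : (i : ZMod p) = 0 := by simpa using congrFun h4 0
      have h6 : (j : ZMod p) = 0 := by simpa using congrFun h4 1
      rw [ZMod.intCast_zmod_eq_zero_iff_dvd] at h5 h6
      obtain ⟨u, rfl⟩ := h5
      obtain ⟨v, rfl⟩ := h6
      refine Subgroup.mem_zpowers_iff.2 ⟨k, ?_⟩
      rw [h1, zpow_mul, zpow_mul, zpow_natCast, zpow_natCast, h.2.2.1, h.2.2.2.1]
      simp
    · intro h3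
      rw [h1] at h3
      obtain ⟨l, hl⟩ := Subgroup.mem_zpowers_iff.1 h3
      have h4 : a ^ (0 : ℤ) * b ^ (0 : ℤ) * (a * b * a⁻¹ * b⁻¹) ^ l =
        a ^ i * b ^ j * (a * b * a⁻¹ * b⁻¹) ^ k := by rw [← hl]; simp
      obtain ⟨h4, h5⟩ := huniq _ _ _ _ _ _ h4
      rw [← ZMod.intCast_zmod_eq_zero_iff_dvd] at h4 h5
      push_cast at h4 h5
      rw [zero_sub, neg_eq_zero] at h4 h5
      rw [h2, h4, h5]
      show Multiplicative.ofAdd _ = Multiplicative.ofAdd 0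
      congr 1
      funext t
      fin_cases t <;> simp

/-- restriction of an action to an invariant subgroup -/
def resAct {E P : Type*} [Group E] [Group P] (τ : E →* MulAut P) (D : Subgroup P)
    (h : ∀ e, ∀ d ∈ D, τ e d ∈ D) : E →* MulAut D where
  toFun e :=
    { toFun := fun d => ⟨τ e d, h e d d.2⟩
      invFun := fun d => ⟨τ e⁻¹ d, h e⁻¹ d d.2⟩
      left_inv := fun d => Subtype.ext (by
        show τ e⁻¹ (τ e d) = d
        rw [← MulAut.mul_apply, ← map_mul, inv_mul_cancel, map_one]; rfl)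
      right_inv := fun d => Subtype.ext (by
        show τ e (τ e⁻¹ d) = d
        rw [← MulAut.mul_apply, ← map_mul, mul_inv_cancel, map_one]; rfl)
      map_mul' := fun c d => Subtype.ext (map_mul (τ e) (c : P) (d : P)) }
  map_one' := by
    ext d
    show τ 1 (d : P) = d
    rw [map_one]; rfl
  map_mul' e f := by
    ext d
    show τ (e * f) (d : P) = τ e (τ f d)
    rw [map_mul]; rfl

theorem resAct_coe {E P : Type*} [Group E] [Group P] (τ : E →* MulAut P) (D : Subgroup P)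
    (h : ∀ e, ∀ d ∈ D, τ e d ∈ D) (e : E) (d : D) : ((resAct τ D h e d : D) : P) = τ e d := rfl

/-- the action on the quotient by an invariant normal subgroup -/
def quoAct {E P : Type*} [Group E] [Group P] (τ : E →* MulAut P) (M : Subgroup P) [M.Normal]
    (h : ∀ e, ∀ d ∈ M, τ e d ∈ M) : E →* MulAut (P ⧸ M) where
  toFun e := QuotientGroup.congr M M (τ e) (by
    apply le_antisymm
    · rintro _ ⟨d, hd, rfl⟩
      exact h e d hd
    · intro d hd
      refine ⟨τ e⁻¹ d, h e⁻¹ d hd, ?_⟩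
      show τ e (τ e⁻¹ d) = d
      rw [← MulAut.mul_apply, ← map_mul, mul_inv_cancel, map_one]; rfl)
  map_one' := by
    ext d
    induction d using QuotientGroup.induction_on with
    | H d =>
      show ((τ 1 d : P) : P ⧸ M) = d
      rw [map_one]; rfl
  map_mul' e f := by
    ext d
    induction d using QuotientGroup.induction_on with
    | H d =>
      show ((τ (e * f) d : P) : P ⧸ M) = ((τ e (τ f d) : P) : P ⧸ M)
      rw [map_mul]; rfl

theorem quoAct_mk {E P : Type*} [Group E] [Group P] (τ : E →* MulAut P) (M : Subgroup P) [M.Normal]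
    (h : ∀ e, ∀ d ∈ M, τ e d ∈ M) (e : E) (d : P) :
    quoAct τ M h e (d : P ⧸ M) = ((τ e d : P) : P ⧸ M) := rfl

theorem fix_of_fix_pgroup {E P : Type*} [Group E] [Group P] [Finite P] (hP : IsPGroup p P)
    (τ : E →* MulAut P) {k : E} (hk0 : orderOf k ≠ 0) (hk : (orderOf k).Coprime p) {r : P}
    (h : τ k (r⁻¹ * τ k r) = r⁻¹ * τ k r) : τ k r = r := by
  have h3 : ∀ n : ℕ, τ (k ^ n) r = r * (r⁻¹ * τ k r) ^ n := by
    intro n
    induction n with
    | zero => simp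
    | succ n ih =>
      rw [pow_succ' k, map_mul, MulAut.mul_apply, ih, map_mul, map_pow, h]
      have e1 : τ k r = r * (r⁻¹ * τ k r) := by group
      generalize r⁻¹ * τ k r = m at e1 ⊢
      rw [e1, pow_succ' m, mul_assoc]
  have h4 := h3 (orderOf k)
  rw [pow_orderOf_eq_one, map_one, MulAut.one_apply] at h4
  have h5 : (r⁻¹ * τ k r) ^ orderOf k = 1 := by
    have := mul_left_cancel (a := r) (b := 1) (c := (r⁻¹ * τ k r) ^ orderOf k) (by
      rw [mul_one]; exact h4)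
    exact this.symm
  obtain ⟨j, hj⟩ := hP (r⁻¹ * τ k r)
  have h6 : orderOf (r⁻¹ * τ k r) = 1 :=
    Nat.eq_one_of_dvd_coprimes (Nat.Coprime.pow_right j hk) (orderOf_dvd_of_pow_eq_one h5)
      (orderOf_dvd_of_pow_eq_one hj)
  rw [orderOf_eq_one_iff, inv_mul_eq_one] at h6
  exact h6.symm

end
end Cfsg.Agent.H13
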