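import Mathlib
import Cfsg.Agent.H13.PStab3

/-!
Quadratic action of a two generator group on a `p`-group yields a Heisenberg plane.
-/

set_option autoImplicit false
set_option linter.all false

namespace Cfsg.Agent.H13

open Cfsg.Agent

universe u v

section
variable {p : ℕ} [hp : Fact p.Prime]

theorem closure_forall {E : Type*} [Group E] [Finite E] {s : Set E} {Q : E → Prop} (h1 : Q 1)
    (hm : ∀ a b, Q a → Q b → Q (a * b)) (hs : ∀ a ∈ s, Q a) : ∀ e ∈ Subgroup.closure s, Q e := by
  intro e he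
  induction he using Subgroup.closure_induction with
  | mem x hx => exact hs x hx
  | one => exact h1
  | mul x y _ _ hx hy => exact hm x y hx hy
  | inv x _ hx =>
    have hpow : ∀ n : ℕ, Q (x ^ n) := by
      intro n
      induction n with
      | zero => simpa using h1
      | succ n ih => rw [pow_succ]; exact hm _ _ ih hx
    have h2 : x ^ (orderOf x - 1) = x⁻¹ := by
      rw [eq_inv_iff_mul_eq_one, ← pow_succ, Nat.sub_add_cancel (orderOf_pos x), pow_orderOf_eq_one]
    rw [← h2]; exact hpow _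

theorem coprime_of_two_pow {E : Type*} [Group E] (hp2 : p ≠ 2) {e : E} {k : ℕ} (h : e ^ 2 ^ k = 1) :
    (orderOf e).Coprime p := by
  have h1 : orderOf e ∣ 2 ^ k := orderOf_dvd_of_pow_eq_one h
  exact Nat.Coprime.coprime_dvd_left h1 (Nat.Coprime.pow_left k
    ((Nat.coprime_primes Nat.prime_two hp.out).2 (Ne.symm hp2)))

theorem action_plane (hp2 : p ≠ 2) : ∀ (n : ℕ) (P : Type u) [Group P] [Finite P], IsPGroup p P →
    ∀ {E : Type v} [Group E] [Finite E] (τ : E →* MulAut P) {g h : E},
      Subgroup.closure {g, h} = ⊤ → (∀ v, τ g (v⁻¹ * τ g v) = v⁻¹ * τ g v) →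
      (∀ v, τ h (v⁻¹ * τ h v) = v⁻¹ * τ h v) → (∃ k : E, (orderOf k).Coprime p ∧ τ k ≠ 1) →
      Nat.card P ≤ n →
    ∃ (a b : P) (x' y' : E) (c : ℕ), Hei p a b ∧
      τ x' a = a ∧ τ x' b = a * b * (a * b * a⁻¹ * b⁻¹) ^ c ∧
      τ y' a = a * b * (a * b * a⁻¹ * b⁻¹) ^ c ∧ τ y' b = b := by
  intro n
  induction n with
  | zero =>
    intro P _ _ _ E _ _ _ _ _ _ _ _ _ hn
    exact absurd (Nat.card_pos (α := P)) (by omega)
  | succ n ih =>
  intro P _ _ hP E _ _ τ g h hgen hg hh hk hn
  by_cases hmin : ∃ D : Subgroup P, D ≠ ⊤ ∧ (∀ e, ∀ d ∈ D, τ e d ∈ D) ∧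
      ∃ k : E, (orderOf k).Coprime p ∧ ∃ d ∈ D, τ k d ≠ d
  · obtain ⟨D, hDne, hDinv, k, hk, d, hd, hkd⟩ := hmin
    have hcard : Nat.card D < Nat.card P := by
      have h1 := Subgroup.card_le_card_group D
      refine lt_of_le_of_ne h1 fun h2 => hDne ?_
      exact Subgroup.eq_top_of_card_eq D h2
    obtain ⟨a, b, x', y', c, h1, h2, h3, h4, h5⟩ := ih D (hP.to_subgroup D) (resAct τ D hDinv) hgen
      (fun v => Subtype.ext (hg v)) (fun v => Subtype.ext (hh v))
      ⟨k, hk, fun h => hkd (by
        have := congrArg (fun f : MulAut D => ((f ⟨d, hd⟩ : D) : P)) h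
        exact this)⟩ (by omega)
    refine ⟨a, b, x', y', c, (hei_map_iff D.subtype D.subtype_injective).2 h1, ?_, ?_, ?_, ?_⟩
    · exact congrArg Subtype.val h2
    · exact congrArg Subtype.val h3
    · exact congrArg Subtype.val h4
    · exact congrArg Subtype.val h5
  push Not at hmin
  obtain ⟨k, hk, hk1⟩ := hk
  let X : Set (Subgroup P) := {D | D ≠ ⊤ ∧ ∀ e, ∀ d ∈ D, τ e d ∈ D}
  let M : Subgroup P := sSup X
  have hMfix : ∀ k : E, (orderOf k).Coprime p → ∀ m ∈ M, τ k m = m := by
    intro k hk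
    let Fk : Subgroup P :=
      { carrier := {r | τ k r = r}
        mul_mem' := by
          intro a b ha hb
          show τ k (a * b) = a * b
          rw [map_mul, show τ k a = a from ha, show τ k b = b from hb]
        one_mem' := map_one _
        inv_mem' := by
          intro a ha
          show τ k a⁻¹ = a⁻¹
          rw [map_inv, show τ k a = a from ha] }
    have : M ≤ Fk := sSup_le fun D hD d hd => hmin D hD.1 hD.2 k hk d hd
    exact fun m hm => this hm
  have hMinv : ∀ e, ∀ m ∈ M, τ e m ∈ M := by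
    intro e
    have : M ≤ M.comap (τ e).toMonoidHom := sSup_le fun D hD d hd =>
      (le_sSup hD : D ≤ M) (hD.2 e d hd)
    exact fun m hm => this hm
  have hMne : M ≠ ⊤ := by
    intro h
    apply hk1
    ext r
    exact hMfix k hk r (h ▸ Subgroup.mem_top r)
  have hPnt : Nontrivial P := by
    by_contra hcon
    rw [not_nontrivial_iff_subsingleton] at hcon
    apply hk1
    ext r
    exact Subsingleton.elim _ _
  have hfrat : frattini P ≤ M := by
    apply le_sSup
    refine ⟨fun h => ?_, fun e d hd => ?_⟩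
    · have := H2.eq_top_of_sup_frattini (H := (⊥ : Subgroup P)) (by rw [h]; simp)
      exact bot_ne_top this
    · have h1 : (frattini P).map (τ e).toMonoidHom = frattini P :=
        Subgroup.characteristic_iff_map_eq.1 inferInstance (τ e)
      rw [← h1]
      exact ⟨d, hd, rfl⟩
  have hcM : ∀ a b : P, a * b * a⁻¹ * b⁻¹ ∈ M := fun a b =>
    hfrat (H2.commutator_le_frattini hP (Subgroup.commutator_mem_commutator
      (Subgroup.mem_top a) (Subgroup.mem_top b)))
  haveI hMn : M.Normal := ⟨fun m hm g => by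
    have : g * m * g⁻¹ = (g * m * g⁻¹ * m⁻¹) * m := by group
    rw [this]; exact mul_mem (hcM g m) hm⟩
  have hVc : ∀ v w : P ⧸ M, v * w = w * v := by
    intro v w
    induction v using QuotientGroup.induction_on with
    | H v =>
    induction w using QuotientGroup.induction_on with
    | H w =>
      rw [← QuotientGroup.mk_mul, ← QuotientGroup.mk_mul, QuotientGroup.eq]
      have := hcM w⁻¹ v⁻¹
      have e : (v * w)⁻¹ * (w * v) = w⁻¹ * v⁻¹ * w⁻¹⁻¹ * v⁻¹⁻¹ := by group
      rw [e]; exact this
  have hVe : ∀ v : P ⧸ M, v ^ p = 1 := by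
    intro v
    induction v using QuotientGroup.induction_on with
    | H v =>
      rw [← QuotientGroup.mk_pow, QuotientGroup.eq_one_iff]
      exact hfrat (H2.pow_mem_frattini hP v)
  have hquad : ∀ g : E, (∀ v, τ g (v⁻¹ * τ g v) = v⁻¹ * τ g v) → ∀ v : P ⧸ M,
      quoAct τ M hMinv g (quoAct τ M hMinv g v * v⁻¹) = quoAct τ M hMinv g v * v⁻¹ := by
    intro g hg v
    induction v using QuotientGroup.induction_on with
    | H v =>
      rw [hVc (quoAct τ M hMinv g (v : P ⧸ M)) _, quoAct_mk, ← QuotientGroup.mk_inv,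
        ← QuotientGroup.mk_mul, quoAct_mk, hg]
  rcases H2.qd_mulAut (K := AlgebraicClosure (ZMod p)) hp2 hVc hVe (quoAct τ M hMinv) hgen
    (hquad g hg) (hquad h hh) with ⟨x, y, ι, hι, hx, hy⟩ | hall
  · let E₁ : Subgroup E := Subgroup.closure {x, y}
    let R : Subgroup P := ι.range.comap (QuotientGroup.mk' M)
    have hE₁ : ∀ e ∈ E₁, ∀ r ∈ R, τ e r ∈ R := by
      apply closure_forall
      · intro r hr; rw [map_one]; exact hr
      · intro a b ha hb r hr
        rw [map_mul]
        exact ha _ (hb _ hr)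
      · rintro e (rfl | rfl)
        · rintro r ⟨k, hk⟩
          refine ⟨_, ((hx k.toAdd).symm.trans ?_)⟩
          rw [show ι (Multiplicative.ofAdd k.toAdd) = (r : P ⧸ M) from hk]
          rfl
        · rintro r ⟨k, hk⟩
          refine ⟨_, ((hy k.toAdd).symm.trans ?_)⟩
          rw [show ι (Multiplicative.ofAdd k.toAdd) = (r : P ⧸ M) from hk]
          rfl
    have hinv : ∀ e : E₁, ∀ r ∈ R, (τ.comp E₁.subtype) e r ∈ R := fun e r hr => hE₁ e e.2 r hr
    let eι := MonoidHom.ofInjective hι
    let q : R →* ι.range := (QuotientGroup.mk' M).subgroupComap ι.range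
    let π : R →* Multiplicative (Fin 2 → ZMod p) := eι.symm.toMonoidHom.comp q
    have hπι : ∀ r : R, ι (π r) = ((r : P) : P ⧸ M) := by
      intro r
      have h1 : eι (π r) = q r := eι.apply_symm_apply (q r)
      exact congrArg Subtype.val h1
    have hπs : Function.Surjective π := by
      intro v
      obtain ⟨r, hr⟩ := QuotientGroup.mk'_surjective M (ι v)
      refine ⟨⟨r, ⟨v, hr.symm⟩⟩, hι ?_⟩
      rw [hπι]; exact hr
    have hxE : x ∈ E₁ := Subgroup.subset_closure (Or.inl rfl)
    have hyE : y ∈ E₁ := Subgroup.subset_closure (Or.inr rfl)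
    have hact : ∀ (e : E₁) (r : R), ι (π (resAct (τ.comp E₁.subtype) R hinv e r)) =
        quoAct τ M hMinv (e : E) (ι (π r)) := by
      intro e r
      rw [hπι, hπι]; rfl
    obtain ⟨a, b, x', y', c, h1, h2, h3, h4, h5, h6, h7, h8, h9, h10⟩ :=
      plane_lemma hp2 (hP.to_subgroup R) (resAct (τ.comp E₁.subtype) R hinv)
        (x := ⟨x, hxE⟩) (y := ⟨y, hyE⟩) (H2.closure_pair_subgroup hxE hyE rfl) π hπs
        (fun r => hι (by rw [hact]; exact hx _)) (fun r => hι (by rw [hact]; exact hy _))
        (by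
          rintro e ⟨k, hk⟩ m hm
          apply Subtype.ext
          show τ (e : E) (m : P) = m
          apply hMfix
          · apply coprime_of_two_pow hp2 (k := k)
            exact congrArg Subtype.val hk
          · have h1 := hπι m
            rw [hm, map_one] at h1
            exact (QuotientGroup.eq_one_iff _).1 h1.symm)
    refine ⟨a, b, x', y', c, (hei_map_iff R.subtype R.subtype_injective).2
      (hei_of_hom h1 h2 h3 h4 π h5 h6), ?_, ?_, ?_, ?_⟩
    · exact congrArg Subtype.val h7
    · exact congrArg Subtype.val h8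
    · exact congrArg Subtype.val h9
    · exact congrArg Subtype.val h10
  · exfalso
    obtain ⟨m, hm⟩ := hall k
    have h1 : quoAct τ M hMinv k = 1 := by
      have h2 : orderOf (quoAct τ M hMinv k) ∣ p ^ m := orderOf_dvd_of_pow_eq_one hm
      have h3 : orderOf (quoAct τ M hMinv k) ∣ orderOf k := orderOf_map_dvd _ _
      have h4 : orderOf (quoAct τ M hMinv k) = 1 :=
        Nat.eq_one_of_dvd_coprimes (Nat.Coprime.pow_right m hk) h3 h2
      exact orderOf_eq_one_iff.1 h4
    apply hk1
    ext r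
    apply fix_of_fix_pgroup hP τ (orderOf_pos k).ne' hk
    apply hMfix k hk
    rw [← QuotientGroup.eq, ← quoAct_mk τ M hMinv, h1]; rfl

end
end Cfsg.Agent.H13
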