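import Mathlib
import Cfsg.Agent.H13.PStab1
import Cfsg.Agent.H13.PStab4
import Cfsg.Agent.H28.GCtl1
import Cfsg.Agent.H28.Solv1

/-!
Fusion systems without `SL₂(p)`-planes.
-/

set_option autoImplicit false
set_option linter.all false
open Cfsg Cfsg.FusionSystem
open Cfsg.Agent.H28

namespace Cfsg.Agent.H13

open Cfsg.Agent

universe u v

section
variable {Ω : Type u} [Group Ω] {S T : Subgroup Ω} {F : FusionSystem S} {E : FusionSystem T}
  {P Q R : Subgroup Ω} {p : ℕ}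

/-- a configuration of a plane or Heisenberg group with `SL₂(p)` acting. -/
def PlCfg (p : ℕ) (F : FusionSystem S) (a b : Ω) : Prop :=
  Hei p a b ∧ ∃ (f g : Ω → Ω) (c : ℕ), Mor F (Subgroup.closure {a, b}) f ∧
    Mor F (Subgroup.closure {a, b}) g ∧ f a = a ∧ f b = a * b * (a * b * a⁻¹ * b⁻¹) ^ c ∧
    g a = a * b * (a * b * a⁻¹ * b⁻¹) ^ c ∧ g b = b

def NB (p : ℕ) (F : FusionSystem S) : Prop := ∀ a b, ¬ PlCfg p F a b

theorem NB.mono (h : NB p F) (hEF : ∀ P f, Mor E P f → Mor F P f) : NB p E := by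
  rintro a b ⟨h1, f, g, c, h2, h3, h4⟩
  exact h a b ⟨h1, f, g, c, hEF _ _ h2, hEF _ _ h3, h4⟩

theorem nb_normSys (h : NB p F) {U : Subgroup Ω} (hU : U ≤ S) : NB p (normSys F U hU) :=
  h.mono fun P f hf => by
    obtain ⟨-, -, g, hg, h1, -⟩ := mor_normSys.1 hf
    exact (hg.mono le_sup_left).congr h1

theorem nb_scSys (h : NB p F) {U : Subgroup Ω} (hU : U ≤ S)
    (hn : S ≤ Subgroup.normalizer (U : Set Ω)) : NB p (scSys F U hU hn) :=
  h.mono fun P f hf => by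
    obtain ⟨-, g, hg, h1, -⟩ := mor_scSys.1 hf
    exact (hg.mono le_sup_left).congr h1

theorem Mor.map_zpowers' {E : FusionSystem T} {D : Subgroup Ω} {f : Ω → Ω} (hf : Mor E D f) {x : Ω} (hx : x ∈ D)
    (hfx : f x = x) : ∀ y ∈ Subgroup.zpowers x, f y = y := by
  intro y hy
  obtain ⟨k, rfl⟩ := Subgroup.mem_zpowers_iff.1 hy
  rw [hf.zpow hx, hfx]

theorem PlCfg.fz {a b : Ω} {f : Ω → Ω} {D : Subgroup Ω} (hf : Mor F D f) (ha : a ∈ D) (hb : b ∈ D)
    (h : Hei p a b) {c : ℕ} (h1 : f a = a ∧ f b = a * b * (a * b * a⁻¹ * b⁻¹) ^ c ∨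
      f a = a * b * (a * b * a⁻¹ * b⁻¹) ^ c ∧ f b = b) :
    f (a * b * a⁻¹ * b⁻¹) = a * b * a⁻¹ * b⁻¹ := by
  have e : f (a * b * a⁻¹ * b⁻¹) = f a * f b * (f a)⁻¹ * (f b)⁻¹ := by
    rw [hf.mul (mul_mem (mul_mem ha hb) (inv_mem ha)) (inv_mem hb),
      hf.mul (mul_mem ha hb) (inv_mem ha), hf.mul ha hb, hf.inv ha, hf.inv hb]
  rw [e]
  have hza : Commute a ((a * b * a⁻¹ * b⁻¹) ^ c) := h.1.pow_right c
  have hzb : Commute b ((a * b * a⁻¹ * b⁻¹) ^ c) := h.2.1.pow_right c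
  have hz1 := h.1
  have hz2 := h.2.1
  rcases h1 with ⟨h1, h2⟩ | ⟨h1, h2⟩
  · rw [h1, h2]
    generalize hw : (a * b * a⁻¹ * b⁻¹) ^ c = w at hza hzb
    have h3 : a * (a * b * w) * a⁻¹ = a * (a * b * a⁻¹) * w := by
      calc a * (a * b * w) * a⁻¹ = a * a * b * (w * a⁻¹) := by group
        _ = a * a * b * (a⁻¹ * w) := by rw [hza.inv_left.eq]
        _ = _ := by group
    have hz : a * (a * b * a⁻¹ * b⁻¹) = (a * b * a⁻¹ * b⁻¹) * a := hz1.eq
    calc a * (a * b * w) * a⁻¹ * (a * b * w)⁻¹ = a * (a * b * a⁻¹) * w * (a * b * w)⁻¹ := by rw [h3]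
      _ = a * (a * b * a⁻¹ * b⁻¹) * a⁻¹ := by group
      _ = _ := by rw [hz]; group
  · rw [h1, h2]
    generalize hw : (a * b * a⁻¹ * b⁻¹) ^ c = w at hza hzb
    calc a * b * w * b * (a * b * w)⁻¹ * b⁻¹ = a * b * (w * b) * w⁻¹ * b⁻¹ * a⁻¹ * b⁻¹ := by group
      _ = a * b * (b * w) * w⁻¹ * b⁻¹ * a⁻¹ * b⁻¹ := by rw [hzb.eq]
      _ = _ := by group

/-- the standard matrices as homomorphisms of the plane -/
def slAct (A : Matrix.SpecialLinearGroup (Fin 2) (ZMod p)) :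
    Multiplicative (Fin 2 → ZMod p) →* Multiplicative (Fin 2 → ZMod p) :=
  AddMonoidHom.toMultiplicative (A.1.mulVecLin.toAddMonoidHom)

theorem slAct_apply (A : Matrix.SpecialLinearGroup (Fin 2) (ZMod p))
    (v : Multiplicative (Fin 2 → ZMod p)) :
    slAct A v = Multiplicative.ofAdd (A.1.mulVec v.toAdd) := rfl

theorem hom_ext_closure {Γ Δ : Type*} [Group Γ] [Group Δ] {a b : Γ}
    {f g : Subgroup.closure ({a, b} : Set Γ) →* Δ}
    (haD : a ∈ Subgroup.closure ({a, b} : Set Γ)) (hbD : b ∈ Subgroup.closure ({a, b} : Set Γ))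
    (ha : f ⟨a, haD⟩ = g ⟨a, haD⟩) (hb : f ⟨b, hbD⟩ = g ⟨b, hbD⟩) : f = g := by
  apply MonoidHom.eq_of_eqOn_dense (H2.closure_pair_subgroup haD hbD rfl)
  rintro d (rfl | rfl)
  · exact ha
  · exact hb

theorem PlCfg.rho {a b : Ω} (h : Hei p a b)
    {ρ : Subgroup.closure {a, b} →* Multiplicative (Fin 2 → ZMod p)}
    (h1 : ∀ d : Subgroup.closure {a, b}, (d : Ω) = a → ρ d = Multiplicative.ofAdd ![1, 0])
    (h2 : ∀ d : Subgroup.closure {a, b}, (d : Ω) = b → ρ d = Multiplicative.ofAdd ![0, 1])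
    (h3 : ∀ d : Subgroup.closure {a, b}, ρ d = 1 ↔ (d : Ω) ∈ Subgroup.zpowers (a * b * a⁻¹ * b⁻¹))
    (x : MulAut (Subgroup.closure {a, b})) {c : ℕ} :
    (autFun x a = a → autFun x b = a * b * (a * b * a⁻¹ * b⁻¹) ^ c →
      ∀ d, ρ (x d) = Multiplicative.ofAdd ((slA p).1.mulVec (ρ d).toAdd)) ∧
    (autFun x a = a * b * (a * b * a⁻¹ * b⁻¹) ^ c → autFun x b = b →
      ∀ d, ρ (x d) = Multiplicative.ofAdd ((slB p).1.mulVec (ρ d).toAdd)) := by
  have ha : a ∈ Subgroup.closure {a, b} := Subgroup.subset_closure (Or.inl rfl)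
  have hb : b ∈ Subgroup.closure {a, b} := Subgroup.subset_closure (Or.inr rfl)
  have hzD : a * b * a⁻¹ * b⁻¹ ∈ Subgroup.closure {a, b} := Hei.z_mem
  have hw : ρ (⟨a, ha⟩ * ⟨b, hb⟩ * (⟨_, hzD⟩ : Subgroup.closure {a, b}) ^ c) =
      Multiplicative.ofAdd ![1, 1] := by
    have hz : ρ ⟨_, hzD⟩ = 1 := (h3 _).2 (Subgroup.mem_zpowers _)
    rw [map_mul, map_mul, map_pow, hz, one_pow, mul_one, h1 _ rfl, h2 _ rfl, ← ofAdd_add]
    congr 1
    funext i
    fin_cases i <;> simp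
  constructor
  · intro hxa hxb
    have : ρ.comp x.toMonoidHom = (slAct (slA p)).comp ρ := by
      apply hom_ext_closure ha hb
      · show ρ (x _) = slAct (slA p) (ρ _)
        have e : x ⟨a, ha⟩ = ⟨a, ha⟩ := Subtype.ext (by rw [← autFun_coe]; exact hxa)
        rw [e, h1 _ rfl, slAct_apply]
        congr 1
        funext i
        fin_cases i <;> simp [slA, Matrix.mulVec, dotProduct, Fin.sum_univ_two]
      · show ρ (x _) = slAct (slA p) (ρ _)
        have e : x ⟨b, hb⟩ = ⟨a, ha⟩ * ⟨b, hb⟩ * (⟨_, hzD⟩ : Subgroup.closure {a, b}) ^ c :=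
          Subtype.ext (by rw [← autFun_coe]; exact hxb)
        rw [e, hw, h2 _ rfl, slAct_apply]
        congr 1
        funext i
        fin_cases i <;> simp [slA, Matrix.mulVec, dotProduct, Fin.sum_univ_two]
    intro d
    exact congrArg (fun f : Subgroup.closure {a, b} →* Multiplicative (Fin 2 → ZMod p) => f d) this
  · intro hxa hxb
    have : ρ.comp x.toMonoidHom = (slAct (slB p)).comp ρ := by
      apply hom_ext_closure ha hb
      · show ρ (x _) = slAct (slB p) (ρ _)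
        have e : x ⟨a, ha⟩ = ⟨a, ha⟩ * ⟨b, hb⟩ * (⟨_, hzD⟩ : Subgroup.closure {a, b}) ^ c :=
          Subtype.ext (by rw [← autFun_coe]; exact hxa)
        rw [e, hw, h1 _ rfl, slAct_apply]
        congr 1
        funext i
        fin_cases i <;> simp [slB, Matrix.mulVec, dotProduct, Fin.sum_univ_two]
      · show ρ (x _) = slAct (slB p) (ρ _)
        have e : x ⟨b, hb⟩ = ⟨b, hb⟩ := Subtype.ext (by rw [← autFun_coe]; exact hxb)
        rw [e, h2 _ rfl, slAct_apply]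
        congr 1
        funext i
        fin_cases i <;> simp [slB, Matrix.mulVec, dotProduct, Fin.sum_univ_two]
    intro d
    exact congrArg (fun f : Subgroup.closure {a, b} →* Multiplicative (Fin 2 → ZMod p) => f d) this

/-- the two maps of a configuration are automorphisms. -/
theorem PlCfg.exists_aut [Finite S] {a b : Ω} (h : PlCfg p F a b) :
    Hei p a b ∧ ∃ x ∈ F.autGroup (Subgroup.closure {a, b}), ∃ y ∈ F.autGroup (Subgroup.closure {a, b}),
      ∃ c : ℕ, autFun x a = a ∧ autFun x b = a * b * (a * b * a⁻¹ * b⁻¹) ^ c ∧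
        autFun y a = a * b * (a * b * a⁻¹ * b⁻¹) ^ c ∧ autFun y b = b := by
  obtain ⟨hH, f, g, c, hf, hg, h1, h2, h3, h4⟩ := h
  have ha : a ∈ Subgroup.closure {a, b} := Subgroup.subset_closure (Or.inl rfl)
  have hb : b ∈ Subgroup.closure {a, b} := Subgroup.subset_closure (Or.inr rfl)
  have hzD : a * b * a⁻¹ * b⁻¹ ∈ Subgroup.closure {a, b} := Hei.z_mem
  have hw : a * b * (a * b * a⁻¹ * b⁻¹) ^ c ∈ Subgroup.closure {a, b} :=
    mul_mem (mul_mem ha hb) (pow_mem hzD c)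
  have key : ∀ f : Ω → Ω, Mor F (Subgroup.closure {a, b}) f → f a ∈ Subgroup.closure {a, b} →
      f b ∈ Subgroup.closure {a, b} → img (Subgroup.closure {a, b}) f = Subgroup.closure {a, b} := by
    intro f hf hfa hfb
    haveI : Finite (Subgroup.closure {a, b}) := finite_of_le hf.le
    apply eq_of_le_of_card
    · rw [img_le_iff]
      intro x hx
      induction hx using Subgroup.closure_induction with
      | mem x hx =>
        rcases hx with rfl | rfl
        · exact hfa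
        · exact hfb
      | one => rw [hf.one]; exact one_mem _
      | mul x y hx hy ihx ihy => rw [hf.mul hx hy]; exact mul_mem ihx ihy
      | inv x hx ih => rw [hf.inv hx]; exact inv_mem ih
    · rw [hf.card_img]
  obtain ⟨x, hx, hx'⟩ := hf.exists_aut (key f hf (by rw [h1]; exact ha) (by rw [h2]; exact hw))
  obtain ⟨y, hy, hy'⟩ := hg.exists_aut (key g hg (by rw [h3]; exact hw) (by rw [h4]; exact hb))
  exact ⟨hH, x, hx, y, hy, c, by rw [hx' a ha, h1], by rw [hx' b hb, h2], by rw [hy' a ha, h3],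
    by rw [hy' b hb, h4]⟩

end
end Cfsg.Agent.H13
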