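import Mathlib
import Cfsg.Agent.H13.PStab5

/-!
Fusion systems without `SL₂(p)`-planes: the centre of the Thompson subgroup is normal.
-/

set_option autoImplicit false
set_option linter.all false
open Cfsg Cfsg.FusionSystem
open Cfsg.Agent.H28

namespace Cfsg.Agent.H13

open Cfsg.Agent
open scoped commutatorElement

universe u v

section
variable {Ω : Type u} [Group Ω] {S T : Subgroup Ω} {F : FusionSystem S} {E : FusionSystem T}
  {P Q R : Subgroup Ω} {p : ℕ}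

theorem fix_of_conj_two [Fact p.Prime] (hp2 : p ≠ 2) {G : Type*} [Group G] {s q : G} {j k : ℕ}
    (h1 : s ^ p ^ j = 1) (h2 : s ^ 2 ^ k * q * (s ^ 2 ^ k)⁻¹ = q) : s * q * s⁻¹ = q := by
  have hp := Fact.out (p := p.Prime)
  have hcop : IsCoprime ((2 ^ k : ℕ) : ℤ) ((p ^ j : ℕ) : ℤ) := by
    rw [Nat.isCoprime_iff_coprime]
    exact Nat.Coprime.pow _ _ ((Nat.coprime_primes Nat.prime_two hp).2 (Ne.symm hp2))
  obtain ⟨u, v, huv⟩ := hcop
  have hs : s = (s ^ 2 ^ k) ^ u := by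
    have : s ^ (u * ((2 ^ k : ℕ) : ℤ) + v * ((p ^ j : ℕ) : ℤ)) = s := by rw [huv, zpow_one]
    rw [zpow_add, mul_comm u, zpow_mul, zpow_natCast, mul_comm v, zpow_mul, zpow_natCast, h1,
      one_zpow, mul_one] at this
    exact this.symm
  have hc : Commute (s ^ 2 ^ k) q := by
    show s ^ 2 ^ k * q = q * s ^ 2 ^ k
    rw [mul_inv_eq_iff_eq_mul] at h2
    exact h2
  have h3 : Commute s q := by rw [hs]; exact hc.zpow_left u
  rw [h3.eq]; group

theorem nb_factor [Fact p.Prime] [Finite S] (hp2 : p ≠ 2) (hS : IsPGroup p S) (hF : F.IsSaturated p)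
    (hQ : F.IsNormal Q) (hin : ∀ g, Mor F Q g → ∃ s ∈ S, ∀ x ∈ Q, g x = s * x * s⁻¹)
    {Ω' : Type u} [Group Ω'] {S' : Subgroup Ω'} {θ : S →* Ω'} {E : FusionSystem S'}
    (hE : F.IsFactorSystem Q θ E) (h : NB p F) : NB p E := by
  have hsc := normal_stronglyClosed hQ
  intro a b hcfg
  have hr := hE.2.2.1
  haveI hS'fin : Finite S' := by
    rw [← hr]
    exact Finite.of_surjective θ.rangeRestrict θ.rangeRestrict_surjective
  obtain ⟨hH, x, hx, y, hy, c, hxa, hxb, hya, hyb⟩ := hcfg.exists_aut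
  have hDS : Subgroup.closure {a, b} ≤ S' := by
    obtain ⟨-, f, g, c', hf, -⟩ := hcfg
    exact hf.le
  have ha : a ∈ Subgroup.closure {a, b} := Subgroup.subset_closure (Or.inl rfl)
  have hb : b ∈ Subgroup.closure {a, b} := Subgroup.subset_closure (Or.inr rfl)
  have hzD : a * b * a⁻¹ * b⁻¹ ∈ Subgroup.closure {a, b} := Hei.z_mem
  obtain ⟨ρ, hρ1, hρ2, hρ3⟩ := hH.exists_hom
  have hρx := (PlCfg.rho hH hρ1 hρ2 hρ3 x (c := c)).1 hxa hxb
  have hρy := (PlCfg.rho hH hρ1 hρ2 hρ3 y (c := c)).2 hya hyb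
  have hzx : autFun x (a * b * a⁻¹ * b⁻¹) = a * b * a⁻¹ * b⁻¹ :=
    PlCfg.fz (mor_autFun hDS hx) ha hb hH (Or.inl ⟨hxa, hxb⟩)
  have hzy : autFun y (a * b * a⁻¹ * b⁻¹) = a * b * a⁻¹ * b⁻¹ :=
    PlCfg.fz (mor_autFun hDS hy) ha hb hH (Or.inr ⟨hya, hyb⟩)
  generalize hDdef : Subgroup.closure {a, b} = D at *
  let R : Subgroup Ω := preimageAlong θ D
  have hRS : R ≤ S := preimageAlong_le
  haveI : Finite R := finite_of_le hRS
  haveI := finite_mulAut (P := R)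
  have hRp := isPGroup_of_le hS hRS
  have hlift : ∀ x : MulAut D, x ∈ E.autGroup D → ∃ x' ∈ F.autGroup R,
      ∀ r ∈ R, tf θ (autFun x' r) = autFun x (tf θ r) := by
    intro x hx
    obtain ⟨-, f, hf, h1⟩ := (factor_mor_iff hE).1 (mor_autFun hDS hx)
    have h2 := factor_img hE hDS hf h1 hsc
    rw [img_autFun] at h2
    obtain ⟨x', hx', h3⟩ := hf.exists_aut h2
    exact ⟨x', hx', fun r hr => by rw [h3 r hr, h1 r hr]⟩
  obtain ⟨x₁, hx₁, hx₁'⟩ := hlift x hx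
  obtain ⟨y₁, hy₁, hy₁'⟩ := hlift y hy
  have htfD : ∀ r : R, tf θ (r : Ω) ∈ D := fun r => (mem_preimageAlong.1 r.2).2
  let q : R →* D := MonoidHom.mk' (fun r => ⟨tf θ (r : Ω), htfD r⟩) (fun r s => Subtype.ext
    (tf_mul (hRS r.2) (hRS s.2)))
  let π : R →* Multiplicative (Fin 2 → ZMod p) := ρ.comp q
  have hρs : Function.Surjective ρ := by
    intro v
    have h1 : ρ (⟨a, ha⟩ ^ (v.toAdd 0).val * ⟨b, hb⟩ ^ (v.toAdd 1).val) = v := by
      rw [map_mul, map_pow, map_pow, hρ1 _ rfl, hρ2 _ rfl, ← ofAdd_nsmul, ← ofAdd_nsmul, ← ofAdd_add]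
      show Multiplicative.ofAdd _ = Multiplicative.ofAdd v.toAdd
      congr 1
      funext i
      fin_cases i <;> simp
    exact ⟨_, h1⟩
  have hπs : Function.Surjective π := by
    intro v
    obtain ⟨d, hd⟩ := hρs v
    obtain ⟨r, hr1, hr2⟩ := exists_preimage hr hDS d.2
    refine ⟨⟨r, hr1⟩, ?_⟩
    show ρ (q ⟨r, hr1⟩) = v
    rw [← hd]
    congr 1
    exact Subtype.ext hr2
  let E₁ : Subgroup (MulAut R) := Subgroup.closure {x₁, y₁}
  have hx₁E : x₁ ∈ E₁ := Subgroup.subset_closure (Or.inl rfl)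
  have hy₁E : y₁ ∈ E₁ := Subgroup.subset_closure (Or.inr rfl)
  have hE₁ : ∀ e ∈ E₁, e ∈ F.autGroup R ∧ ∀ r ∈ R, tf θ r ∈ Subgroup.zpowers (a * b * a⁻¹ * b⁻¹) →
      tf θ (autFun e r) = tf θ r := by
    apply closure_forall
    · exact ⟨one_mem _, fun r hr _ => by rw [autFun_one hr]⟩
    · rintro e f ⟨he1, he2⟩ ⟨hf1, hf2⟩
      refine ⟨mul_mem he1 hf1, fun r hr hrz => ?_⟩
      rw [autFun_mul _ _ hr]
      have h1 := hf2 r hr hrz
      rw [he2 _ (autFun_mem f hr) (by rw [h1]; exact hrz), h1]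
    · rintro e (rfl | rfl)
      · refine ⟨hx₁, fun r hr hrz => ?_⟩
        rw [hx₁' r hr]
        exact Mor.map_zpowers' (mor_autFun hDS hx) hzD hzx _ hrz
      · refine ⟨hy₁, fun r hr hrz => ?_⟩
        rw [hy₁' r hr]
        exact Mor.map_zpowers' (mor_autFun hDS hy) hzD hzy _ hrz
  have hQR : Q ≤ R := factor_le_preimage hE
  have hfixQ : ∀ e ∈ E₁, ∀ k, e ^ 2 ^ k = 1 → ∀ q ∈ Q, autFun e q = q := by
    intro e he k hek q hq
    obtain ⟨s, hs, hsq⟩ := hin (autFun e) ((mor_autFun hRS (hE₁ e he).1).mono hQR)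
    have hn : ∀ n : ℕ, autFun (e ^ n) q = s ^ n * q * (s ^ n)⁻¹ ∧ autFun (e ^ n) q ∈ Q := by
      intro n
      induction n with
      | zero => rw [pow_zero, autFun_one (hQR hq)]; exact ⟨by simp, hq⟩
      | succ n ih =>
        rw [pow_succ' e, autFun_mul _ _ (hQR hq), hsq _ ih.2, ih.1, pow_succ']
        refine ⟨by group, ?_⟩
        rw [ih.1] at ih
        exact sc_conj hsc hs ih.2
    have h1 := (hn (2 ^ k)).1
    rw [hek, autFun_one (hQR hq)] at h1
    obtain ⟨j, hj⟩ := hS ⟨s, hs⟩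
    rw [hsq q hq]
    exact fix_of_conj_two hp2 (congrArg Subtype.val hj) h1.symm
  obtain ⟨a', b', x', y', c', h1, h2, h3, h4, h5, h6, h7, h8, h9, h10⟩ :=
    plane_lemma hp2 hRp E₁.subtype (x := ⟨x₁, hx₁E⟩) (y := ⟨y₁, hy₁E⟩)
      (H2.closure_pair_subgroup hx₁E hy₁E rfl) π hπs
      (fun r => by
        have e : q (x₁ r) = x (q r) := Subtype.ext (by
          show tf θ ((x₁ r : R) : Ω) = (x (q r) : D)
          rw [← autFun_coe x₁ r, hx₁' _ r.2, ← autFun_coe x (q r)]; rfl)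
        show ρ (q (x₁ r)) = _
        rw [e, hρx]; rfl)
      (fun r => by
        have e : q (y₁ r) = y (q r) := Subtype.ext (by
          show tf θ ((y₁ r : R) : Ω) = (y (q r) : D)
          rw [← autFun_coe y₁ r, hy₁' _ r.2, ← autFun_coe y (q r)]; rfl)
        show ρ (q (y₁ r)) = _
        rw [e, hρy]; rfl)
      (by
        rintro ⟨e, he⟩ ⟨k, hk⟩ m hm
        have hek : e ^ 2 ^ k = 1 := congrArg Subtype.val hk
        have h1 : tf θ (m : Ω) ∈ Subgroup.zpowers (a * b * a⁻¹ * b⁻¹) := (hρ3 (q m)).1 hm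
        have h2 := (hE₁ e he).2 m m.2 h1
        have h3 : (m : Ω)⁻¹ * autFun e m ∈ Q :=
          (factor_eq hE (hRS m.2) (hRS (autFun_mem e m.2))).1 h2.symm
        refine fix_of_fix_pgroup hRp E₁.subtype (k := ⟨e, he⟩) (r := m) (orderOf_pos _).ne'
          (coprime_of_two_pow hp2 hk) ?_
        apply Subtype.ext
        show ((e (m⁻¹ * e m) : R) : Ω) = ((m⁻¹ * e m : R) : Ω)
        rw [← autFun_coe]
        have h4 : ((m⁻¹ * e m : R) : Ω) = (m : Ω)⁻¹ * autFun e m := by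
          rw [autFun_coe]; rfl
        rw [h4]
        exact hfixQ e he k hek _ h3)
  have hle : Subgroup.closure {(a' : Ω), (b' : Ω)} ≤ R := by
    rw [Subgroup.closure_le]
    rintro _ (rfl | rfl)
    · exact a'.2
    · exact b'.2
  refine h (a' : Ω) (b' : Ω) ⟨(hei_map_iff R.subtype R.subtype_injective).2
      (hei_of_hom h1 h2 h3 h4 π h5 h6), autFun (x' : MulAut R), autFun (y' : MulAut R), c',
      (mor_autFun hRS (hE₁ _ x'.2).1).mono hle, (mor_autFun hRS (hE₁ _ y'.2).1).mono hle, ?_, ?_, ?_, ?_⟩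
  · rw [autFun_coe]; exact congrArg Subtype.val h7
  · rw [autFun_coe]; exact congrArg Subtype.val h8
  · rw [autFun_coe]; exact congrArg Subtype.val h9
  · rw [autFun_coe]; exact congrArg Subtype.val h10

theorem exists_pprime_of_not {G : Type*} [Group G] [Finite G] [Fact p.Prime] {C : Subgroup G} {g : G}
    (h : ∀ m : ℕ, g ^ p ^ m ∉ C) : ∃ k ∈ Subgroup.zpowers g, (orderOf k).Coprime p ∧ k ∉ C := by
  have hp := Fact.out (p := p.Prime)
  have hn := orderOf_pos g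
  refine ⟨g ^ ordProj[p] (orderOf g), Subgroup.npow_mem_zpowers g _, ?_, h _⟩
  rw [orderOf_pow_of_dvd (pow_pos hp.pos _).ne' (Nat.ordProj_dvd _ _)]
  exact (Nat.coprime_ordCompl hp hn.ne').symm

theorem nb_stable [Fact p.Prime] (hp2 : p ≠ 2) {L : Type v} [Group L] [Finite L] {ι : S →* L}
    (hr : F.IsRealizedBy ι) (hT : ∃ T : Sylow p L, (T : Subgroup L) = ι.range) (h : NB p F)
    (Q : Subgroup L) [Q.Normal] (hQ : IsPGroup p Q) : IsPStableOn p Q := by
  intro a ha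
  rw [H2.mk_mem_pCore_iff]
  by_contra hn
  obtain ⟨g, -, k', hk', hbad⟩ := H2.exists_bad_pair (V := Q) (H := ⊤)
    (by rw [Subgroup.normalizer_eq_top]) (Subgroup.mem_top a) (by
      intro N _ hN haN
      by_contra hcon
      push Not at hcon
      apply hn
      refine ⟨N, ?_, haN, hcon⟩
      rw [← Subgroup.normalizer_eq_top_iff, eq_top_iff]
      exact hN)
  obtain ⟨k, hk1, hk2, hk3⟩ := exists_pprime_of_not hbad
  let E₁ : Subgroup L := Subgroup.closure {a, g * a * g⁻¹}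
  have haE : a ∈ E₁ := Subgroup.subset_closure (Or.inl rfl)
  have hgE : g * a * g⁻¹ ∈ E₁ := Subgroup.subset_closure (Or.inr rfl)
  have hkE : k ∈ E₁ := by
    have : Subgroup.zpowers k' ≤ E₁ := by rw [Subgroup.zpowers_le]; exact hk'
    exact this hk1
  let τ : E₁ →* MulAut Q := (MulAut.conjNormal (H := Q)).comp E₁.subtype
  have hτ : ∀ (e : E₁) (v : Q), ((τ e v : Q) : L) = e * v * (e : L)⁻¹ := fun e v => rfl
  have hquad : ∀ (c : L) (hc : c ∈ E₁), ⁅⁅Q, Subgroup.zpowers c⁆, Subgroup.zpowers c⁆ = ⊥ →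
      ∀ v, τ ⟨c, hc⟩ (v⁻¹ * τ ⟨c, hc⟩ v) = v⁻¹ * τ ⟨c, hc⟩ v := by
    intro c hc hq v
    have h1 := H2.quad_comm hq (v := ((v⁻¹ : Q) : L)) (v⁻¹).2 (Subgroup.mem_zpowers c)
      (Subgroup.mem_zpowers c)
    apply Subtype.ext
    rw [hτ, Subgroup.coe_mul, hτ]
    have e : ((v⁻¹ : Q) : L) * (c * v * c⁻¹) = ⁅((v⁻¹ : Q) : L), c⁆ := by
      rw [commutatorElement_def]; push_cast; group
    show c * (((v⁻¹ : Q) : L) * (c * v * c⁻¹)) * c⁻¹ = _
    rw [e, h1]; group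
  obtain ⟨a₀, b₀, x', y', c, h1, h2, h3, h4, h5⟩ := action_plane hp2 _ Q hQ τ
    (H2.closure_pair_subgroup haE hgE rfl) (hquad a haE ha)
    (hquad (g * a * g⁻¹) hgE (H2.quad_conj (by rw [Subgroup.normalizer_eq_top]; exact Subgroup.mem_top g) ha))
    ⟨⟨k, hkE⟩, by rw [Subgroup.orderOf_mk]; exact hk2, fun h => hk3 (by
      rw [Subgroup.mem_centralizer_iff]
      intro v hv
      have h1 := congrArg (fun f : MulAut Q => ((f ⟨v, hv⟩ : Q) : L)) h
      have h2 : k * v * k⁻¹ = v := h1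
      rw [mul_inv_eq_iff_eq_mul] at h2
      exact h2.symm)⟩ le_rfl
  obtain ⟨T, hT⟩ := hT
  have hQT : Q ≤ ι.range := by
    rw [← hT]
    exact (H18.le_pCore inferInstance hQ).trans (H18.pCore_le_sylow T)
  have hinj := hr.1
  obtain ⟨α, hα⟩ := hQT a₀.2
  obtain ⟨β, hβ⟩ := hQT b₀.2
  have hHL : Hei p ((a₀ : Q) : L) ((b₀ : Q) : L) := (hei_map_iff Q.subtype Q.subtype_injective).2 h1
  have hH : Hei p (α : Ω) (β : Ω) := by
    rw [← hα, ← hβ, hei_map_iff ι hinj] at hHL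
    exact (hei_map_iff S.subtype S.subtype_injective).2 hHL
  have hle : Subgroup.closure {(α : Ω), (β : Ω)} ≤ S := by
    rw [Subgroup.closure_le]
    rintro _ (rfl | rfl)
    · exact α.2
    · exact β.2
  have htfQ : ∀ x ∈ Subgroup.closure {(α : Ω), (β : Ω)}, tf ι x ∈ Q := by
    intro x hx
    induction hx using Subgroup.closure_induction with
    | mem x hx =>
      rcases hx with rfl | rfl
      · rw [tf_coe, hα]; exact a₀.2
      · rw [tf_coe, hβ]; exact b₀.2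
    | one => rw [tf_one]; exact one_mem _
    | mul x y hx hy ihx ihy => rw [tf_mul (hle hx) (hle hy)]; exact mul_mem ihx ihy
    | inv x hx ih => rw [tf_inv (hle hx)]; exact inv_mem ih
  have hmor : ∀ e : L, ∃ f, Mor F (Subgroup.closure {(α : Ω), (β : Ω)}) f ∧
      ∀ x ∈ Subgroup.closure {(α : Ω), (β : Ω)}, tf ι (f x) = e * tf ι x * e⁻¹ := by
    intro e
    obtain ⟨h1, h2⟩ := mor_real_conj hr e hle (fun x hx => hQT
      (‹Q.Normal›.conj_mem _ (htfQ x hx) e))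
    exact ⟨_, h1, h2⟩
  obtain ⟨f, hf, hf'⟩ := hmor x'
  obtain ⟨f₂, hf₂, hf₂'⟩ := hmor y'
  have hαm : (α : Ω) ∈ Subgroup.closure {(α : Ω), (β : Ω)} := Subgroup.subset_closure (Or.inl rfl)
  have hβm : (β : Ω) ∈ Subgroup.closure {(α : Ω), (β : Ω)} := Subgroup.subset_closure (Or.inr rfl)
  have hzm : (α : Ω) * β * (α : Ω)⁻¹ * (β : Ω)⁻¹ ∈ Subgroup.closure {(α : Ω), (β : Ω)} := Hei.z_mem
  have hwS : (α : Ω) * β * ((α : Ω) * β * (α : Ω)⁻¹ * (β : Ω)⁻¹) ^ c ∈ S :=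
    hle (mul_mem (mul_mem hαm hβm) (pow_mem hzm c))
  have hwι : tf ι ((α : Ω) * β * ((α : Ω) * β * (α : Ω)⁻¹ * (β : Ω)⁻¹) ^ c) =
      ((a₀ * b₀ * (a₀ * b₀ * a₀⁻¹ * b₀⁻¹) ^ c : Q) : L) := by
    have e : (α : Ω) * β * ((α : Ω) * β * (α : Ω)⁻¹ * (β : Ω)⁻¹) ^ c =
        ((α * β * (α * β * α⁻¹ * β⁻¹) ^ c : S) : Ω) := by push_cast; rfl
    rw [e, tf_coe]
    rw [map_mul, map_mul, map_pow, map_mul, map_mul, map_mul, map_inv, map_inv, hα, hβ]
    push_cast; rfl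
  refine h (α : Ω) (β : Ω) ⟨hH, f, f₂, c, hf, hf₂, ?_, ?_, ?_, ?_⟩
  · apply tf_inj hinj (hf.mem hαm) α.2
    rw [hf' _ hαm, tf_coe, hα]
    exact congrArg Subtype.val h2
  · apply tf_inj hinj (hf.mem hβm) hwS
    rw [hf' _ hβm, tf_coe, hβ, hwι]
    exact congrArg Subtype.val h3
  · apply tf_inj hinj (hf₂.mem hαm) hwS
    rw [hf₂' _ hαm, tf_coe, hα, hwι]
    exact congrArg Subtype.val h4
  · apply tf_inj hinj (hf₂.mem hβm) β.2
    rw [hf₂' _ hβm, tf_coe, hβ]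
    exact congrArg Subtype.val h5

/-- In a saturated system without planes the centre of the Thompson subgroup is normal. -/
theorem nb_ctrl [Fact p.Prime] (hp2 : p ≠ 2) [Finite S] (hS : IsPGroup p S) (hF : F.IsSaturated p)
    (hNB : NB p F) :
    F.IsNormal (((H2.Zf (fun U A => H2.AbIn U A) (⊤ : Subgroup S))).map S.subtype) := by
  let W : ∀ (Q : Type u) [Group Q], Subgroup Q :=
    fun (S : Type u) [Group S] => H2.Zf (fun U A => H2.AbIn U A) (⊤ : Subgroup S)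
  have hW1 : ∀ (Q : Type u) [Group Q] [Finite Q], IsPGroup p Q → Nontrivial Q → W Q ≠ ⊥ :=
    fun Q _ _ hQ hQ' => (H2.npcFun_ZJa hp2).ne_bot Q hQ hQ'
  have hW2 : ∀ (Q R : Type u) [Group Q] [Group R] [Finite Q], IsPGroup p Q → ∀ φ : Q ≃* R,
      (W Q).map φ.toMonoidHom = W R := fun Q R _ _ _ hQ e => H2.Zf_abIn_top_equiv e
  have hWE := fun {Q R : Type u} [Group Q] [Group R] (e : Q ≃* R) => WExt_map hW2 e
  have hM : CtrlCls2 p (fun (Ω : Type u) [Group Ω] (S : Subgroup Ω) F => NB p F)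
      (fun (Ω : Type u) [Group Ω] (S : Subgroup Ω) => H2.WA (WExt p W) S) := by
    constructor
    · intro Ω _ S _ hS hne
      refine WA_ne_bot' (W := WExt p W) ?_
      rw [WExt_eq hS]
      exact hW1 _ hS ((Subgroup.nontrivial_iff_ne_bot S).2 hne)
    · intro Ω _ S
      exact H2.WA_le S
    · intro Ω _ S _ hS
      exact WA_characteristic (W := WExt p W) hWE S
    · intro Ω _ S _ F hS hF hC U hU
      exact nb_normSys hC hU.1
    · intro Ω _ S _ F hS hF hC Q hQ hin Ω' _ S' θ E hE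
      exact nb_factor hp2 hS hF hQ hin hE hC
    · intro Ω _ S _ F hS hF hC Q hQ
      exact nb_scSys hC _ _
    · rintro Ω _ S _ F hS ⟨hF, Q, hQ, hc⟩ hC
      obtain ⟨G, _, ι, hG⟩ := exists_model hS hF hQ hc
      haveI := hG.1
      obtain ⟨T, hT⟩ := hG.2.2.1
      have h1 : ((W ↥(T : Subgroup G)).map (T : Subgroup G).subtype : Subgroup G).Normal := by
        have h2 := H2.WA_Zf (T : Subgroup G)
        have h3 : (((H2.Zf (fun U A => H2.AbIn U A) (⊤ : Subgroup T))).map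
            (T : Subgroup G).subtype : Subgroup G) = centerThompsonAOf (T : Subgroup G) := h2
        show (((H2.Zf (fun U A => H2.AbIn U A) (⊤ : Subgroup T))).map
          (T : Subgroup G).subtype : Subgroup G).Normal
        rw [h3, H2.centerThompsonAOf_eq]
        exact (H2.abFam hp2).ZJ_normal T hG.2.2.2
          (fun Q _ hQ => nb_stable hp2 hG.2.1 ⟨T, hT⟩ hC Q hQ)
      have h2 : H2.WA (WExt p W) ι.range = (W ↥(T : Subgroup G)).map (T : Subgroup G).subtype := by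
        rw [← hT]
        show (WExt p W ↥(T : Subgroup G)).map (T : Subgroup G).subtype = _
        rw [WExt_eq T.isPGroup']
      refine normal_of_real hG.2.1 (H2.WA_le S) fun g x hx => ?_
      have h3 := imageAlong_WA (W := WExt p W) hWE hG.2.1.1
      have hxS := H2.WA_le S hx
      have h4 : tf ι x ∈ imageAlong ι (H2.WA (WExt p W) S) := tf_mem_imageAlong (H2.WA_le S) hx
      rw [h3, h2] at h4
      have h5 := h1.conj_mem _ h4 g
      rw [← h2, ← h3] at h5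
      obtain ⟨y, -, hy, h6⟩ := mem_imageAlong.1 h5
      exact ⟨y, hy, h6.symm⟩
  have h1 := ctrl_machine2 hM _ Ω S F le_rfl hS hF hNB
  have h2 : H2.WA (WExt p W) S = (W ↥S).map S.subtype := by
    show (WExt p W ↥S).map S.subtype = _
    rw [WExt_eq hS]
  rwa [h2] at h1

theorem nb_core_ne_bot [Fact p.Prime] (hp2 : p ≠ 2) [Finite S] (hS : IsPGroup p S)
    (hF : F.IsSaturated p) (hNB : NB p F) (hne : S ≠ ⊥) : F.core ≠ ⊥ := by
  have h1 := nb_ctrl hp2 hS hF hNB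
  intro h2
  have h3 := le_core h1
  rw [h2, le_bot_iff] at h3
  have h4 : H2.Zf (fun U A => H2.AbIn U A) (⊤ : Subgroup S) ≠ ⊥ :=
    (H2.npcFun_ZJa hp2).ne_bot S hS ((Subgroup.nontrivial_iff_ne_bot S).2 hne)
  exact h4 ((Subgroup.map_eq_bot_iff_of_injective _ S.subtype_injective).1 h3)

end
end Cfsg.Agent.H13
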