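import Mathlib
import Cfsg.Agent.H13.PStab6
import Cfsg.Agent.H28.FusGroup

/-!
`p`-stable fusion systems have no `SL₂(p)`-planes.
-/

set_option autoImplicit false
set_option linter.all false
open Cfsg Cfsg.FusionSystem
open Cfsg.Agent.H28

namespace Cfsg.Agent.H13

open Cfsg.Agent
open scoped commutatorElement

universe u v

section
variable {Ω : Type u} [Group Ω] {S T : Subgroup Ω} {F : FusionSystem S} {E : FusionSystem T}
  {P Q R : Subgroup Ω} {p : ℕ}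

theorem img_closure_pair {a b : Ω} {φ : Ω → Ω} (hφ : Mor F (Subgroup.closure {a, b}) φ) :
    img (Subgroup.closure {a, b}) φ = Subgroup.closure {φ a, φ b} := by
  have ha : a ∈ Subgroup.closure {a, b} := Subgroup.subset_closure (Or.inl rfl)
  have hb : b ∈ Subgroup.closure {a, b} := Subgroup.subset_closure (Or.inr rfl)
  apply le_antisymm
  · rw [img_le_iff]
    intro x hx
    have ha' : φ a ∈ Subgroup.closure {φ a, φ b} := Subgroup.subset_closure (Or.inl rfl)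
    have hb' : φ b ∈ Subgroup.closure {φ a, φ b} := Subgroup.subset_closure (Or.inr rfl)
    induction hx using Subgroup.closure_induction with
    | mem x hx =>
      rcases hx with rfl | rfl
      · exact ha'
      · exact hb'
    | one => rw [hφ.one]; exact one_mem _
    | mul x y hx hy ihx ihy => rw [hφ.mul hx hy]; exact mul_mem ihx ihy
    | inv x hx ih => rw [hφ.inv hx]; exact inv_mem ih
  · rw [Subgroup.closure_le]
    rintro _ (rfl | rfl)
    · exact mem_img_of_mem ha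
    · exact mem_img_of_mem hb

theorem PlCfg.transport [Finite S] [Fact p.Prime] {a b : Ω} (h : PlCfg p F a b) {φ : Ω → Ω}
    (hφ : Mor F (Subgroup.closure {a, b}) φ) : PlCfg p F (φ a) (φ b) := by
  obtain ⟨hH, x, hx, y, hy, c, h1, h2, h3, h4⟩ := h.exists_aut
  have him := img_closure_pair hφ
  have ha : a ∈ Subgroup.closure {a, b} := Subgroup.subset_closure (Or.inl rfl)
  have hb : b ∈ Subgroup.closure {a, b} := Subgroup.subset_closure (Or.inr rfl)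
  have hzD : a * b * a⁻¹ * b⁻¹ ∈ Subgroup.closure {a, b} := Hei.z_mem
  have hDS := hφ.le
  obtain ⟨ψ, hψ, hψφ, hφψ, -⟩ := hφ.inverse
  have hH' : Hei p (φ a) (φ b) := by
    obtain ⟨Φ, hΦ, hΦ'⟩ := hφ
    have hinj : Function.Injective Φ := by
      intro u v huv
      apply Subtype.ext
      refine (mor_of_mem hΦ hΦ' : Mor F _ φ).inj u.2 v.2 ?_
      rw [← hΦ', ← hΦ', huv]
    have h5 : Hei p (⟨a, ha⟩ : Subgroup.closure {a, b}) ⟨b, hb⟩ :=
      (hei_map_iff (Subgroup.closure {a, b}).subtype (Subgroup.subtype_injective _)).1 hH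
    have h6 := (hei_map_iff Φ hinj).2 h5
    rw [hΦ', hΦ'] at h6
    exact h6
  have hw : φ (a * b * (a * b * a⁻¹ * b⁻¹) ^ c) =
      φ a * φ b * (φ a * φ b * (φ a)⁻¹ * (φ b)⁻¹) ^ c := by
    rw [hφ.mul (mul_mem ha hb) (pow_mem hzD c), hφ.mul ha hb, hφ.pow hzD,
      hφ.mul (mul_mem (mul_mem ha hb) (inv_mem ha)) (inv_mem hb),
      hφ.mul (mul_mem ha hb) (inv_mem ha), hφ.mul ha hb, hφ.inv ha, hφ.inv hb]
  have hψm : ∀ y ∈ img (Subgroup.closure {a, b}) φ, ψ y ∈ Subgroup.closure {a, b} := by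
    intro y hy
    obtain ⟨x, hx, rfl⟩ := (hφ.mem_img).1 hy
    rw [hψφ x hx]; exact hx
  rw [him] at hψ hψm
  refine ⟨hH', fun u => φ (autFun x (ψ u)), fun u => φ (autFun y (ψ u)), c,
    (hψ.comp (mor_autFun hDS hx) hψm).comp hφ (fun u hu => autFun_mem x (hψm u hu)),
    (hψ.comp (mor_autFun hDS hy) hψm).comp hφ (fun u hu => autFun_mem y (hψm u hu)), ?_, ?_, ?_, ?_⟩
  · show φ (autFun x (ψ (φ a))) = φ a
    rw [hψφ a ha, h1]
  · show φ (autFun x (ψ (φ b))) = _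
    rw [hψφ b hb, h2, hw]
  · show φ (autFun y (ψ (φ a))) = _
    rw [hψφ a ha, h3, hw]
  · show φ (autFun y (ψ (φ b))) = φ b
    rw [hψφ b hb, h4]

theorem sl_word_ne [Fact p.Prime] (hp2 : p ≠ 2) (m : ℕ) :
    (slA p * (slB p)⁻¹ * slA p) ^ (2 * p ^ m) ≠ 1 := by
  intro h
  have h20 : (2 : ZMod p) ≠ 0 := by
    intro h
    have h1 : ((2 : ℕ) : ZMod p) = 0 := by exact_mod_cast h
    rw [ZMod.natCast_eq_zero_iff] at h1
    exact hp2 ((Nat.prime_dvd_prime_iff_eq (Fact.out) Nat.prime_two).1 h1)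
  have h2 : ((slA p * (slB p)⁻¹ * slA p) ^ 2).1 = -1 := by
    rw [sq, Matrix.SpecialLinearGroup.coe_mul, Matrix.SpecialLinearGroup.coe_mul,
      Matrix.SpecialLinearGroup.coe_mul, Matrix.SpecialLinearGroup.coe_inv]
    ext i j
    fin_cases i <;> fin_cases j <;>
      simp [slA, slB, Matrix.mul_apply, Fin.sum_univ_two, Matrix.adjugate_fin_two]
  have hodd : Odd (p ^ m) := ((Fact.out (p := p.Prime)).odd_of_ne_two hp2).pow
  have h3 := congrArg Subtype.val h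
  rw [pow_mul, Matrix.SpecialLinearGroup.coe_pow, h2, hodd.neg_one_pow] at h3
  have h4 := congrFun (congrFun h3 0) 0
  simp at h4
  have h5 : (1 : ZMod p) + 1 = 0 := by
    nth_rewrite 1 [← h4]
    ring
  exact h20 (by rw [← one_add_one_eq_two]; exact h5)

theorem nb_of_stable [Fact p.Prime] [Finite S] (hp2 : p ≠ 2)
    (hst : ∀ Q : Subgroup Ω, F.IsFullyNormalized Q → ∀ χ : MulAut ↥Q, χ ∈ F.autGroup Q →
      (∀ a : ↥Q, (χ a⁻¹) * a * (χ a⁻¹) * (χ (χ a)) = 1) →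
      χ ∈ ((Cfsg.pCore p ↥(F.autGroup Q)).map (F.autGroup Q).subtype : Subgroup (MulAut ↥Q))) :
    NB p F := by
  intro a₀ b₀ hcfg₀
  obtain ⟨-, f₀, -, -, hf₀, -⟩ := id hcfg₀
  obtain ⟨φ, hφ, hFN⟩ : ∃ φ, Mor F (Subgroup.closure {a₀, b₀}) φ ∧
      F.IsFullyNormalized (img (Subgroup.closure {a₀, b₀}) φ) := by
    obtain ⟨Q, hQ, hFN⟩ := exists_fullyNormalized (F := F) hf₀.le
    obtain ⟨φ, hφ, rfl⟩ := isConj_iff.1 hQ
    exact ⟨φ, hφ, hFN⟩
  have hcfg := hcfg₀.transport hφ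
  rw [img_closure_pair hφ] at hFN
  generalize φ a₀ = a at *
  generalize φ b₀ = b at *
  obtain ⟨hH, x, hx, y, hy, c, hxa, hxb, hya, hyb⟩ := hcfg.exists_aut
  have ha : a ∈ Subgroup.closure {a, b} := Subgroup.subset_closure (Or.inl rfl)
  have hb : b ∈ Subgroup.closure {a, b} := Subgroup.subset_closure (Or.inr rfl)
  have hzD : a * b * a⁻¹ * b⁻¹ ∈ Subgroup.closure {a, b} := Hei.z_mem
  have hDS : Subgroup.closure {a, b} ≤ S := hFN.1
  obtain ⟨ρ, hρ1, hρ2, hρ3⟩ := hH.exists_hom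
  have hρx := (PlCfg.rho hH hρ1 hρ2 hρ3 x (c := c)).1 hxa hxb
  have hρy := (PlCfg.rho hH hρ1 hρ2 hρ3 y (c := c)).2 hya hyb
  have hzx : autFun x (a * b * a⁻¹ * b⁻¹) = a * b * a⁻¹ * b⁻¹ :=
    PlCfg.fz (mor_autFun hDS hx) ha hb hH (Or.inl ⟨hxa, hxb⟩)
  have hzy : autFun y (a * b * a⁻¹ * b⁻¹) = a * b * a⁻¹ * b⁻¹ :=
    PlCfg.fz (mor_autFun hDS hy) ha hb hH (Or.inr ⟨hya, hyb⟩)
  generalize hDdef : Subgroup.closure {a, b} = D at *
  haveI : Finite D := finite_of_le hDS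
  haveI := finite_mulAut (P := D)
  -- elements fixed
  have hfx : ∀ d : D, (∃ (i : ℕ), ρ d = ρ ⟨a, ha⟩ ^ i) → x d = d := by
    rintro d ⟨i, hi⟩
    have h1 : ρ (d * (⟨a, ha⟩ ^ i)⁻¹) = 1 := by rw [map_mul, map_inv, map_pow, hi, mul_inv_cancel]
    have h2 := (hρ3 _).1 h1
    have h3 := Mor.map_zpowers' (mor_autFun hDS hx) hzD hzx _ h2
    rw [autFun_coe, map_mul, map_inv, map_pow] at h3
    have h4 : x ⟨a, ha⟩ = ⟨a, ha⟩ := Subtype.ext (by rw [← autFun_coe]; exact hxa)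
    rw [h4] at h3
    exact mul_right_cancel (Subtype.ext h3)
  have hfy : ∀ d : D, (∃ (i : ℕ), ρ d = ρ ⟨b, hb⟩ ^ i) → y d = d := by
    rintro d ⟨i, hi⟩
    have h1 : ρ (d * (⟨b, hb⟩ ^ i)⁻¹) = 1 := by rw [map_mul, map_inv, map_pow, hi, mul_inv_cancel]
    have h2 := (hρ3 _).1 h1
    have h3 := Mor.map_zpowers' (mor_autFun hDS hy) hzD hzy _ h2
    rw [autFun_coe, map_mul, map_inv, map_pow] at h3
    have h4 : y ⟨b, hb⟩ = ⟨b, hb⟩ := Subtype.ext (by rw [← autFun_coe]; exact hyb)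
    rw [h4] at h3
    exact mul_right_cancel (Subtype.ext h3)
  have hq : ∀ (χ : MulAut D), (∀ d : D, χ (d⁻¹ * χ d) = d⁻¹ * χ d) →
      ∀ a : D, (χ a⁻¹) * a * (χ a⁻¹) * (χ (χ a)) = 1 := by
    intro χ h d
    have h1 := h d
    rw [map_mul, map_inv] at h1
    have h2 : χ (χ d) = χ d * (d⁻¹ * χ d) := by rw [← h1]; group
    rw [h2, map_inv]; group
  have hxq : ∀ d : D, x (d⁻¹ * x d) = d⁻¹ * x d := by
    intro d
    apply hfx
    refine ⟨((ρ d).toAdd 1).val, ?_⟩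
    rw [map_mul, map_inv, hρx, hρ1 ⟨a, ha⟩ rfl, ← ofAdd_nsmul]
    show Multiplicative.ofAdd (-(ρ d).toAdd + (slA p).1.mulVec (ρ d).toAdd) = _
    congr 1
    funext i
    fin_cases i <;> simp [slA, Matrix.mulVec, dotProduct, Fin.sum_univ_two]
  have hyq : ∀ d : D, y (d⁻¹ * y d) = d⁻¹ * y d := by
    intro d
    apply hfy
    refine ⟨((ρ d).toAdd 0).val, ?_⟩
    rw [map_mul, map_inv, hρy, hρ2 ⟨b, hb⟩ rfl, ← ofAdd_nsmul]
    show Multiplicative.ofAdd (-(ρ d).toAdd + (slB p).1.mulVec (ρ d).toAdd) = _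
    congr 1
    funext i
    fin_cases i <;> simp [slB, Matrix.mulVec, dotProduct, Fin.sum_univ_two]
  have hxO := hst D hFN x hx (hq x hxq)
  have hyO := hst D hFN y hy (hq y hyq)
  have hgO := mul_mem (mul_mem hxO (inv_mem hyO)) hxO
  have hOp : IsPGroup p ↥((Cfsg.pCore p ↥(F.autGroup D)).map (F.autGroup D).subtype) :=
    (H18.isPGroup_pCore p ↥(F.autGroup D)).map _
  obtain ⟨m, hm⟩ := hOp ⟨_, hgO⟩
  have hm' : (x * y⁻¹ * x) ^ p ^ m = 1 := congrArg Subtype.val hm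
  -- action on the plane
  have hmul : ∀ (χ ξ : MulAut D) (A B : Matrix.SpecialLinearGroup (Fin 2) (ZMod p)),
      (∀ d, ρ (χ d) = Multiplicative.ofAdd (A.1.mulVec (ρ d).toAdd)) →
      (∀ d, ρ (ξ d) = Multiplicative.ofAdd (B.1.mulVec (ρ d).toAdd)) →
      ∀ d, ρ ((χ * ξ) d) = Multiplicative.ofAdd ((A * B).1.mulVec (ρ d).toAdd) := by
    intro χ ξ A B h1 h2 d
    rw [MulAut.mul_apply, h1, h2, Matrix.SpecialLinearGroup.coe_mul, ← Matrix.mulVec_mulVec]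
    rfl
  have hinv : ∀ (χ : MulAut D) (A : Matrix.SpecialLinearGroup (Fin 2) (ZMod p)),
      (∀ d, ρ (χ d) = Multiplicative.ofAdd (A.1.mulVec (ρ d).toAdd)) →
      ∀ d, ρ (χ⁻¹ d) = Multiplicative.ofAdd ((A⁻¹).1.mulVec (ρ d).toAdd) := by
    intro χ A h1 d
    have h2 := h1 (χ⁻¹ d)
    rw [MulAut.apply_inv_self] at h2
    have h3 : (ρ d).toAdd = A.1.mulVec (ρ (χ⁻¹ d)).toAdd := congrArg Multiplicative.toAdd h2
    rw [h3, Matrix.mulVec_mulVec, ← Matrix.SpecialLinearGroup.coe_mul, inv_mul_cancel,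
      Matrix.SpecialLinearGroup.coe_one, Matrix.one_mulVec]
    rfl
  have hW := hmul _ _ _ _ (hmul _ _ _ _ hρx (hinv _ _ hρy)) hρx
  have hpow : ∀ n : ℕ, ∀ d, ρ (((x * y⁻¹ * x) ^ n) d) =
      Multiplicative.ofAdd (((slA p * (slB p)⁻¹ * slA p) ^ n).1.mulVec (ρ d).toAdd) := by
    intro n
    induction n with
    | zero =>
      intro d
      rw [pow_zero, pow_zero, Matrix.SpecialLinearGroup.coe_one, Matrix.one_mulVec]
      rfl
    | succ n ih =>
      rw [pow_succ, pow_succ]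
      exact hmul _ _ _ _ ih hW
  apply sl_word_ne (p := p) hp2 m
  have h1 : ∀ d, ρ d = Multiplicative.ofAdd
      (((slA p * (slB p)⁻¹ * slA p) ^ (2 * p ^ m)).1.mulVec (ρ d).toAdd) := by
    intro d
    rw [← hpow, mul_comm 2, pow_mul, hm', one_pow]; rfl
  apply Subtype.ext
  have hcol : ∀ v : Fin 2 → ZMod p, (∃ d, ρ d = Multiplicative.ofAdd v) →
      ((slA p * (slB p)⁻¹ * slA p) ^ (2 * p ^ m)).1.mulVec v = v := by
    rintro v ⟨d, hd⟩
    have h2 := h1 d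
    rw [hd] at h2
    exact (Multiplicative.ofAdd.injective h2).symm
  have e0 := hcol _ ⟨⟨a, ha⟩, hρ1 _ rfl⟩
  have e1 := hcol _ ⟨⟨b, hb⟩, hρ2 _ rfl⟩
  generalize (slA p * (slB p)⁻¹ * slA p) ^ (2 * p ^ m) = W at e0 e1
  ext i j
  have f0 := congrFun e0 i
  have f1 := congrFun e1 i
  rw [Matrix.SpecialLinearGroup.coe_one]
  fin_cases i <;> fin_cases j <;>
    simp [Matrix.mulVec, dotProduct, Fin.sum_univ_two] at f0 f1 ⊢ <;> assumption

end
end Cfsg.Agent.H13
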