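import Mathlib
import Cfsg.Agent.H13.PStab6
import Cfsg.Agent.H13.FusInvar
import Cfsg.Agent.H13.FusWN
import Cfsg.Agent.H28.GMach2

/-!
The centralizer system of a normal subgroup is weakly normal; systems without planes are constrained.
-/

set_option autoImplicit false
set_option linter.all false
open Cfsg Cfsg.FusionSystem
open Cfsg.Agent.H28

namespace Cfsg.Agent.H13

open Cfsg.Agent
open scoped commutatorElement

universe u v

section
variable {Ω : Type u} [Group Ω] {S T : Subgroup Ω} {F : FusionSystem S} {E : FusionSystem T}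
  {P Q R : Subgroup Ω} {p : ℕ}

theorem cent_sc (hQ : F.IsNormal Q) : F.StronglyClosed (centralizerIn S Q) := by
  rw [stronglyClosed_iff]
  refine ⟨centralizerIn_le, fun R f hR hf x hx => ?_⟩
  obtain ⟨g, hg, h1, h2⟩ := (isNormal_iff.1 hQ).2 R f hf
  have hxC := mem_centralizerIn.1 (hR hx)
  refine mem_centralizerIn.2 ⟨hf.mem hx, fun y hy => ?_⟩
  rw [← h2] at hy
  obtain ⟨q, hq, rfl⟩ := ((hg.mono le_sup_right).mem_img).1 hy
  have hxm : x ∈ R ⊔ Q := (le_sup_left : R ≤ R ⊔ Q) hx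
  have hqm : q ∈ R ⊔ Q := (le_sup_right : Q ≤ R ⊔ Q) hq
  rw [← h1 x hx, ← hg.mul hxm hqm, ← hg.mul hqm hxm, hxC.2 q hq]

theorem cent_sinv (hQ : F.IsNormal Q) : SInv F (centSys F Q hQ.1) := by
  intro P Q' f h hPQ hQC hf hfQ hh
  obtain ⟨hPC, hfC, f', hf', h1, h2⟩ := mor_centSys.1 hf
  obtain ⟨h', hh', h3, h4⟩ := (isNormal_iff.1 hQ).2 Q' h hh
  have hsc := cent_sc hQ
  obtain ⟨k, hk, hk1, hk2, hk3⟩ := hh'.inverse
  have hPQ' : P ⊔ Q ≤ Q' ⊔ Q := sup_le_sup_right hPQ Q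
  have him : img (P ⊔ Q) h' = img P h ⊔ Q := by
    rw [hh'.img_sup' (hPQ.trans le_sup_left) le_sup_right, h4]
    congr 1
    exact img_congr fun x hx => h3 x (hPQ hx)
  have hf'im : img (P ⊔ Q) f' ≤ Q' ⊔ Q := by
    rw [hf'.img_sup, img_id' h2]
    refine sup_le_sup_right ?_ Q
    rw [img_le_iff]
    intro x hx
    rw [h1 x hx]; exact hfQ x hx
  have hkm : ∀ y ∈ img P h ⊔ Q, k y ∈ P ⊔ Q := by
    intro y hy
    rw [← him] at hy
    obtain ⟨x, hx, rfl⟩ := ((hh'.mono hPQ').mem_img).1 hy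
    rw [hk1 x (hPQ' hx)]; exact hx
  have hkM : Mor F (img P h ⊔ Q) k := hk.mono (by rw [← him]; exact img_mono hPQ')
  have hG : Mor F (img P h ⊔ Q) (fun y => h' (f' (k y))) :=
    (hkM.comp hf' hkm).comp hh' (fun y hy => hf'im (mem_img_of_mem (hkm y hy)))
  have hval : ∀ x ∈ P, h' (f' (k (h x))) = h (f x) := by
    intro x hx
    rw [← h3 x (hPQ hx), hk1 x ((le_sup_left : Q' ≤ Q' ⊔ Q) (hPQ hx)), h1 x hx, h3 _ (hfQ x hx)]
  refine ⟨fun y => h' (f' (k y)), mor_centSys.2 ⟨?_, ?_, _, hG, fun _ _ => rfl, ?_⟩, hval⟩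
  · rw [img_le_iff]
    intro x hx
    exact sc_apply hsc hh (hPQ hx) (hPC hx)
  · intro y hy
    obtain ⟨x, hx, rfl⟩ := ((hh.mono hPQ).mem_img).1 hy
    show h' (f' (k (h x))) ∈ _
    rw [hval x hx]
    exact sc_apply hsc hh (hfQ x hx) (hfC x hx)
  · intro q hq
    have hq' : q ∈ img Q h' := by rw [h4]; exact hq
    obtain ⟨r, hr, rfl⟩ := ((hh'.mono le_sup_right).mem_img).1 hq'
    show h' (f' (k (h' r))) = h' r
    rw [hk1 r ((le_sup_right : Q ≤ Q' ⊔ Q) hr), h2 r hr]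

theorem cent_weaklyNormal [Fact p.Prime] [Finite S] (hS : IsPGroup p S) (hF : F.IsSaturated p)
    (hQ : F.IsNormal Q) : (centSys F Q hQ.1).IsWeaklyNormalIn F p := by
  have hfc : F.IsFullyCentralized Q :=
    FN.fc hS hF (fullyNormalized_of_normal hQ.1 (normal_normalizer hQ))
  refine ⟨centSys_saturated hS hF hfc, hF, invariant_of_strong hS hF (cent_sc hQ) ?_ (cent_sinv hQ)⟩
  rw [subsystem_iff]
  intro P f hf
  obtain ⟨-, -, g, hg, h1, -⟩ := mor_centSys.1 hf
  exact (hg.mono le_sup_left).congr h1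

/-- systems without planes are constrained. -/
theorem nb_constrained [Fact p.Prime] (hp2 : p ≠ 2) [Finite S] (hS : IsPGroup p S)
    (hF : F.IsSaturated p) (hNB : NB p F) : F.IsConstrained p := by
  have hQ : F.IsNormal F.core := core_normal
  have hmax : ∀ V, F.IsNormal V → V ≤ F.core := fun V hV => le_core hV
  generalize F.core = Q at hQ hmax
  have hfc : F.IsFullyCentralized Q :=
    FN.fc hS hF (fullyNormalized_of_normal hQ.1 (normal_normalizer hQ))
  refine ⟨hF, Q, hQ, centric_of_fullyCentralized hfc ?_⟩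
  by_contra hcon
  have hwn := cent_weaklyNormal hS hF hQ
  have hEs := hwn.1
  set E := centSys F Q hQ.1 with hEdef
  have hENB : NB p E := hNB.mono (subsystem_iff.1 hwn.2.2.1)
  haveI : Finite (centralizerIn S Q) := finite_of_le centralizerIn_le
  have hCp := isPGroup_of_le hS (centralizerIn_le (S := S) (P := Q))
  -- the centre of Q is normal in E
  have hZ : E.IsNormal (Q ⊓ centralizerIn S Q) := by
    rw [isNormal_iff]
    refine ⟨inf_le_right, fun P f hf => ?_⟩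
    obtain ⟨hPC, hfC, g, hg, h1, h2⟩ := mor_centSys.1 hf
    have hle : P ⊔ (Q ⊓ centralizerIn S Q) ≤ P ⊔ Q := sup_le_sup_left inf_le_left P
    have hle2 : P ⊔ (Q ⊓ centralizerIn S Q) ≤ centralizerIn S Q := sup_le hPC inf_le_right
    refine ⟨g, mor_centSys.2 ⟨hle2, ?_, g, hg.mono ?_, fun _ _ => rfl, h2⟩, h1, ?_⟩
    · intro x hx
      exact sc_apply (cent_sc hQ) hg (hle hx) (hle2 hx)
    · exact sup_le (hle) le_sup_right
    · exact img_id' fun x hx => h2 x hx.1
  have hin : ∀ g, Mor E (Q ⊓ centralizerIn S Q) g →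
      ∃ s ∈ centralizerIn S Q, ∀ x ∈ Q ⊓ centralizerIn S Q, g x = s * x * s⁻¹ := by
    intro g hg
    obtain ⟨-, -, g', hg', h1, h2⟩ := mor_centSys.1 hg
    refine ⟨1, one_mem _, fun x hx => ?_⟩
    rw [← h1 x hx, h2 x hx.1]; simp
  obtain ⟨Ω', _, S', θ, E', hE', hE's, hS'p, _, hcard⟩ := exists_factor hCp hEs hZ
  have hNB' : NB p E' := nb_factor hp2 hCp hEs hZ hin hE' hENB
  have hS'ne : S' ≠ ⊥ := by
    intro h
    rw [h, Subgroup.card_bot, mul_one] at hcard
    apply hcon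
    have : Q ⊓ centralizerIn S Q = centralizerIn S Q := eq_of_le_of_card inf_le_right hcard.le
    rw [← this]; exact inf_le_left
  have hcore := nb_core_ne_bot hp2 hS'p hE's hNB' hS'ne
  have hn' : E'.IsNormal E'.core := core_normal
  have hR := preimage_normal_of_inner hCp hEs hZ hin hE' hn'
  have hcl := normal_closure_of_weaklyNormal hS hwn hR
  have hle := hmax _ hcl
  apply hcore
  rw [eq_bot_iff]
  intro y hy
  have hr := hE'.2.2.1
  obtain ⟨x, hx, rfl⟩ := exists_preimage hr hn'.1 hy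
  rw [Subgroup.mem_bot]
  refine (factor_ker hE' (preimageAlong_le hx)).2 ⟨?_, preimageAlong_le hx⟩
  apply hle
  apply Subgroup.subset_closure
  have hRS : preimageAlong θ E'.core ≤ S := preimageAlong_le.trans centralizerIn_le
  obtain ⟨φ, hφ, h1⟩ := (mor_self hRS : Mor F (preimageAlong θ E'.core) fun x => x)
  exact ⟨φ, hφ, ⟨x, hx⟩, (h1 ⟨x, hx⟩).symm⟩

end
end Cfsg.Agent.H13
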