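import Mathlib
import Cfsg.Agent.H13.SZ

/-! # `C_π` is closed under extensions; `π`-separable groups are `D_π` -/

set_option autoImplicit false
set_option linter.all false

namespace Cfsg.Agent.H13

open Subgroup
open scoped Pointwise

variable {G : Type*} [Group G] [Finite G] {π : Set ℕ}

theorem isPiHall_map_subtype {A : Subgroup G} {X : Subgroup A} (h : Cfsg.IsPiHall π X) :
    Cfsg.IsPiHallOf π (X.map A.subtype) A := by
  refine ⟨Subgroup.map_subtype_le X, ?_, ?_⟩
  · rw [H1.card_map_subtype]; exact h.1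
  · have : (X.map A.subtype).relIndex A = X.index := by
      rw [Subgroup.relIndex, Subgroup.subgroupOf, Subgroup.comap_map_eq_self_of_injective A.subtype_injective]
    rw [this]; exact h.2

theorem isPiHall_subgroupOf {A X : Subgroup G} (h : Cfsg.IsPiHallOf π X A) :
    Cfsg.IsPiHall π (X.subgroupOf A) :=
  ⟨by rw [H1.card_subgroupOf h.1]; exact h.2.1, h.2.2⟩

theorem isPiHallOf_conj {A X : Subgroup G} [A.Normal] (h : Cfsg.IsPiHallOf π X A) (g : G) :
    Cfsg.IsPiHallOf π (MulAut.conj g • X) A := by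
  refine ⟨?_, ?_, ?_⟩
  · have := H1.conj_smul_le_conj_smul_iff (g := g).mpr h.1
    rwa [H1.conj_smul_normal (N := A)] at this
  · rw [H1.card_conj_smul]; exact h.2.1
  · have e1 := H1.card_mul_relIndex_aux h.1
    have e2 := H1.card_mul_relIndex_aux (K := MulAut.conj g • X) (H := A) (by
      have := H1.conj_smul_le_conj_smul_iff (g := g).mpr h.1
      rwa [H1.conj_smul_normal (N := A)] at this)
    rw [H1.card_conj_smul, ← e1] at e2
    rw [Nat.eq_of_mul_eq_mul_left Nat.card_pos e2]
    exact h.2.2

theorem cpi_conj {A X Y : Subgroup G} (hA : Cfsg.IsCPiGroup π A) (hX : Cfsg.IsPiHallOf π X A)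
    (hY : Cfsg.IsPiHallOf π Y A) : ∃ a ∈ A, MulAut.conj a • X = Y := by
  obtain ⟨a, ha⟩ := hA.2 _ _ (isPiHall_subgroupOf hX) (isPiHall_subgroupOf hY)
  exact ⟨a, a.2, H1.conj_smul_of_subgroupOf hX.1 hY.1 a ha.symm⟩

/-- the class of groups with exactly one conjugacy class of Hall `π`-subgroups is closed under
extensions. -/
theorem cpi_extension (A : Subgroup G) [A.Normal]
    (hA : Cfsg.IsCPiGroup π A) (hQ : Cfsg.IsCPiGroup π (G ⧸ A)) : Cfsg.IsCPiGroup π G := by
  have key : ∀ (X R : Subgroup G), Cfsg.IsPiHallOf π X A → A ≤ R →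
      ∀ M : Subgroup G, M = normalizer (X : Set G) ⊓ R → A ⊔ M = R →
      (∀ p : ℕ, p.Prime → p ∣ A.relIndex R → p ∈ π) →
      X ≤ M ∧ ((X.subgroupOf M).relIndex (A.subgroupOf M)).Coprime (A.subgroupOf M).index ∧
        (A.subgroupOf M).index = A.relIndex R := by
    intro X R hX hAR M hM hAM hp
    have hXM : X ≤ M := by rw [hM]; exact le_inf Subgroup.le_normalizer (hX.1.trans hAR)
    have hi : (A.subgroupOf M).index = A.relIndex R := by
      have : (A.subgroupOf M).index = A.relIndex M := rfl
      rw [this, ← hAM, sup_comm A M, Subgroup.relIndex_sup_right]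
    refine ⟨hXM, ?_, hi⟩
    have e : (X.subgroupOf M).relIndex (A.subgroupOf M) = X.relIndex (A ⊓ M) := by
      have h1 := H1.card_mul_relIndex_aux (K := X.subgroupOf M) (H := A.subgroupOf M)
        (Subgroup.comap_mono hX.1)
      have h2 := H1.card_mul_relIndex_aux (K := X) (H := A ⊓ M) (le_inf hX.1 hXM)
      have h3 : Nat.card (A.subgroupOf M) = Nat.card (A ⊓ M : Subgroup G) := by
        rw [← Subgroup.inf_subgroupOf_right, H1.card_subgroupOf inf_le_right]
      rw [h3, H1.card_subgroupOf hXM, ← h2] at h1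
      exact Nat.eq_of_mul_eq_mul_left Nat.card_pos h1
    rw [hi, e]
    refine (coprime_of_pi hp fun p hpp hpi hd => hX.2.2 p hpp hpi (hd.trans ?_)).symm
    exact Dvd.intro _ (Subgroup.relIndex_mul_relIndex X (A ⊓ M) A (le_inf hX.1 hXM) inf_le_left)
  have hnorm : ∀ (X R : Subgroup G), (X.subgroupOf (normalizer (X : Set G) ⊓ R)).Normal := by
    intro X R
    constructor
    intro n hn g
    rw [Subgroup.mem_subgroupOf] at hn ⊢
    have := (Subgroup.mem_inf.mp g.2).1
    exact (Subgroup.mem_normalizer_iff.mp this n).mp hn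
  refine ⟨?_, ?_⟩
  · obtain ⟨X₀, hX₀⟩ := hA.1
    obtain ⟨Hb, hHb⟩ := hQ.1
    set X := X₀.map A.subtype with hXdef
    have hX : Cfsg.IsPiHallOf π X A := isPiHall_map_subtype hX₀
    set R := Hb.comap (QuotientGroup.mk' A) with hR
    have hAR : A ≤ R := by
      intro x hx
      rw [hR, Subgroup.mem_comap]
      have : (QuotientGroup.mk' A) x = 1 := (QuotientGroup.eq_one_iff x).mpr hx
      rw [this]; exact one_mem _
    have hRc : A.relIndex R = Nat.card Hb := by
      rw [← H1.card_map_mk', hR, Subgroup.map_comap_eq_self_of_surjective (QuotientGroup.mk'_surjective A)]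
    have hRi : R.index = Hb.index := by
      rw [hR, Subgroup.index_comap_of_surjective _ (QuotientGroup.mk'_surjective A)]
    have hAM : A ⊔ (normalizer (X : Set G) ⊓ R) = R := by
      apply le_antisymm (sup_le hAR inf_le_right)
      intro r hr
      obtain ⟨a, ha, hh⟩ := cpi_conj hA hX (isPiHallOf_conj hX r)
      have h1 : a⁻¹ * r ∈ normalizer (X : Set G) := by
        rw [H1.mem_normalizer_iff_conj_smul, ← H1.conj_smul_smul, ← hh, H1.conj_smul_smul]
        simp
      have h2 : a⁻¹ * r ∈ R := mul_mem (inv_mem (hAR ha)) hr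
      have : r = a * (a⁻¹ * r) := by group
      rw [this]
      exact mul_mem (Subgroup.mem_sup_left ha) (Subgroup.mem_sup_right ⟨h1, h2⟩)
    obtain ⟨hXM, hc, hi⟩ := key X R hX hAR _ rfl hAM (by rw [hRc]; exact hHb.1)
    set M := normalizer (X : Set G) ⊓ R with hM
    haveI := hnorm X R
    haveI : (A.subgroupOf M).Normal := Subgroup.normal_subgroupOf
    obtain ⟨K, hK, hKi⟩ := sz_exists_above (X.subgroupOf M) (A.subgroupOf M)
      (Subgroup.comap_mono hX.1) hc
    refine ⟨K.map M.subtype, ?_⟩
    have c1 : Nat.card (K.map M.subtype) = Nat.card X * Nat.card Hb := by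
      rw [H1.card_map_subtype, ← H1.card_mul_relIndex_aux hK, hKi, hi, H1.card_subgroupOf hXM, hRc]
    have c2 : (K.map M.subtype).index = X.relIndex A * Hb.index := by
      have h1 := Subgroup.card_mul_index (K.map M.subtype)
      have h2 := Subgroup.card_mul_index A
      have h3 := Subgroup.card_mul_index Hb
      have h4 := H1.card_mul_relIndex_aux hX.1
      have h5 : Nat.card (G ⧸ A) = A.index := (Subgroup.index_eq_card A).symm
      rw [c1, ← h2, ← h5, ← h3, ← h4] at h1
      have hp : 0 < Nat.card X * Nat.card Hb := Nat.mul_pos Nat.card_pos Nat.card_pos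
      apply Nat.eq_of_mul_eq_mul_left hp
      rw [h1]; ring
    constructor
    · intro p hp hd
      rw [c1] at hd
      rcases (hp.dvd_mul).mp hd with h | h
      · exact hX.2.1 p hp h
      · exact hHb.1 p hp h
    · intro p hp hpi hd
      rw [c2] at hd
      rcases (hp.dvd_mul).mp hd with h | h
      · exact hX.2.2 p hp hpi h
      · exact hHb.2 p hp hpi h
  · intro H K hH hK
    have hsuff : ∃ g : G, MulAut.conj g • H = K := by
      obtain ⟨y, hy⟩ := hQ.2 _ _ (hall_map hH A) (hall_map hK A)
      obtain ⟨g, rfl⟩ := QuotientGroup.mk'_surjective A y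
      have hy' : (MulAut.conj g • H).map (QuotientGroup.mk' A) = K.map (QuotientGroup.mk' A) := by
        rw [H1.map_conj_smul]; exact hy.symm
      have hH1 : Cfsg.IsPiHall π (MulAut.conj g • H) := by
        refine ⟨?_, ?_⟩
        · rw [H1.card_conj_smul]; exact hH.1
        · rw [H1.index_conj_smul]; exact hH.2
      obtain ⟨a, ha, hh⟩ := cpi_conj hA (isPiHall_map_subtype (hall_inf hH1 A))
        (isPiHall_map_subtype (hall_inf hK A))
      rw [Subgroup.subgroupOf_map_subtype, Subgroup.subgroupOf_map_subtype] at hh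
      set H' := MulAut.conj a • MulAut.conj g • H with hH'
      have hH2 : Cfsg.IsPiHall π H' := by
        refine ⟨?_, ?_⟩
        · rw [hH', H1.card_conj_smul]; exact hH1.1
        · rw [hH', H1.index_conj_smul]; exact hH1.2
      have hinf : H' ⊓ A = K ⊓ A := by
        rw [← hh, H1.conj_smul_inf, H1.conj_smul_normal (N := A)]
      have hsup : H' ⊔ A = K ⊔ A := by
        have e : ∀ Y : Subgroup G, Y ⊔ A = (Y.map (QuotientGroup.mk' A)).comap (QuotientGroup.mk' A) := by
          intro Y
          rw [Subgroup.comap_map_eq, QuotientGroup.ker_mk']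
        rw [e, e]
        congr 1
        rw [hH', H1.map_conj_smul, hy']
        have : (QuotientGroup.mk' A) a = 1 := (QuotientGroup.eq_one_iff a).mpr ha
        rw [this, H1.conj_one_smul]
      have hX : Cfsg.IsPiHallOf π (K ⊓ A) A := by
        have := isPiHall_map_subtype (hall_inf hK A)
        rwa [Subgroup.subgroupOf_map_subtype] at this
      have hle : ∀ Y : Subgroup G, Y ⊓ A = K ⊓ A → Y ⊔ A = K ⊔ A →
          Y ≤ normalizer ((K ⊓ A : Subgroup G) : Set G) ⊓ (K ⊔ A) := by
        intro Y h1 h2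
        refine le_inf ?_ (h2 ▸ le_sup_left)
        rw [← h1]
        intro y hy
        rw [Subgroup.mem_normalizer_iff]
        intro x
        constructor
        · intro hx
          exact ⟨Y.mul_mem (Y.mul_mem hy hx.1) (Y.inv_mem hy), (inferInstance : A.Normal).conj_mem x hx.2 y⟩
        · intro hx
          have h3 : y⁻¹ * (y * x * y⁻¹) * y = x := by group
          refine ⟨?_, ?_⟩
          · rw [← h3]; exact Y.mul_mem (Y.mul_mem (Y.inv_mem hy) hx.1) hy
          · have := (inferInstance : A.Normal).conj_mem _ hx.2 y⁻¹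
            rw [inv_inv] at this
            rwa [h3] at this
      have hAM : A ⊔ (normalizer ((K ⊓ A : Subgroup G) : Set G) ⊓ (K ⊔ A)) = K ⊔ A := by
        apply le_antisymm (sup_le le_sup_right inf_le_right)
        refine sup_le ((hle K rfl rfl).trans le_sup_right) le_sup_left
      have hAR : A.relIndex (K ⊔ A) = (K ⊓ A).relIndex K := by
        rw [Subgroup.relIndex_sup_right, Subgroup.inf_relIndex_left]
      obtain ⟨hXM, hc, hi⟩ := key (K ⊓ A) (K ⊔ A) hX le_sup_right _ rfl hAM (by
        intro p hp hd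
        rw [hAR] at hd
        exact hK.1 p hp (hd.trans (Dvd.intro_left _ (H1.card_mul_relIndex_aux inf_le_left))))
      set M := normalizer ((K ⊓ A : Subgroup G) : Set G) ⊓ (K ⊔ A) with hM
      haveI := hnorm (K ⊓ A) (K ⊔ A)
      haveI : (A.subgroupOf M).Normal := Subgroup.normal_subgroupOf
      have hcc : ∀ Y : Subgroup G, Cfsg.IsPiHall π Y → Y ⊓ A = K ⊓ A → Y ≤ M →
          ((K ⊓ A).subgroupOf M).relIndex (Y.subgroupOf M) = (A.subgroupOf M).index := by
        intro Y hY h1 h2
        rw [hi, hAR]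
        have h3 := H1.card_mul_relIndex_aux (K := (K ⊓ A).subgroupOf M) (H := Y.subgroupOf M)
          (Subgroup.comap_mono (h1 ▸ inf_le_left))
        have h4 := H1.card_mul_relIndex_aux (inf_le_left : K ⊓ A ≤ K)
        rw [H1.card_subgroupOf hXM, H1.card_subgroupOf h2, card_eq_of_hall hY hK, ← h4] at h3
        exact Nat.eq_of_mul_eq_mul_left Nat.card_pos h3
      obtain ⟨m, -, hm⟩ := sz_conj_above ((K ⊓ A).subgroupOf M) (A.subgroupOf M)
        (Subgroup.comap_mono inf_le_right) hc (H'.subgroupOf M) (K.subgroupOf M)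
        (Subgroup.comap_mono (hinf ▸ inf_le_left)) (Subgroup.comap_mono inf_le_left)
        (hcc H' hH2 hinf (hle H' hinf hsup)) (hcc K hK rfl (hle K rfl rfl))
      have := H1.conj_smul_of_subgroupOf (hle H' hinf hsup) (hle K rfl rfl) m hm
      refine ⟨m * (a * g), ?_⟩
      rw [← this, hH', H1.conj_smul_smul, H1.conj_smul_smul]
      congr 2
      simp [mul_assoc]
    obtain ⟨g, hg⟩ := hsuff
    exact ⟨g, hg.symm⟩

end Cfsg.Agent.H13
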