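import Mathlib
import Cfsg.Agent.H13.SZ2

/-! # `π`-separable groups are `D_π` -/

set_option autoImplicit false
set_option linter.all false

namespace Cfsg.Agent.H13

open Subgroup
open scoped Pointwise

/-- a Hall `π`-subgroup containing a conjugate of every `π`-subgroup. -/
def HasD (π : Set ℕ) (G : Type*) [Group G] : Prop :=
  ∃ K : Subgroup G, Cfsg.IsPiHall π K ∧
    ∀ U : Subgroup G, (∀ p : ℕ, p.Prime → p ∣ Nat.card U → p ∈ π) → ∃ g : G, MulAut.conj g • U ≤ K

theorem hasD_of_equiv {G G' : Type*} [Group G] [Group G'] {π : Set ℕ} (e : G ≃* G') (h : HasD π G) :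
    HasD π G' := by
  obtain ⟨K, hK, hd⟩ := h
  refine ⟨K.map e.toMonoidHom, ⟨?_, ?_⟩, ?_⟩
  · have : Nat.card (K.map e.toMonoidHom) = Nat.card K :=
      Nat.card_congr (e.subgroupMap K).symm.toEquiv
    rw [this]; exact hK.1
  · have : (K.map e.toMonoidHom).index = K.index :=
      Subgroup.index_map_equiv K e
    rw [this]; exact hK.2
  · intro U hU
    obtain ⟨g, hg⟩ := hd (U.comap e.toMonoidHom) (by
      have : Nat.card (U.comap e.toMonoidHom) = Nat.card U := by
        have h1 : U.comap e.toMonoidHom = U.map e.symm.toMonoidHom := by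
          ext x
          simp only [Subgroup.mem_comap, Subgroup.mem_map, MulEquiv.coe_toMonoidHom]
          constructor
          · intro hx; exact ⟨e x, hx, by simp⟩
          · rintro ⟨y, hy, rfl⟩; simpa using hy
        rw [h1]
        exact Nat.card_congr (e.symm.subgroupMap U).symm.toEquiv
      rw [this]; exact hU)
    refine ⟨e g, ?_⟩
    intro y hy
    rw [H1.mem_conj_smul] at hy
    refine ⟨e.symm y, hg ?_, by simp⟩
    rw [H1.mem_conj_smul, Subgroup.mem_comap]
    simpa using hy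

variable {G : Type*} [Group G] [Finite G] {π : Set ℕ}

theorem hasD_of_pi (h : ∀ p : ℕ, p.Prime → p ∣ Nat.card G → p ∈ π) : HasD π G := by
  refine ⟨⊤, ⟨?_, ?_⟩, fun U _ => ⟨1, le_top⟩⟩
  · rw [Subgroup.card_top]; exact h
  · intro p hp _ hd
    rw [Subgroup.index_top] at hd
    exact hp.one_lt.ne' (Nat.dvd_one.mp hd)

theorem hasD_ext_pi (N : Subgroup G) [N.Normal] (hN : ∀ p : ℕ, p.Prime → p ∣ Nat.card N → p ∈ π)
    (h : HasD π (G ⧸ N)) : HasD π G := by
  obtain ⟨L, hL, hd⟩ := h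
  have hc : Nat.card (L.comap (QuotientGroup.mk' N)) = Nat.card N * Nat.card L := by
    have h1 := H1.card_map_mk' N (L.comap (QuotientGroup.mk' N))
    rw [Subgroup.map_comap_eq_self_of_surjective (QuotientGroup.mk'_surjective N)] at h1
    rw [h1, H1.card_mul_relIndex_aux]
    intro x hx
    rw [Subgroup.mem_comap]
    have : (QuotientGroup.mk' N) x = 1 := (QuotientGroup.eq_one_iff x).mpr hx
    rw [this]; exact one_mem _
  refine ⟨L.comap (QuotientGroup.mk' N), ⟨?_, ?_⟩, ?_⟩
  · intro p hp hd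
    rw [hc] at hd
    rcases hp.dvd_mul.mp hd with h | h
    · exact hN p hp h
    · exact hL.1 p hp h
  · rw [Subgroup.index_comap_of_surjective _ (QuotientGroup.mk'_surjective N)]
    exact hL.2
  · intro U hU
    obtain ⟨y, hy⟩ := hd (U.map (QuotientGroup.mk' N))
      (fun p hp hq => hU p hp (hq.trans (Subgroup.card_map_dvd U _)))
    obtain ⟨g, rfl⟩ := QuotientGroup.mk'_surjective N y
    refine ⟨g, ?_⟩
    rw [← Subgroup.map_le_iff_le_comap, H1.map_conj_smul]
    exact hy

theorem hasD_ext_pi' (N : Subgroup G) [N.Normal] (hN : ∀ p : ℕ, p.Prime → p ∣ Nat.card N → p ∉ π)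
    (h : HasD π (G ⧸ N)) : HasD π G := by
  obtain ⟨Lb, hL, hd⟩ := h
  set R := Lb.comap (QuotientGroup.mk' N) with hR
  have hNR : N ≤ R := by
    intro x hx
    rw [hR, Subgroup.mem_comap]
    have : (QuotientGroup.mk' N) x = 1 := (QuotientGroup.eq_one_iff x).mpr hx
    rw [this]; exact one_mem _
  have hRc : N.relIndex R = Nat.card Lb := by
    rw [← H1.card_map_mk', hR, Subgroup.map_comap_eq_self_of_surjective (QuotientGroup.mk'_surjective N)]
  have hRi : R.index = Lb.index := by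
    rw [hR, Subgroup.index_comap_of_surjective _ (QuotientGroup.mk'_surjective N)]
  haveI : (N.subgroupOf R).Normal := Subgroup.normal_subgroupOf
  have hcop : (Nat.card N).Coprime (Nat.card Lb) :=
    (coprime_of_pi hL.1 fun p hp hpi hq => hN p hp hq hpi).symm
  obtain ⟨L₀, hL₀⟩ := Subgroup.exists_right_complement'_of_coprime (N := N.subgroupOf R) (by
    rw [H1.card_subgroupOf hNR]
    change (Nat.card N).Coprime (N.relIndex R)
    rw [hRc]; exact hcop)
  set L := L₀.map R.subtype with hLdef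
  have hLR : L ≤ R := Subgroup.map_subtype_le L₀
  have hLc : Nat.card L = Nat.card Lb := by
    rw [hLdef, H1.card_map_subtype, ← hL₀.symm.index_eq_card, ← hRc]; rfl
  have hNL : N ⊔ L = R := by
    apply le_antisymm (sup_le hNR hLR)
    intro r hr
    have h1 : (⟨r, hr⟩ : R) ∈ N.subgroupOf R ⊔ L₀ := by rw [hL₀.sup_eq_top]; trivial
    have h2 : r ∈ (N.subgroupOf R ⊔ L₀).map R.subtype := ⟨⟨r, hr⟩, h1, rfl⟩
    rw [Subgroup.map_sup, Subgroup.subgroupOf_map_subtype] at h2
    exact (sup_le (inf_le_left.trans le_sup_left) le_sup_right : N ⊓ R ⊔ Subgroup.map R.subtype L₀ ≤ N ⊔ L) h2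
  have hLi : L.index = Nat.card N * Lb.index := by
    have h1 := Subgroup.card_mul_index L
    have h2 := Subgroup.card_mul_index N
    have h3 := Subgroup.card_mul_index Lb
    have h4 : N.index = Nat.card (G ⧸ N) := Subgroup.index_eq_card N
    rw [hLc] at h1
    have hp : 0 < Nat.card Lb := Nat.card_pos
    apply Nat.eq_of_mul_eq_mul_left hp
    rw [h1, ← h2, h4, ← h3]; ring
  refine ⟨L, ⟨?_, ?_⟩, ?_⟩
  · rw [hLc]; exact hL.1
  · intro p hp hpi hq
    rw [hLi] at hq
    rcases hp.dvd_mul.mp hq with h | h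
    · exact hN p hp h hpi
    · exact hL.2 p hp hpi h
  · intro U hU
    obtain ⟨y, hy⟩ := hd (U.map (QuotientGroup.mk' N))
      (fun p hp hq => hU p hp (hq.trans (Subgroup.card_map_dvd U _)))
    obtain ⟨g, rfl⟩ := QuotientGroup.mk'_surjective N y
    have hUR : MulAut.conj g • U ≤ R := by
      rw [hR, ← Subgroup.map_le_iff_le_comap, H1.map_conj_smul]
      exact hy
    have hcU : (Nat.card N).Coprime (Nat.card (MulAut.conj g • U : Subgroup G)) := by
      rw [H1.card_conj_smul]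
      exact (coprime_of_pi hU fun p hp hpi hq => hN p hp hq hpi).symm
    have hnorm : ∀ Y : Subgroup G, Y ≤ normalizer (N : Set G) := fun Y => by
      rw [Subgroup.normalizer_eq_top]; exact le_top
    have e1 : N ⊔ (L ⊓ (N ⊔ MulAut.conj g • U)) = N ⊔ MulAut.conj g • U := by
      rw [← H1.normal_sup_inf_of_le L (le_sup_left : N ≤ N ⊔ MulAut.conj g • U), hNL]
      exact inf_eq_right.mpr (sup_le hNR hUR)
    have hcL : (Nat.card N).Coprime (Nat.card (L ⊓ (N ⊔ MulAut.conj g • U) : Subgroup G)) :=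
      Nat.Coprime.coprime_dvd_right (H1.card_dvd_of_le' inf_le_left) (hLc ▸ hcop)
    have e2 : Nat.card (MulAut.conj g • U : Subgroup G) =
        Nat.card (L ⊓ (N ⊔ MulAut.conj g • U) : Subgroup G) := by
      have h1 := H1.card_sup_of_coprime (hnorm (MulAut.conj g • U)) hcU
      have h2 := H1.card_sup_of_coprime (hnorm (L ⊓ (N ⊔ MulAut.conj g • U))) hcL
      rw [e1, h1] at h2
      exact Nat.eq_of_mul_eq_mul_left Nat.card_pos h2
    have e3 : MulAut.conj g • U ≤ N ⊔ (L ⊓ (N ⊔ MulAut.conj g • U)) := by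
      rw [e1]; exact le_sup_right
    obtain ⟨n, hn, hh⟩ := sz_conj_rel_ft N (MulAut.conj g • U) (L ⊓ (N ⊔ MulAut.conj g • U))
      (hnorm _) hcL e2 e3
    refine ⟨n * g, ?_⟩
    rw [← H1.conj_smul_smul, hh]
    exact inf_le_left

theorem hasD_step (A B : Subgroup G) [A.Normal] [B.Normal] (hAB : A ≤ B)
    (h : (∀ q : ℕ, q.Prime → q ∣ A.relIndex B → q ∈ π) ∨ (∀ q : ℕ, q.Prime → q ∣ A.relIndex B → q ∉ π))
    (hD : HasD π (G ⧸ B)) : HasD π (G ⧸ A) := by
  haveI : (B.map (QuotientGroup.mk' A)).Normal :=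
    Subgroup.Normal.map inferInstance _ (QuotientGroup.mk'_surjective A)
  have e := (QuotientGroup.quotientQuotientEquivQuotient A B hAB).symm
  have hD' : HasD π ((G ⧸ A) ⧸ B.map (QuotientGroup.mk' A)) :=
    hasD_of_equiv e hD
  rw [← H1.card_map_mk'] at h
  rcases h with h | h
  · exact hasD_ext_pi _ h hD'
  · exact hasD_ext_pi' _ h hD'

theorem hasD_of_separable
    (hsep : ∃ (n : ℕ) (H : Fin (n + 1) → Subgroup G), H 0 = ⊥ ∧ H (Fin.last n) = ⊤ ∧ Monotone H ∧ (∀ i, (H i).Normal) ∧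
      ∀ i : Fin n, (∀ q : ℕ, q.Prime → q ∣ (H i.castSucc).relIndex (H i.succ) → q ∈ π) ∨
        (∀ q : ℕ, q.Prime → q ∣ (H i.castSucc).relIndex (H i.succ) → q ∉ π)) : HasD π G := by
  obtain ⟨n, H, h0, hn, hmono, hnorm, hfac⟩ := hsep
  have key : ∀ i : Fin (n + 1), ∀ _ : (H i).Normal, HasD π (G ⧸ H i) := by
    intro i
    induction i using Fin.reverseInduction with
    | last =>
      intro _
      refine hasD_of_pi fun p hp hd => ?_
      rw [← Subgroup.index_eq_card, hn, Subgroup.index_top] at hd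
      exact absurd (Nat.dvd_one.mp hd) hp.one_lt.ne'
    | cast i ih =>
      intro _
      haveI := hnorm i.succ
      exact hasD_step (H i.castSucc) (H i.succ) (hmono (Fin.castSucc_lt_succ).le) (hfac i) (ih inferInstance)
  haveI := hnorm 0
  have h1 := key 0 inferInstance
  refine hasD_of_equiv (MulEquiv.ofBijective (QuotientGroup.mk' (H 0)) ⟨?_, QuotientGroup.mk'_surjective _⟩).symm h1
  rw [← MonoidHom.ker_eq_bot_iff, QuotientGroup.ker_mk', h0]

theorem hasD_conj (h : HasD π G) (K L : Subgroup G) (hK : Cfsg.IsPiHall π K) (hL : Cfsg.IsPiHall π L) :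
    ∃ g : G, MulAut.conj g • K = L := by
  obtain ⟨M, hM, hd⟩ := h
  have key : ∀ K : Subgroup G, Cfsg.IsPiHall π K → ∃ g : G, MulAut.conj g • K = M := by
    intro K hK
    obtain ⟨g, hg⟩ := hd K hK.1
    refine ⟨g, Subgroup.eq_of_le_of_card_ge hg ?_⟩
    rw [H1.card_conj_smul, card_eq_of_hall hM hK]
  obtain ⟨g, hg⟩ := key K hK
  obtain ⟨k, hk⟩ := key L hL
  refine ⟨k⁻¹ * g, ?_⟩
  rw [← H1.conj_smul_smul, hg, ← hk, H1.conj_smul_smul]
  simp

end Cfsg.Agent.H13
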