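import Mathlib
import Cfsg.Agent.H13.FusMore2
import Cfsg.Agent.H28.FusFactor3
import Cfsg.Agent.H28.FusReal
import Cfsg.Agent.H28.FusInner
import Cfsg.Agent.H28.S4Sec
import Cfsg.Agent.H28.Model8

/-!
# Configurations detecting sections isomorphic to the symmetric group of degree four
-/

set_option autoImplicit false
set_option linter.all false
open Cfsg Cfsg.FusionSystem

namespace Cfsg.Agent.H13

open Cfsg.Agent.H28
open Cfsg.Agent

universe u v w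

section
variable {Ω : Type u} [Group Ω] {S T : Subgroup Ω} {F : FusionSystem S} {E : FusionSystem T}
  {P P₀ Q R : Subgroup Ω} {p : ℕ}

/-- a section of order four acted on as by the symmetric group of degree three -/
def V4 (F : FusionSystem S) (P P₀ : Subgroup Ω) : Prop :=
  P₀ ≤ P ∧ (∀ x ∈ P, ∀ y ∈ P₀, x * y * x⁻¹ ∈ P₀) ∧ P₀.relIndex P = 4 ∧
  ∃ f g, Mor F P f ∧ Mor F P g ∧ (∀ x ∈ P, f x ∈ P) ∧ (∀ x ∈ P, g x ∈ P) ∧
    (∀ x ∈ P₀, f x ∈ P₀) ∧ (∀ x ∈ P₀, g x ∈ P₀) ∧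
    (∀ x ∈ P, x⁻¹ * f x ∈ P₀ → x ∈ P₀) ∧ (∃ x ∈ P, x ∉ P₀ ∧ x⁻¹ * g x ∈ P₀) ∧
    ∃ x ∈ P, x⁻¹ * g x ∉ P₀

def NB4 (F : FusionSystem S) : Prop := ∀ P P₀, ¬ V4 F P P₀

theorem V4.mono (hEF : ∀ P f, Mor E P f → Mor F P f) (h : V4 E P P₀) : V4 F P P₀ := by
  obtain ⟨h1, h2, h3, f, g, hf, hg, h4⟩ := h
  exact ⟨h1, h2, h3, f, g, hEF _ _ hf, hEF _ _ hg, h4⟩

theorem NB4.mono (h : NB4 F) (hEF : ∀ P f, Mor E P f → Mor F P f) : NB4 E :=
  fun P P₀ h1 => h P P₀ (h1.mono hEF)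

theorem nb4_normSys (h : NB4 F) {U : Subgroup Ω} (hU : U ≤ S) : NB4 (normSys F U hU) :=
  h.mono fun P f hf => by
    obtain ⟨-, -, g, hg, h1, -⟩ := mor_normSys.1 hf
    exact (hg.mono le_sup_left).congr h1

theorem relIndex_preimage {Ω' : Type v} [Group Ω'] {S' : Subgroup Ω'} {θ : S →* Ω'}
    (hr : θ.range = S') {A B : Subgroup Ω'} (hB : B ≤ S') :
    (preimageAlong θ A).relIndex (preimageAlong θ B) = A.relIndex B := by
  unfold preimageAlong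
  rw [Subgroup.relIndex_map_map_of_injective _ _ S.subtype_injective, Subgroup.relIndex_comap,
    Subgroup.map_comap_eq, hr, inf_eq_right.2 hB]

theorem V4.factor {Ω' : Type v} [Group Ω'] {S' : Subgroup Ω'} {θ : S →* Ω'} {E : FusionSystem S'}
    (hE : F.IsFactorSystem Q θ E) {P' P₀' : Subgroup Ω'} (h : V4 E P' P₀') :
    V4 F (preimageAlong θ P') (preimageAlong θ P₀') := by
  have hr := hE.2.2.1
  obtain ⟨h1, h2, h3, f', g', hf', hg', hfP, hgP, hf0, hg0, h4, ⟨x₁, hx₁, h5, h6⟩, x₂, hx₂, h7⟩ := h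
  obtain ⟨hP'S, f, hf, hff⟩ := (factor_mor_iff hE).1 hf'
  obtain ⟨-, g, hg, hgg⟩ := (factor_mor_iff hE).1 hg'
  have hmS : ∀ x ∈ preimageAlong θ P', x ∈ S := fun x hx => (mem_preimageAlong.1 hx).1
  refine ⟨fun x hx => mem_preimageAlong.2 ⟨(mem_preimageAlong.1 hx).1, h1 (mem_preimageAlong.1 hx).2⟩,
    fun x hx y hy => ?_, by rw [relIndex_preimage hr hP'S, h3], f, g, hf, hg, fun x hx => ?_,
    fun x hx => ?_, fun x hx => ?_, fun x hx => ?_, fun x hx hx' => ?_, ?_, ?_⟩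
  · obtain ⟨hxS, hx'⟩ := mem_preimageAlong.1 hx
    obtain ⟨hyS, hy'⟩ := mem_preimageAlong.1 hy
    refine mem_preimageAlong.2 ⟨mul_mem (mul_mem hxS hyS) (S.inv_mem hxS), ?_⟩
    rw [tf_conj hxS hyS]
    exact h2 _ hx' _ hy'
  · refine mem_preimageAlong.2 ⟨hf.mem hx, ?_⟩
    rw [← hff x hx]; exact hfP _ (mem_preimageAlong.1 hx).2
  · refine mem_preimageAlong.2 ⟨hg.mem hx, ?_⟩
    rw [← hgg x hx]; exact hgP _ (mem_preimageAlong.1 hx).2
  · obtain ⟨hxS, hx'⟩ := mem_preimageAlong.1 hx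
    have hxP : x ∈ preimageAlong θ P' := mem_preimageAlong.2 ⟨hxS, h1 hx'⟩
    refine mem_preimageAlong.2 ⟨hf.mem hxP, ?_⟩
    rw [← hff x hxP]; exact hf0 _ hx'
  · obtain ⟨hxS, hx'⟩ := mem_preimageAlong.1 hx
    have hxP : x ∈ preimageAlong θ P' := mem_preimageAlong.2 ⟨hxS, h1 hx'⟩
    refine mem_preimageAlong.2 ⟨hg.mem hxP, ?_⟩
    rw [← hgg x hxP]; exact hg0 _ hx'
  · obtain ⟨hxS, hxP⟩ := mem_preimageAlong.1 hx
    refine mem_preimageAlong.2 ⟨hxS, h4 _ hxP ?_⟩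
    have h8 := (mem_preimageAlong.1 hx').2
    rw [tf_mul (S.inv_mem hxS) (hf.mem hx), tf_inv hxS, ← hff x hx] at h8
    exact h8
  · obtain ⟨x, hx, rfl⟩ := exists_preimage hr hP'S hx₁
    refine ⟨x, hx, fun h => h5 (mem_preimageAlong.1 h).2, mem_preimageAlong.2
      ⟨mul_mem (S.inv_mem (hmS x hx)) (hg.mem hx), ?_⟩⟩
    rw [tf_mul (S.inv_mem (hmS x hx)) (hg.mem hx), tf_inv (hmS x hx), ← hgg x hx]
    exact h6
  · obtain ⟨x, hx, rfl⟩ := exists_preimage hr hP'S hx₂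
    refine ⟨x, hx, fun h => h7 ?_⟩
    have h8 := (mem_preimageAlong.1 h).2
    rw [tf_mul (S.inv_mem (hmS x hx)) (hg.mem hx), tf_inv (hmS x hx), ← hgg x hx] at h8
    exact h8

theorem NB4.factor {Ω' : Type v} [Group Ω'] {S' : Subgroup Ω'} {θ : S →* Ω'} {E : FusionSystem S'}
    (h : NB4 F) (hE : F.IsFactorSystem Q θ E) : NB4 E := fun P' P₀' h1 => h _ _ (h1.factor hE)

theorem card_mul_relIndex' {A B : Subgroup Ω} (h : A ≤ B) :
    Nat.card A * A.relIndex B = Nat.card B := by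
  have := Subgroup.card_mul_index (A.subgroupOf B)
  rwa [Nat.card_congr (Subgroup.subgroupOfEquivOfLe h).toEquiv] at this

/-- transport of a configuration; `X` is a larger group on which the maps are defined. -/
theorem transport_pair [Finite S] {X : Subgroup Ω} {k f : Ω → Ω} (hk : Mor F X k) (hf : Mor F X f)
    (hfX : ∀ x ∈ X, f x ∈ X) : ∃ f', Mor F (img X k) f' ∧ (∀ x ∈ X, f' (k x) = k (f x)) := by
  obtain ⟨i, hi, hi1, -, hi3⟩ := hk.inverse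
  refine ⟨fun y => k (f (i y)), ?_, fun x hx => by
    show k (f (i (k x))) = _
    rw [hi1 x hx]⟩
  refine (hi.comp hf fun y hy => ?_).comp hk fun y hy => ?_
  · obtain ⟨x, hx, rfl⟩ := hk.mem_img.1 hy
    rw [hi1 x hx]; exact hx
  · obtain ⟨x, hx, rfl⟩ := hk.mem_img.1 hy
    rw [hi1 x hx]; exact hfX x hx

/-- configuration with maps on a larger group -/
def V4X (F : FusionSystem S) (X P P₀ : Subgroup Ω) : Prop :=
  P ≤ X ∧ P₀ ≤ P ∧ (∀ x ∈ P, ∀ y ∈ P₀, x * y * x⁻¹ ∈ P₀) ∧ P₀.relIndex P = 4 ∧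
  ∃ f g, Mor F X f ∧ Mor F X g ∧ (∀ x ∈ X, f x ∈ X) ∧ (∀ x ∈ X, g x ∈ X) ∧
    (∀ x ∈ P, f x ∈ P) ∧ (∀ x ∈ P, g x ∈ P) ∧
    (∀ x ∈ P₀, f x ∈ P₀) ∧ (∀ x ∈ P₀, g x ∈ P₀) ∧
    (∀ x ∈ P, x⁻¹ * f x ∈ P₀ → x ∈ P₀) ∧ (∃ x ∈ P, x ∉ P₀ ∧ x⁻¹ * g x ∈ P₀) ∧
    ∃ x ∈ P, x⁻¹ * g x ∉ P₀

theorem V4.toX (h : V4 F P P₀) : V4X F P P P₀ := by
  obtain ⟨h1, h2, h3, f, g, hf, hg, hfP, hgP, h4⟩ := h
  exact ⟨le_rfl, h1, h2, h3, f, g, hf, hg, hfP, hgP, hfP, hgP, h4⟩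

theorem V4X.transport [Finite S] {X : Subgroup Ω} (h : V4X F X P P₀) {k : Ω → Ω} (hk : Mor F X k) :
    V4X F (img X k) (img P k) (img P₀ k) := by
  obtain ⟨hPX, h1, h2, h3, f, g, hf, hg, hfX, hgX, hfP, hgP, hf0, hg0, h4, ⟨x₁, hx₁, h5, h6⟩, x₂, hx₂, h7⟩ := h
  obtain ⟨f', hf', hff⟩ := transport_pair hk hf hfX
  obtain ⟨g', hg', hgg⟩ := transport_pair hk hg hgX
  have hkP := hk.mono hPX
  have hk0 := hk.mono (h1.trans hPX)
  haveI : Finite P := finite_of_le hkP.le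
  haveI : Finite P₀ := finite_of_le hk0.le
  have hiff : ∀ x ∈ P, k x ∈ img P₀ k → x ∈ P₀ := by
    intro x hx hx'
    obtain ⟨y, hy, hyx⟩ := hk0.mem_img.1 hx'
    rwa [← hkP.inj (h1 hy) hx hyx]
  have hcomp : ∀ (u : Ω → Ω) (u' : Ω → Ω), (∀ x ∈ P, u x ∈ P) → (∀ x ∈ X, u' (k x) = k (u x)) →
      ∀ x ∈ P, (k x)⁻¹ * u' (k x) = k (x⁻¹ * u x) := by
    intro u u' hu huu x hx
    rw [huu x (hPX hx), hkP.mul (P.inv_mem hx) (hu x hx), hkP.inv hx]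
  refine ⟨img_mono hPX, img_mono h1, fun x hx y hy => ?_, ?_, f', g', hf', hg', fun x hx => ?_,
    fun x hx => ?_, fun x hx => ?_, fun x hx => ?_, fun x hx => ?_, fun x hx => ?_,
    fun x hx hx' => ?_, ?_, ?_⟩
  · obtain ⟨a, ha, rfl⟩ := hkP.mem_img.1 hx
    obtain ⟨b, hb, rfl⟩ := hk0.mem_img.1 hy
    rw [← hkP.conj ha (h1 hb)]
    exact mem_img_of_mem (h2 a ha b hb)
  · have e1 := card_mul_relIndex' (img_mono (f := k) h1)
    have e2 := card_mul_relIndex' h1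
    rw [hk0.card_img, hkP.card_img] at e1
    rw [h3] at e2
    have : 0 < Nat.card P₀ := Nat.card_pos
    exact Nat.eq_of_mul_eq_mul_left this (e1.trans e2.symm)
  · obtain ⟨a, ha, rfl⟩ := hk.mem_img.1 hx
    rw [hff a ha]; exact mem_img_of_mem (hfX a ha)
  · obtain ⟨a, ha, rfl⟩ := hk.mem_img.1 hx
    rw [hgg a ha]; exact mem_img_of_mem (hgX a ha)
  · obtain ⟨a, ha, rfl⟩ := hkP.mem_img.1 hx
    rw [hff a (hPX ha)]; exact mem_img_of_mem (hfP a ha)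
  · obtain ⟨a, ha, rfl⟩ := hkP.mem_img.1 hx
    rw [hgg a (hPX ha)]; exact mem_img_of_mem (hgP a ha)
  · obtain ⟨a, ha, rfl⟩ := hk0.mem_img.1 hx
    rw [hff a (hPX (h1 ha))]; exact mem_img_of_mem (hf0 a ha)
  · obtain ⟨a, ha, rfl⟩ := hk0.mem_img.1 hx
    rw [hgg a (hPX (h1 ha))]; exact mem_img_of_mem (hg0 a ha)
  · obtain ⟨a, ha, rfl⟩ := hkP.mem_img.1 hx
    rw [hcomp f f' hfP hff a ha] at hx'
    exact mem_img_of_mem (h4 a ha (hiff _ (mul_mem (P.inv_mem ha) (hfP a ha)) hx'))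
  · refine ⟨k x₁, mem_img_of_mem hx₁, fun h => h5 (hiff _ hx₁ h), ?_⟩
    rw [hcomp g g' hgP hgg x₁ hx₁]
    exact mem_img_of_mem h6
  · refine ⟨k x₂, mem_img_of_mem hx₂, fun h => h7 ?_⟩
    rw [hcomp g g' hgP hgg x₂ hx₂] at h
    exact hiff _ (mul_mem (P.inv_mem hx₂) (hgP _ hx₂)) h

/-- extension of a self-map of `P` to `P C_S(P)`. -/
theorem extend_centralizer [Finite S] (hR : F.IsReceptive P) {f : Ω → Ω} (hf : Mor F P f)
    (hfP : ∀ x ∈ P, f x ∈ P) : ∃ g, Mor F (P ⊔ centralizerIn S P) g ∧ (∀ x ∈ P, g x = f x) ∧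
      ∀ x ∈ P ⊔ centralizerIn S P, g x ∈ P ⊔ centralizerIn S P := by
  haveI : Finite P := finite_of_le hf.le
  have himg : img P f = P := eq_of_le_of_card (img_le_iff.2 hfP) (by rw [hf.card_img])
  obtain ⟨g, hg, hgx⟩ := receptive_extend (by rwa [himg]) hf
  have hg' := hg.mono (sup_le hf.le_Nf hf.centralizer_le_Nf)
  refine ⟨g, hg', hgx, ?_⟩
  rw [← img_le_iff, hg'.img_sup]
  refine sup_le ?_ ?_
  · rw [img_congr hgx, himg]; exact le_sup_left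
  · refine le_trans ?_ le_sup_right
    rw [img_le_iff]
    intro c hc
    have hc' := mem_centralizerIn.1 hc
    refine mem_centralizerIn.2 ⟨hg'.mem (Subgroup.mem_sup_right hc), fun y hy => ?_⟩
    rw [← himg] at hy
    obtain ⟨x, hx, rfl⟩ := hf.mem_img.1 hy
    rw [← hgx x hx, ← hg'.mul (Subgroup.mem_sup_right hc) (Subgroup.mem_sup_left hx),
      ← hg'.mul (Subgroup.mem_sup_left hx) (Subgroup.mem_sup_right hc), hc'.2 x hx]

theorem centric_sup_centralizer [Finite S] (hP : F.IsFullyCentralized P) :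
    F.IsCentric (P ⊔ centralizerIn S P) := by
  have hPS := (fullyCentralized_iff.1 hP).1
  refine ⟨sup_le hPS centralizerIn_le, fun Q hQ => ?_⟩
  obtain ⟨f, hf, rfl⟩ := isConj_iff.1 hQ
  have hfP := hf.mono (le_sup_left : P ≤ P ⊔ centralizerIn S P)
  have h1 := (fullyCentralized_iff.1 hP).2 f hfP
  have h2 : img (centralizerIn S P) f ≤ centralizerIn S (img P f) := by
    rw [img_le_iff]
    intro c hc
    have hc' := mem_centralizerIn.1 hc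
    refine mem_centralizerIn.2 ⟨hf.mem (Subgroup.mem_sup_right hc), fun y hy => ?_⟩
    obtain ⟨x, hx, rfl⟩ := hfP.mem_img.1 hy
    rw [← hf.mul (Subgroup.mem_sup_right hc) (Subgroup.mem_sup_left hx),
      ← hf.mul (Subgroup.mem_sup_left hx) (Subgroup.mem_sup_right hc), hc'.2 x hx]
  haveI : Finite (centralizerIn S (img P f)) := finite_of_le centralizerIn_le
  have h3 : img (centralizerIn S P) f = centralizerIn S (img P f) :=
    eq_of_le_of_card h2 (by rw [(hf.mono le_sup_right).card_img]; exact h1)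
  refine (centralizerIn_anti (img_mono (le_sup_left : P ≤ P ⊔ centralizerIn S P))).trans ?_
  rw [← h3]
  exact img_mono le_sup_right

/-- from a configuration to one on a fully normalized centric subgroup. -/
theorem V4.exists_X {p : ℕ} [Fact p.Prime] [Finite S] (hS : IsPGroup p S) (hF : F.IsSaturated p) (h : V4 F P P₀) :
    ∃ X P' P₀', F.IsFullyNormalized X ∧ F.IsCentric X ∧ V4X F X P' P₀' := by
  have hPS : P ≤ S := by
    obtain ⟨-, -, -, f, g, hf, -⟩ := h; exact hf.le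
  obtain ⟨P₁, hP₁, hP₁n⟩ := exists_fullyNormalized (F := F) hPS
  obtain ⟨k, hk, rfl⟩ := isConj_iff.1 hP₁
  have h1 := h.toX.transport hk
  set P₁ := img P k
  set P₂ := img P₀ k
  have hfc := FN.fc hS hF hP₁n
  have hrec := FN.rec hS hF hP₁n
  obtain ⟨-, h2, h3, h4, f, g, hf, hg, -, -, hfP, hgP, h5⟩ := h1
  obtain ⟨f', hf', hff, hfX⟩ := extend_centralizer hrec hf hfP
  obtain ⟨g', hg', hgg, hgX⟩ := extend_centralizer hrec hg hgP
  have hX : V4X F (P₁ ⊔ centralizerIn S P₁) P₁ P₂ := by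
    obtain ⟨h6, h7, h8, ⟨x₁, hx₁, h9, h10⟩, x₂, hx₂, h11⟩ := h5
    refine ⟨le_sup_left, h2, h3, h4, f', g', hf', hg', hfX, hgX, fun x hx => ?_, fun x hx => ?_,
      fun x hx => ?_, fun x hx => ?_, fun x hx hx' => ?_, ⟨x₁, hx₁, h9, ?_⟩, x₂, hx₂, ?_⟩
    · rw [hff x hx]; exact hfP x hx
    · rw [hgg x hx]; exact hgP x hx
    · rw [hff x (h2 hx)]; exact h6 x hx
    · rw [hgg x (h2 hx)]; exact h7 x hx
    · rw [hff x hx] at hx'; exact h8 x hx hx'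
    · rw [hgg x₁ hx₁]; exact h10
    · rw [hgg x₂ hx₂]; exact h11
  have hc := centric_sup_centralizer hfc
  obtain ⟨X, hX1, hXn⟩ := exists_fullyNormalized (F := F) (centric_le hc)
  obtain ⟨u, hu, rfl⟩ := isConj_iff.1 hX1
  exact ⟨_, _, _, hXn, centric_img hc hu, hX.transport hu⟩

end

end Cfsg.Agent.H13
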