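import Mathlib
import Cfsg.Agent.H13.V4Cfg1
import Cfsg.Agent.L.Invol

/-!
# Configurations detecting sections isomorphic to the symmetric group of degree four: groups
-/

set_option autoImplicit false
set_option linter.all false
open Cfsg Cfsg.FusionSystem

namespace Cfsg.Agent.H13

open Cfsg.Agent.H28
open Cfsg.Agent

universe u v w

/-- the group-theoretic configuration -/
def V4G {L : Type u} [Group L] (A A₀ : Subgroup L) (s t : L) : Prop :=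
  A₀ ≤ A ∧ (∀ x ∈ A, ∀ y ∈ A₀, x * y * x⁻¹ ∈ A₀) ∧ A₀.relIndex A = 4 ∧
  (∀ x ∈ A, s * x * s⁻¹ ∈ A) ∧ (∀ x ∈ A, t * x * t⁻¹ ∈ A) ∧
  (∀ x ∈ A₀, s * x * s⁻¹ ∈ A₀) ∧ (∀ x ∈ A₀, t * x * t⁻¹ ∈ A₀) ∧
  (∀ x ∈ A, x⁻¹ * (s * x * s⁻¹) ∈ A₀ → x ∈ A₀) ∧ (∃ x ∈ A, x ∉ A₀ ∧ x⁻¹ * (t * x * t⁻¹) ∈ A₀) ∧
  ∃ x ∈ A, x⁻¹ * (t * x * t⁻¹) ∉ A₀

theorem V4G.involves {L : Type u} [Group L] [Finite L] {A A₀ : Subgroup L} {s t : L}
    (h : V4G A A₀ s t) : Involves (Equiv.Perm (Fin 4)) L := by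
  obtain ⟨h1, hn, hidx, hs, ht, hs0, ht0, h4, ⟨x₁, hx₁, h5, h6⟩, x₂, hx₂, h7⟩ := h
  set H : Subgroup L := Subgroup.normalizer (A : Set L) ⊓ Subgroup.normalizer (A₀ : Set L) with hH
  have hAH : A ≤ H := fun x hx => ⟨Subgroup.le_normalizer hx, mem_normalizer_of_finite fun y hy => hn x hx y hy⟩
  have hsH : s ∈ H := ⟨mem_normalizer_of_finite hs, mem_normalizer_of_finite hs0⟩
  have htH : t ∈ H := ⟨mem_normalizer_of_finite ht, mem_normalizer_of_finite ht0⟩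
  haveI hN : (A₀.subgroupOf H).Normal := ⟨fun n hn' g => by
    rw [Subgroup.mem_subgroupOf] at hn' ⊢
    exact (Subgroup.mem_normalizer_iff.1 g.2.2 _).1 hn'⟩
  have hAn : (A.subgroupOf H).Normal := ⟨fun n hn' g => by
    rw [Subgroup.mem_subgroupOf] at hn' ⊢
    exact (Subgroup.mem_normalizer_iff.1 g.2.1 _).1 hn'⟩
  obtain ⟨Qt, _, π, hπs, hπk⟩ : ∃ (Qt : Type u) (_ : Group Qt) (π : H →* Qt),
      Function.Surjective π ∧ π.ker = A₀.subgroupOf H :=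
    ⟨_, inferInstance, QuotientGroup.mk' _, QuotientGroup.mk'_surjective _, QuotientGroup.ker_mk' _⟩
  haveI : Finite Qt := Finite.of_surjective π hπs
  haveI hUn : ((A.subgroupOf H).map π).Normal := hAn.map π hπs
  have hUc : Nat.card ((A.subgroupOf H).map π) = 4 := by
    rw [← Subgroup.relIndex_ker, hπk]
    unfold Subgroup.subgroupOf
    rw [Subgroup.relIndex_comap]
    have : (A.comap H.subtype).map H.subtype = A := Subgroup.map_subgroupOf_eq_of_le hAH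
    rw [this, hidx]
  have key : ∀ (a b : H), π a = π b → (b : L)⁻¹ * a ∈ A₀ := by
    intro a b h
    have h1 := (MonoidHom.eq_iff π).1 h
    rw [hπk, Subgroup.mem_subgroupOf] at h1
    exact h1
  have key' : ∀ (a b : H), (b : L)⁻¹ * a ∈ A₀ → π a = π b := by
    intro a b h
    refine (MonoidHom.eq_iff π).2 ?_
    rw [hπk, Subgroup.mem_subgroupOf]
    exact h
  have hinv := involves_four ((A.subgroupOf H).map π) hUc (π ⟨s, hsH⟩) (π ⟨t, htH⟩) ?_ ?_ ?_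
  · exact Cfsg.Agent.L.inv_trans hinv (Cfsg.Agent.L.inv_surj (Cfsg.Agent.L.inv_sub (Cfsg.Agent.L.inv_refl L) H) π hπs)
  · rintro _ ⟨⟨x, hxH⟩, hx, rfl⟩ h
    rw [← map_mul, ← map_inv, ← map_mul] at h
    have h8 := h4 x hx (key _ _ h)
    have h9 : (⟨x, hxH⟩ : H) ∈ π.ker := by rw [hπk]; exact Subgroup.mem_subgroupOf.2 h8
    exact MonoidHom.mem_ker.1 h9
  · refine ⟨π ⟨x₁, hAH hx₁⟩, ⟨⟨x₁, hAH hx₁⟩, hx₁, rfl⟩, fun h => h5 ?_, ?_⟩
    · have h9 : (⟨x₁, hAH hx₁⟩ : H) ∈ π.ker := MonoidHom.mem_ker.2 h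
      rw [hπk] at h9
      exact Subgroup.mem_subgroupOf.1 h9
    · rw [← map_mul, ← map_inv, ← map_mul]
      exact key' _ _ h6
  · refine ⟨π ⟨x₂, hAH hx₂⟩, ⟨⟨x₂, hAH hx₂⟩, hx₂, rfl⟩, fun h => h7 ?_⟩
    rw [← map_mul, ← map_inv, ← map_mul] at h
    exact key _ _ h

section
variable {Ω : Type u} [Group Ω] {S T : Subgroup Ω} {F : FusionSystem S} {E : FusionSystem T}
  {P P₀ Q R : Subgroup Ω} {p : ℕ}

theorem relIndex_image {G : Type v} [Group G] {ι : S →* G} (hι : Function.Injective ι) {A B : Subgroup Ω}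
    (hA : A ≤ B) (hB : B ≤ S) : (imageAlong ι A).relIndex (imageAlong ι B) = A.relIndex B := by
  unfold imageAlong
  rw [Subgroup.relIndex_map_map_of_injective _ _ hι]
  unfold Subgroup.subgroupOf
  rw [Subgroup.relIndex_comap]
  have : (B.comap S.subtype).map S.subtype = B := Subgroup.map_subgroupOf_eq_of_le hB
  rw [this]

/-- a configuration in a realized system gives one in the group -/
theorem V4X.group {G : Type v} [Group G] {ι : S →* G} (hr : F.IsRealizedBy ι) {X : Subgroup Ω}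
    (h : V4X F X P P₀) : ∃ s t, V4G (imageAlong ι P) (imageAlong ι P₀) s t := by
  obtain ⟨hPX, h1, h2, h3, f, g, hf, hg, hfX, hgX, hfP, hgP, hf0, hg0, h4, ⟨x₁, hx₁, h5, h6⟩, x₂, hx₂, h7⟩ := h
  have hι := hr.1
  obtain ⟨hXS, -, s, hs⟩ := (mor_realized hr).1 hf
  obtain ⟨-, -, t, ht⟩ := (mor_realized hr).1 hg
  have hPS := hPX.trans hXS
  have h0S := h1.trans hPS
  have hiff : ∀ x ∈ S, tf ι x ∈ imageAlong ι P₀ → x ∈ P₀ := by
    intro x hx hx'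
    obtain ⟨y, hyS, hy, hyx⟩ := mem_imageAlong.1 hx'
    rwa [← tf_inj hι hyS hx hyx]
  have hstep : ∀ (u : Ω → Ω) (c : G), (∀ x ∈ X, tf ι (u x) = c * tf ι x * c⁻¹) → (∀ x ∈ P, u x ∈ P) →
      ∀ x ∈ P, (tf ι x)⁻¹ * (c * tf ι x * c⁻¹) = tf ι (x⁻¹ * u x) := by
    intro u c hc hu x hx
    rw [← hc x (hPX hx), tf_mul (S.inv_mem (hPS hx)) (hPS (hu x hx)), tf_inv (hPS hx)]
  refine ⟨s, t, ?_, ?_, by rw [relIndex_image hι h1 hPS, h3], ?_, ?_, ?_, ?_, ?_, ?_, ?_⟩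
  · rintro y hy
    obtain ⟨x, hxS, hx, rfl⟩ := mem_imageAlong.1 hy
    exact tf_mem_imageAlong hPS (h1 hx)
  · intro x hx y hy
    obtain ⟨a, haS, ha, rfl⟩ := mem_imageAlong.1 hx
    obtain ⟨b, hbS, hb, rfl⟩ := mem_imageAlong.1 hy
    rw [← tf_conj haS hbS]
    exact tf_mem_imageAlong h0S (h2 a ha b hb)
  · intro y hy
    obtain ⟨x, hxS, hx, rfl⟩ := mem_imageAlong.1 hy
    rw [← hs x (hPX hx)]; exact tf_mem_imageAlong hPS (hfP x hx)
  · intro y hy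
    obtain ⟨x, hxS, hx, rfl⟩ := mem_imageAlong.1 hy
    rw [← ht x (hPX hx)]; exact tf_mem_imageAlong hPS (hgP x hx)
  · intro y hy
    obtain ⟨x, hxS, hx, rfl⟩ := mem_imageAlong.1 hy
    rw [← hs x (hPX (h1 hx))]; exact tf_mem_imageAlong h0S (hf0 x hx)
  · intro y hy
    obtain ⟨x, hxS, hx, rfl⟩ := mem_imageAlong.1 hy
    rw [← ht x (hPX (h1 hx))]; exact tf_mem_imageAlong h0S (hg0 x hx)
  · intro y hy hy'
    obtain ⟨x, hxS, hx, rfl⟩ := mem_imageAlong.1 hy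
    rw [hstep f s hs hfP x hx] at hy'
    exact tf_mem_imageAlong h0S (h4 x hx (hiff _ (mul_mem (S.inv_mem hxS) (hPS (hfP x hx))) hy'))
  · refine ⟨tf ι x₁, tf_mem_imageAlong hPS hx₁, fun h => h5 (hiff _ (hPS hx₁) h), ?_⟩
    rw [hstep g t ht hgP x₁ hx₁]
    exact tf_mem_imageAlong h0S h6
  · refine ⟨tf ι x₂, tf_mem_imageAlong hPS hx₂, fun h => h7 ?_⟩
    rw [hstep g t ht hgP x₂ hx₂] at h
    exact hiff _ (mul_mem (S.inv_mem (hPS hx₂)) (hPS (hgP x₂ hx₂))) h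

theorem nb4_of_free [Fact p.Prime] [Finite S] (hS : IsPGroup p S) (hF : F.IsSaturated p)
    (hfree : F.IsSectionFree p (Equiv.Perm (Fin 4))) : NB4 F := by
  intro P P₀ h
  obtain ⟨X, P', P₀', hXn, hXc, hX⟩ := h.exists_X hS hF
  obtain ⟨L, _, ι, hL⟩ := norm_model_exists hS hF hXn hXc
  haveI := hL.1
  have hXS := hXn.1
  have hfree' := isSectionFree_iff.1 hfree X hXn hXc hXS L ι hL
  refine hfree' ?_
  have hX' : V4X (normSys F X hXS) X P' P₀' := by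
    obtain ⟨hPX, h1, h2, h3, f, g, hf, hg, hfX, hgX, h4⟩ := hX
    haveI : Finite X := finite_of_le hXS
    have hXN := le_normalizerIn hXS
    have key : ∀ f, Mor F X f → (∀ x ∈ X, f x ∈ X) → Mor (normSys F X hXS) X f := by
      intro f hf hfX
      refine mor_normSys.2 ⟨hXN, fun x hx => hXN (hfX x hx), f, by rwa [sup_idem], fun _ _ => rfl, ?_⟩
      exact eq_of_le_of_card (img_le_iff.2 hfX) (by rw [hf.card_img])
    exact ⟨hPX, h1, h2, h3, f, g, key f hf hfX, key g hg hgX, hfX, hgX, h4⟩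
  obtain ⟨s, t, h1⟩ := hX'.group hL.2.1
  exact h1.involves

/-- converse: a configuration in the group gives one in the realized system -/
theorem V4G.fusion {G : Type v} [Group G] [Finite S] {ι : S →* G} (hr : F.IsRealizedBy ι) {A A₀ : Subgroup G}
    {s t : G} (h : V4G A A₀ s t) (hA : A ≤ ι.range) :
    V4 F (preimageAlong ι A) (preimageAlong ι A₀) := by
  obtain ⟨h1, hn, hidx, hs, ht, hs0, ht0, h4, ⟨x₁, hx₁, h5, h6⟩, x₂, hx₂, h7⟩ := h
  have hι := hr.1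
  have hle : preimageAlong ι A ≤ S := fun x hx => (mem_preimageAlong.1 hx).1
  have hm : ∀ c : G, (∀ x ∈ A, c * x * c⁻¹ ∈ A) → Mor F (preimageAlong ι A)
      (fun x => tfi ι (c * tf ι x * c⁻¹)) ∧ ∀ x ∈ preimageAlong ι A,
        tf ι (tfi ι (c * tf ι x * c⁻¹)) = c * tf ι x * c⁻¹ := fun c hc =>
    mor_real_conj hr c hle fun x hx => hA (hc _ (mem_preimageAlong.1 hx).2)
  obtain ⟨hsm, hsv⟩ := hm s hs
  obtain ⟨htm, htv⟩ := hm t ht
  refine ⟨fun x hx => mem_preimageAlong.2 ⟨(mem_preimageAlong.1 hx).1, h1 (mem_preimageAlong.1 hx).2⟩,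
    fun x hx y hy => ?_, by rw [relIndex_preimage rfl hA, hidx], _, _, hsm, htm, fun x hx => ?_,
    fun x hx => ?_, fun x hx => ?_, fun x hx => ?_, fun x hx hx' => ?_, ?_, ?_⟩
  · obtain ⟨hxS, hx'⟩ := mem_preimageAlong.1 hx
    obtain ⟨hyS, hy'⟩ := mem_preimageAlong.1 hy
    refine mem_preimageAlong.2 ⟨mul_mem (mul_mem hxS hyS) (S.inv_mem hxS), ?_⟩
    rw [tf_conj hxS hyS]
    exact hn _ hx' _ hy'
  · refine mem_preimageAlong.2 ⟨hsm.mem hx, ?_⟩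
    rw [hsv x hx]; exact hs _ (mem_preimageAlong.1 hx).2
  · refine mem_preimageAlong.2 ⟨htm.mem hx, ?_⟩
    rw [htv x hx]; exact ht _ (mem_preimageAlong.1 hx).2
  · obtain ⟨hxS, hx'⟩ := mem_preimageAlong.1 hx
    have hxP : x ∈ preimageAlong ι A := mem_preimageAlong.2 ⟨hxS, h1 hx'⟩
    refine mem_preimageAlong.2 ⟨hsm.mem hxP, ?_⟩
    rw [hsv x hxP]; exact hs0 _ hx'
  · obtain ⟨hxS, hx'⟩ := mem_preimageAlong.1 hx
    have hxP : x ∈ preimageAlong ι A := mem_preimageAlong.2 ⟨hxS, h1 hx'⟩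
    refine mem_preimageAlong.2 ⟨htm.mem hxP, ?_⟩
    rw [htv x hxP]; exact ht0 _ hx'
  · obtain ⟨hxS, hxP⟩ := mem_preimageAlong.1 hx
    refine mem_preimageAlong.2 ⟨hxS, h4 _ hxP ?_⟩
    have h8 := (mem_preimageAlong.1 hx').2
    rw [tf_mul (S.inv_mem hxS) (hsm.mem hx), tf_inv hxS, hsv x hx] at h8
    exact h8
  · obtain ⟨x, hx, rfl⟩ := exists_preimage rfl hA hx₁
    have hxS := (mem_preimageAlong.1 hx).1
    refine ⟨x, hx, fun h => h5 (mem_preimageAlong.1 h).2, mem_preimageAlong.2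
      ⟨mul_mem (S.inv_mem hxS) (htm.mem hx), ?_⟩⟩
    rw [tf_mul (S.inv_mem hxS) (htm.mem hx), tf_inv hxS, htv x hx]
    exact h6
  · obtain ⟨x, hx, rfl⟩ := exists_preimage rfl hA hx₂
    have hxS := (mem_preimageAlong.1 hx).1
    refine ⟨x, hx, fun h => h7 ?_⟩
    have h8 := (mem_preimageAlong.1 h).2
    rw [tf_mul (S.inv_mem hxS) (htm.mem hx), tf_inv hxS, htv x hx] at h8
    exact h8

end

end Cfsg.Agent.H13
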