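import Mathlib
import Cfsg.Agent.H13.V4Cfg2
import Cfsg.Agent.L.SylIn

/-!
# Sections isomorphic to the symmetric group of degree four give configurations
-/

set_option autoImplicit false
set_option linter.all false
open Cfsg Cfsg.FusionSystem

namespace Cfsg.Agent.H13

open Cfsg.Agent.H28
open Cfsg.Agent

universe u v w

/-- the normal four-group of `S₄` -/
def K4 : Subgroup (Equiv.Perm (Fin 4)) where
  carrier := {σ | σ = 1 ∨ σ = Equiv.swap 0 1 * Equiv.swap 2 3 ∨ σ = Equiv.swap 0 2 * Equiv.swap 1 3 ∨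
    σ = Equiv.swap 0 3 * Equiv.swap 1 2}
  one_mem' := Or.inl rfl
  mul_mem' := by
    rintro a b ha hb
    revert ha hb
    show (a = 1 ∨ a = Equiv.swap 0 1 * Equiv.swap 2 3 ∨ a = Equiv.swap 0 2 * Equiv.swap 1 3 ∨
      a = Equiv.swap 0 3 * Equiv.swap 1 2) → (b = 1 ∨ b = Equiv.swap 0 1 * Equiv.swap 2 3 ∨
      b = Equiv.swap 0 2 * Equiv.swap 1 3 ∨ b = Equiv.swap 0 3 * Equiv.swap 1 2) →
      (a * b = 1 ∨ a * b = Equiv.swap 0 1 * Equiv.swap 2 3 ∨ a * b = Equiv.swap 0 2 * Equiv.swap 1 3 ∨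
      a * b = Equiv.swap 0 3 * Equiv.swap 1 2)
    rintro (rfl | rfl | rfl | rfl) (rfl | rfl | rfl | rfl) <;> decide
  inv_mem' := by
    rintro a ha
    revert ha
    show (a = 1 ∨ a = Equiv.swap 0 1 * Equiv.swap 2 3 ∨ a = Equiv.swap 0 2 * Equiv.swap 1 3 ∨
      a = Equiv.swap 0 3 * Equiv.swap 1 2) → (a⁻¹ = 1 ∨ a⁻¹ = Equiv.swap 0 1 * Equiv.swap 2 3 ∨
      a⁻¹ = Equiv.swap 0 2 * Equiv.swap 1 3 ∨ a⁻¹ = Equiv.swap 0 3 * Equiv.swap 1 2)
    rintro (rfl | rfl | rfl | rfl) <;> decide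

theorem mem_K4 {σ : Equiv.Perm (Fin 4)} : σ ∈ K4 ↔ (σ = 1 ∨ σ = Equiv.swap 0 1 * Equiv.swap 2 3 ∨
    σ = Equiv.swap 0 2 * Equiv.swap 1 3 ∨ σ = Equiv.swap 0 3 * Equiv.swap 1 2) := Iff.rfl

instance : DecidablePred (· ∈ K4) := fun σ => decidable_of_iff _ mem_K4.symm

instance K4_normal : K4.Normal := ⟨by decide⟩

set_option maxRecDepth 20000 in
theorem card_K4 : Nat.card K4 = 4 := by
  rw [Nat.card_eq_fintype_card]
  decide

set_option maxRecDepth 20000 in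
theorem K4_cyc : ∀ v ∈ K4, ∀ w ∈ K4, w⁻¹ * ((Equiv.swap 0 1 * Equiv.swap 1 2 * v) * w *
    (Equiv.swap 0 1 * Equiv.swap 1 2 * v)⁻¹) = 1 → w = 1 := by decide

set_option maxRecDepth 20000 in
theorem K4_swap1 : ∀ v ∈ K4, (Equiv.swap (0 : Fin 4) 1 * Equiv.swap 2 3)⁻¹ * ((Equiv.swap 0 1 * v) *
    (Equiv.swap 0 1 * Equiv.swap 2 3) * (Equiv.swap 0 1 * v)⁻¹) = 1 := by decide

set_option maxRecDepth 20000 in
theorem K4_swap2 : ∀ v ∈ K4, (Equiv.swap (0 : Fin 4) 2 * Equiv.swap 1 3)⁻¹ * ((Equiv.swap 0 1 * v) *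
    (Equiv.swap 0 2 * Equiv.swap 1 3) * (Equiv.swap 0 1 * v)⁻¹) ≠ 1 := by decide

/-- existence of the configuration in a group involving `S₄` -/
theorem exists_V4G_aux {K : Type u} [Group K] [Finite K] (f : K →* Equiv.Perm (Fin 4))
    (hf : Function.Surjective f) : ∃ (R R₀ : Subgroup K) (s t : K), IsPGroup 2 R ∧ V4G R R₀ s t := by
  haveI : Fact (Nat.Prime 2) := ⟨Nat.prime_two⟩
  set N : Subgroup K := K4.comap f with hN
  haveI hNn : N.Normal := K4_normal.comap f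
  obtain ⟨P⟩ : Nonempty (Sylow 2 N) := inferInstance
  have hfr := Sylow.normalizer_sup_eq_top P
  set R : Subgroup K := (P : Subgroup N).map N.subtype with hR
  have hRp : IsPGroup 2 R := P.isPGroup'.map _
  have hRN : R ≤ N := Subgroup.map_subtype_le _
  -- the image of `R`
  let g : N →* K4 := (f.comp N.subtype).codRestrict K4 fun x => x.2
  have hg : Function.Surjective g := by
    rintro ⟨σ, hσ⟩
    obtain ⟨x, rfl⟩ := hf σ
    exact ⟨⟨x, hσ⟩, rfl⟩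
  have hPg : (P : Subgroup N).map g = ⊤ := by
    have h1 := Subgroup.index_map_dvd (H := (P : Subgroup N)) hg
    have h2 : ((P : Subgroup N).map g).index ∣ 2 ^ 2 := by
      have h3 : ((P : Subgroup N).map g).index ∣ Nat.card K4 := Subgroup.index_dvd_card _
      rwa [card_K4] at h3
    obtain ⟨j, hj, hj'⟩ := (Nat.dvd_prime_pow Nat.prime_two).1 h2
    rcases Nat.eq_zero_or_pos j with h0 | h0
    · rw [h0, pow_zero] at hj'
      exact Subgroup.index_eq_one.1 hj'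
    · exfalso
      have h4 : 2 ∣ ((P : Subgroup N).map g).index := by
        rw [hj']; exact dvd_pow_self 2 h0.ne'
      exact P.not_dvd_index (h4.trans h1)
  have hRf : ∀ v ∈ K4, ∃ r ∈ R, f r = v := by
    intro v hv
    obtain ⟨x, hx, hxv⟩ : (⟨v, hv⟩ : K4) ∈ (P : Subgroup N).map g := by rw [hPg]; trivial
    exact ⟨x, ⟨x, hx, rfl⟩, congrArg Subtype.val hxv⟩
  have hRK : ∀ r ∈ R, f r ∈ K4 := fun r hr => hRN hr
  -- elements of the normalizer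
  have hnorm : ∀ σ : Equiv.Perm (Fin 4), ∃ n ∈ Subgroup.normalizer (R : Set K), ∃ v ∈ K4, f n = σ * v := by
    intro σ
    obtain ⟨x, rfl⟩ := hf σ
    have hx : x ∈ Subgroup.normalizer (R : Set K) ⊔ N := by rw [hR, hfr]; trivial
    obtain ⟨n, hn, m, hm, rfl⟩ := Subgroup.mem_sup_of_normal_right.1 hx
    refine ⟨n, hn, (f m)⁻¹, inv_mem hm, ?_⟩
    rw [map_mul]; group
  set R₀ : Subgroup K := R ⊓ f.ker with hR₀
  obtain ⟨s, hs, v, hv, hsv⟩ := hnorm (Equiv.swap 0 1 * Equiv.swap 1 2)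
  obtain ⟨t, ht, v', hv', htv⟩ := hnorm (Equiv.swap 0 1)
  have hconj : ∀ c ∈ Subgroup.normalizer (R : Set K), ∀ x ∈ R, c * x * c⁻¹ ∈ R := fun c hc x hx =>
    (Subgroup.mem_normalizer_iff.1 hc x).1 hx
  have hconj0 : ∀ c ∈ Subgroup.normalizer (R : Set K), ∀ x ∈ R₀, c * x * c⁻¹ ∈ R₀ := fun c hc x hx =>
    ⟨hconj c hc x hx.1, by
      have : f x = 1 := hx.2
      show f (c * x * c⁻¹) = 1
      rw [map_mul, map_mul, this]; simp⟩
  refine ⟨R, R₀, s, t, hRp, inf_le_left, fun x hx y hy => hconj0 x (Subgroup.le_normalizer hx) y hy, ?_,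
    hconj s hs, hconj t ht, hconj0 s hs, hconj0 t ht, fun x hx hx' => ⟨hx, ?_⟩, ?_, ?_⟩
  · rw [hR₀, Subgroup.inf_relIndex_left, Subgroup.relIndex_ker]
    have : R.map f = K4 := by
      apply le_antisymm
      · rintro _ ⟨r, hr, rfl⟩; exact hRK r hr
      · intro w hw
        obtain ⟨r, hr, rfl⟩ := hRf w hw
        exact ⟨r, hr, rfl⟩
    rw [this, card_K4]
  · have h1 : f (x⁻¹ * (s * x * s⁻¹)) = 1 := hx'.2
    rw [map_mul, map_mul, map_mul, map_inv, map_inv, hsv] at h1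
    exact K4_cyc v hv _ (hRK x hx) h1
  · obtain ⟨x, hx, hxf⟩ := hRf (Equiv.swap 0 1 * Equiv.swap 2 3) (mem_K4.2 (Or.inr (Or.inl rfl)))
    refine ⟨x, hx, fun h => ?_, ?_⟩
    · have h1 : f x = 1 := h.2
      rw [hxf] at h1
      revert h1; decide
    · refine ⟨mul_mem (R.inv_mem hx) (hconj t ht x hx), ?_⟩
      show f (x⁻¹ * (t * x * t⁻¹)) = 1
      rw [map_mul, map_mul, map_mul, map_inv, map_inv, htv, hxf]
      exact K4_swap1 v' hv'
  · obtain ⟨x, hx, hxf⟩ := hRf (Equiv.swap 0 2 * Equiv.swap 1 3) (mem_K4.2 (Or.inr (Or.inr (Or.inl rfl))))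
    refine ⟨x, hx, fun h => ?_⟩
    have h1 : f (x⁻¹ * (t * x * t⁻¹)) = 1 := h.2
    rw [map_mul, map_mul, map_mul, map_inv, map_inv, htv, hxf] at h1
    exact K4_swap2 v' hv' h1

theorem V4G.map {K : Type u} {G : Type v} [Group K] [Group G] {R R₀ : Subgroup K} {s t : K}
    (h : V4G R R₀ s t) (φ : K →* G) (hφ : Function.Injective φ) :
    V4G (R.map φ) (R₀.map φ) (φ s) (φ t) := by
  obtain ⟨h1, hn, hidx, hs, ht, hs0, ht0, h4, ⟨x₁, hx₁, h5, h6⟩, x₂, hx₂, h7⟩ := h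
  have hmem : ∀ {x : K} {A : Subgroup K}, φ x ∈ A.map φ → x ∈ A := by
    rintro x A ⟨y, hy, hyx⟩
    rwa [← hφ hyx]
  refine ⟨Subgroup.map_mono h1, ?_, ?_, ?_, ?_, ?_, ?_, ?_, ?_, ?_⟩
  · rintro _ ⟨x, hx, rfl⟩ _ ⟨y, hy, rfl⟩
    exact ⟨_, hn x hx y hy, by simp⟩
  · rw [Subgroup.relIndex_map_map_of_injective _ _ hφ, hidx]
  · rintro _ ⟨x, hx, rfl⟩; exact ⟨_, hs x hx, by simp⟩
  · rintro _ ⟨x, hx, rfl⟩; exact ⟨_, ht x hx, by simp⟩
  · rintro _ ⟨x, hx, rfl⟩; exact ⟨_, hs0 x hx, by simp⟩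
  · rintro _ ⟨x, hx, rfl⟩; exact ⟨_, ht0 x hx, by simp⟩
  · rintro _ ⟨x, hx, rfl⟩ h
    refine ⟨x, h4 x hx (hmem ?_), rfl⟩
    simpa using h
  · refine ⟨φ x₁, ⟨x₁, hx₁, rfl⟩, fun h => h5 (hmem h), ?_⟩
    exact ⟨_, h6, by simp⟩
  · refine ⟨φ x₂, ⟨x₂, hx₂, rfl⟩, fun h => h7 (hmem ?_)⟩
    simpa using h

theorem exists_V4G {G : Type u} [Group G] [Finite G] (T : Sylow 2 G)
    (h : Involves (Equiv.Perm (Fin 4)) G) : ∃ (R R₀ : Subgroup G) (s t : G),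
      R ≤ (T : Subgroup G) ∧ V4G R R₀ s t := by
  haveI : Fact (Nat.Prime 2) := ⟨Nat.prime_two⟩
  obtain ⟨K, f, hf⟩ := Cfsg.Agent.L.involves_iff.1 h
  obtain ⟨R, R₀, s, t, hRp, h1⟩ := exists_V4G_aux f hf
  have h2 := h1.map K.subtype K.subtype_injective
  obtain ⟨x, -, hx⟩ := (Cfsg.Agent.L.sylIn_top T).exists_conj_le (hRp.map K.subtype) le_top
  have h3 := h2.map (MulAut.conj x).toMonoidHom (MulAut.conj x).injective
  exact ⟨_, _, _, _, hx, h3⟩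

section
variable {Ω : Type u} [Group Ω] {S T : Subgroup Ω} {F : FusionSystem S} {E : FusionSystem T}
  {P P₀ Q R : Subgroup Ω} {p : ℕ}

/-- the group of a realization of a system without configurations does not involve `S₄` -/
theorem NB4.not_involves {G : Type v} [Group G] [Finite G] [Finite S] (hF : NB4 F) {ι : S →* G}
    (hr : F.IsRealizedBy ι) (T : Sylow 2 G) (hT : (T : Subgroup G) = ι.range) :
    ¬ Involves (Equiv.Perm (Fin 4)) G := by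
  intro h
  obtain ⟨R, R₀, s, t, hR, h1⟩ := exists_V4G T h
  exact hF _ _ (h1.fusion hr (hR.trans hT.le))

end

end Cfsg.Agent.H13
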