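import Mathlib
import Cfsg.Agent.H13.V4Cfg3
import Cfsg.Agent.H28.GMach1
import Cfsg.Agent.H28.GMach2
import Cfsg.Agent.H28.GCtl1
import Cfsg.Agent.H28.GCtl2
import Cfsg.Agent.H28.GCtl3
import Cfsg.Agent.H28.GlauF
import Cfsg.Agent.S2799

/-!
# Control of central elements in systems without `S₄`-sections
-/

set_option autoImplicit false
set_option linter.all false
open Cfsg Cfsg.FusionSystem

namespace Cfsg.Agent.H13

open Cfsg.Agent.H28
open Cfsg.Agent

universe u v w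

section
variable {Ω : Type u} [Group Ω] {S T : Subgroup Ω} {F D : FusionSystem S} {P Q R V U X K : Subgroup Ω}
  {f g k χ : Ω → Ω} {x y z s t : Ω} {p : ℕ} {ρ : Ω → Ω → Prop}

/-- The quotient step. -/
theorem quot_step4 [Fact p.Prime] {W : ∀ (Ω : Type u) [Group Ω], Subgroup Ω → Subgroup Ω}
    (W1 : ∀ (Ω : Type u) [Group Ω] (S : Subgroup Ω) [Finite S], IsPGroup p S → S ≠ ⊥ → W Ω S ≠ ⊥)
    (W2 : ∀ (Ω : Type u) [Group Ω] (S : Subgroup Ω), W Ω S ≤ S)
    (W3 : ∀ (Ω : Type u) [Group Ω] (S : Subgroup Ω) [Finite S], IsPGroup p S →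
      ((W Ω S).subgroupOf S).Characteristic)
    [Finite S] (hS : IsPGroup p S) (hF : F.IsSaturated p) (hQ : F.IsNormal Q) (hQne : Q ≠ ⊥)
    (hmax : ∀ V, F.IsNormal V → V ≤ Q)
    (IH2 : ∀ D : FusionSystem S, D ≤ F → D ≠ F → D.IsSaturated p → RSat D ρ)
    {Ω' : Type u} [Group Ω'] {S' : Subgroup Ω'} [Finite S'] {θ : S →* Ω'} {E : FusionSystem S'}
    (hE : F.IsFactorSystem Q θ E) (hEs : E.IsSaturated p) (hS' : IsPGroup p S')
    (hcard : Nat.card S = Nat.card Q * Nat.card S') {ρ' : Ω' → Ω' → Prop} (hok : RelOK S' ρ')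
    (IH : Nat.card S' < Nat.card S → NSat E (W Ω' S') ρ' → RSat E ρ')
    (hρ : ∀ Y g, Mor F Y g → preimageAlong θ (W Ω' S') ≤ Y → (∀ x ∈ Y, ρ x (g x)) →
      ∀ x ∈ Y, ρ' (tf θ x) (tf θ (g x))) :
    ∀ P f, Mor F P f → ∀ x ∈ P, ρ' (tf θ x) (tf θ (f x)) := by
  have hr := hE.2.2.1
  have hsc := normal_stronglyClosed hQ
  have hQS := hQ.1
  haveI : Finite Q := finite_of_le hQS
  suffices key : RSat E ρ' by
    intro P f hf x hx
    obtain ⟨g, hg, h1, h2⟩ := (isNormal_iff.1 hQ).2 P f hf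
    obtain ⟨f', hf', h3⟩ := factor_induced hE hsc hg le_sup_right
    have hx' : x ∈ P ⊔ Q := le_sup_left (b := Q) hx
    have h4 := key _ f' hf' _ (tf_mem_imageAlong hg.le hx')
    rwa [h3 x hx', h1 x hx] at h4
  by_cases hS'ne : S' = ⊥
  · intro P f hf x hx
    have h1 : x = 1 := by
      have := hf.le hx
      rwa [hS'ne, Subgroup.mem_bot] at this
    rw [h1, hf.one]
    exact hok.refl S'.one_mem
  have h2 : 1 < Nat.card Q := by
    rw [← Nat.card_unique (α := (⊥ : Subgroup Ω))]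
    exact card_lt_of_lt' (bot_lt_iff_ne_bot.2 hQne)
  have hS'pos : 0 < Nat.card S' := Nat.card_pos
  have hlt : Nat.card S' < Nat.card S := by
    rw [hcard]; nlinarith
  refine IH hlt ?_
  rintro X' f' ⟨hf', g', hg', h3, h4⟩ y hy
  have hW'ne := W1 Ω' S' hS' hS'ne
  have hW'S := W2 Ω' S'
  have hRn : S ≤ Subgroup.normalizer ((preimageAlong θ (W Ω' S') : Subgroup Ω) : Set Ω) := by
    have h5 := normalizer_preimage hE hW'S
    have h6 : normalizerIn S' (W Ω' S') = S' := normalizerIn_eq (char_le_normalizerIn hW'S (W3 _ _ hS'))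
    have hpre : preimageAlong θ S' = S := by
      apply le_antisymm preimageAlong_le
      intro x hx
      refine mem_preimageAlong.2 ⟨hx, ?_⟩
      rw [← hr]; exact tf_mem_range hx
    rw [h6, hpre] at h5
    intro s hs
    have : s ∈ normalizerIn S (preimageAlong θ (W Ω' S')) := by rw [h5]; exact hs
    exact this.2
  have hRnn : ¬ F.IsNormal (preimageAlong θ (W Ω' S')) := by
    intro h
    apply hW'ne
    rw [eq_bot_iff]
    intro z hz
    obtain ⟨x, hx, rfl⟩ := exists_preimage hr hW'S hz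
    rw [Subgroup.mem_bot]
    exact (factor_ker hE (preimageAlong_le hx)).2 (hmax _ h hx)
  have h5 := IH2 (normS F _ preimageAlong_le hRn) normS_le (fun h => hRnn (normS_eq_iff.1 h))
    (normS_saturated hS hF)
  obtain ⟨hX'S, g, hg, h6⟩ := (factor_mor_iff hE).1 hg'
  obtain ⟨x, hx, rfl⟩ := exists_preimage hr (hf'.le : X' ≤ S') hy
  have hsub : preimageAlong θ (W Ω' S') ≤ preimageAlong θ (X' ⊔ W Ω' S') := preimage_mono le_sup_right
  have h7 : img (preimageAlong θ (W Ω' S')) g = preimageAlong θ (W Ω' S') := by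
    have h8 := factor_img (f' := g') hE hW'S (hg.mono hsub) (fun x hx => h6 x (hsub hx)) hsc
    rwa [h4] at h8
  have hx' : x ∈ preimageAlong θ (X' ⊔ W Ω' S') := preimage_mono le_sup_left hx
  have h8 := h5 (preimageAlong θ (X' ⊔ W Ω' S')) g (mor_normS.2 ⟨hg.le, g, by
    rw [sup_eq_left.2 hsub]; exact hg, fun _ _ => rfl, h7⟩)
  have h9 := hρ _ g hg hsub h8 x hx'
  rwa [← h6 x hx', h3 _ hy] at h9


/-- The quotient step for central elements. -/
theorem center_step4 [Fact p.Prime] {W : ∀ (Ω : Type u) [Group Ω], Subgroup Ω → Subgroup Ω}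
    (W1 : ∀ (Ω : Type u) [Group Ω] (S : Subgroup Ω) [Finite S], IsPGroup p S → S ≠ ⊥ → W Ω S ≠ ⊥)
    (W2 : ∀ (Ω : Type u) [Group Ω] (S : Subgroup Ω), W Ω S ≤ S)
    (W3 : ∀ (Ω : Type u) [Group Ω] (S : Subgroup Ω) [Finite S], IsPGroup p S →
      ((W Ω S).subgroupOf S).Characteristic)
    (W4 : ∀ (Ω : Type u) [Group Ω] (S : Subgroup Ω) [Finite S], IsPGroup p S →
      ∀ z ∈ S, (∀ s ∈ S, s * z = z * s) → z ∈ W Ω S)
    [Finite S] (hS : IsPGroup p S) (hF : F.IsSaturated p) (hQ : F.IsNormal Q) (hQne : Q ≠ ⊥)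
    (hmax : ∀ V, F.IsNormal V → V ≤ Q)
    (hNB : NB4 F)
    (IH1 : ∀ (Ω' : Type u) [Group Ω'] (S' : Subgroup Ω') [Finite S'] (F' : FusionSystem S') z',
      Nat.card S' < Nat.card S → IsPGroup p S' → F'.IsSaturated p → NB4 F' → z' ∈ S' →
        (∀ s ∈ S', s * z' = z' * s) → NSat F' (W Ω' S') (relZ z') → RSat F' (relZ z'))
    (hy : y ∈ S) (hyc : ∀ s ∈ S, s * y = y * s)
    (IH2 : ∀ D : FusionSystem S, D ≤ F → D ≠ F → D.IsSaturated p → RSat D (relZ (y ^ p ^ 0))) :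
    ∀ P f, Mor F P f → y ^ p ^ 0 ∈ P → (y ^ p ^ 0)⁻¹ * f (y ^ p ^ 0) ∈ Q := by
  obtain ⟨Ω', _, S', θ, E, hE, hEs, hS', hfin, hcard⟩ := exists_factor hS hF hQ
  have hr := hE.2.2.1
  have hsc := normal_stronglyClosed hQ
  set z := y ^ p ^ 0 with hzdef
  have hz : z ∈ S := pow_mem hy _
  have hz' : tf θ z = tf θ y ^ p ^ 0 := by
    rw [tf_apply _ hz, tf_apply _ hy]
    have : (⟨z, hz⟩ : S) = ⟨y, hy⟩ ^ p ^ 0 := rfl
    rw [this, map_pow]
  have hθS : ∀ x ∈ S, tf θ x ∈ S' := fun x hx => by rw [← hr]; exact tf_mem_range hx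
  have hyc' : ∀ s ∈ S', s * tf θ y = tf θ y * s := by
    intro s hs
    obtain ⟨x, hx, rfl⟩ := exists_tf_eq hr hs
    rw [← tf_mul hx hy, hyc x hx, tf_mul hy hx]
  have hzW : tf θ z ∈ W Ω' S' := by
    refine W4 Ω' S' hS' _ (hθS z hz) fun s hs => ?_
    rw [hz']
    exact Commute.pow_right (hyc' s hs : Commute s (tf θ y)) _
  have hzc' : ∀ s ∈ S', s * tf θ z = tf θ z * s := fun s hs => by
    rw [hz']
    exact Commute.pow_right (hyc' s hs : Commute s (tf θ y)) _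
  have h1 := quot_step4 (ρ := relZ z) W1 W2 W3 hS hF hQ hQne hmax IH2 hE hEs hS' hcard
    (ρ' := relZ (tf θ z)) (relZ_ok hzc')
    (fun hlt hN => IH1 Ω' S' E _ hlt hS' hEs (hNB.factor hE) (hθS z hz) hzc' hN)
    (fun Y g hg hWY h x hx => by
      have hzY : z ∈ Y := hWY (mem_preimageAlong.2 ⟨hz, hzW⟩)
      have hQY : Q ≤ Y := (factor_le_preimage hE).trans hWY
      have hgz : g z = z := (h z hzY).1 rfl
      show tf θ x = tf θ z ↔ tf θ (g x) = tf θ z
      rw [eq_comm, eq_comm (b := tf θ z), factor_eq hE hz (hg.le hx), factor_eq hE hz (hg.mem hx)]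
      have h2 : g (z⁻¹ * x) = z⁻¹ * g x := by
        rw [hg.mul (inv_mem hzY) hx, hg.inv hzY, hgz]
      rw [← h2]
      constructor
      · intro h3; exact sc_apply hsc hg (mul_mem (inv_mem hzY) hx) h3
      · intro h3
        obtain ⟨i, hi, hi1, -⟩ := hg.inverse
        have h4 : z⁻¹ * x ∈ Y := mul_mem (inv_mem hzY) hx
        have h5 := sc_apply hsc hi (mem_img_of_mem h4) h3
        rwa [hi1 _ h4] at h5)
  intro P f hf hzP
  have h2 := (h1 P f hf z hzP).1 rfl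
  exact (factor_eq hE hz (hf.mem hzP)).1 h2.symm


end

end Cfsg.Agent.H13
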