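import Mathlib
import Cfsg.Agent.H13.V4Cfg4

/-!
# Control of central elements in systems without `S₄`-sections, the machine
-/

set_option autoImplicit false
set_option linter.all false
open Cfsg Cfsg.FusionSystem

namespace Cfsg.Agent.H13

open Cfsg.Agent.H28
open Cfsg.Agent

universe u v w

section

/-- The Thompson subgroup as a functor. -/
noncomputable def WJ (Ω : Type u) [Group Ω] (S : Subgroup Ω) : Subgroup Ω :=
  WF 2 (fun (Q : Type u) [Group Q] => thompsonSubgroupA Q) Ω S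

def CondZ (Ω : Type u) [Group Ω] (S : Subgroup Ω) (F E : FusionSystem S) : Prop :=
  NB4 F ∧ ∃ z ∈ S, (∀ s ∈ S, s * z = z * s) ∧
    (∀ P f, Mor F P f → (Mor E P f ↔ ∀ x ∈ P, relZ z x (f x))) ∧ NSat F (WJ Ω S) (relZ z)

variable {Ω : Type u} [Group Ω] {S T : Subgroup Ω} {F D : FusionSystem S} {P Q R V U X K : Subgroup Ω}
  {f g k χ : Ω → Ω} {x y z s t : Ω} {ρ : Ω → Ω → Prop}

theorem condZ_rsat {F' : FusionSystem S} (hNB : NB4 F') (hz : z ∈ S) (hzc : ∀ s ∈ S, s * z = z * s)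
    (hN : NSat F' (WJ Ω S) (relZ z)) (hall : ∀ E', CondZ Ω S F' E' → F' ≤ E') : RSat F' (relZ z) := by
  have hok : RelOK S (relZ z) := relZ_ok hzc
  have h1 := hall (propSys F' _ (hok.prop (F := F'))) ⟨hNB, z, hz, hzc, fun P f hf =>
    ⟨fun h => (mor_propSys.1 h).2, fun h => mor_propSys.2 ⟨hf, h⟩⟩, hN⟩
  intro P f hf
  exact (mor_propSys.1 (le_iff_mor.1 h1 P f hf)).2

theorem group_central {G : Type u} [Group G] [Finite G] (T : Sylow 2 G)
    (hc : Subgroup.centralizer ((Cfsg.pCore 2 G : Subgroup G) : Set G) ≤ Cfsg.pCore 2 G)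
    (hni : ¬ Involves (Equiv.Perm (Fin 4)) G) {z : G} (hz : z ∈ (T : Subgroup G))
    (hzT : ∀ x ∈ (T : Subgroup G), x * z = z * x)
    (hN : ∀ g ∈ Subgroup.normalizer ((thompsonSubgroupAOf (T : Subgroup G) : Subgroup G) : Set G),
      g * z = z * g) : ∀ g : G, g * z = z * g := by
  have hzJ : z ∈ thompsonSubgroupAOf (T : Subgroup G) := by
    refine ⟨⟨z, hz⟩, center_le_thompsonSubgroupA _ ?_, rfl⟩
    rw [Subgroup.mem_center_iff]
    intro x
    exact Subtype.ext (hzT x x.2)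
  have hzN : z ∈ Subgroup.normalizer ((thompsonSubgroupAOf (T : Subgroup G) : Subgroup G) : Set G) :=
    Subgroup.le_normalizer hzJ
  have h1 := S2799.result T z hz ⟨⟨z, hzN⟩, by
    rw [SetLike.mem_coe, Subgroup.mem_center_iff]
    intro x
    exact Subtype.ext (hN x x.2), rfl⟩ (Or.inr (Or.inr hni))
  have hOT : Cfsg.pCore 2 G ≤ (T : Subgroup G) := pCore_le_sylow T
  have hzO : z ∈ Cfsg.pCore 2 G := hc (Subgroup.mem_centralizer_iff.2 fun x hx => hzT x (hOT hx))
  intro g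
  haveI : (Cfsg.pCore 2 G).Normal := inferInstance
  have h2 := h1 g (hOT (this.conj_mem z hzO g))
  calc g * z = g * z * g⁻¹ * g := by group
    _ = z * g := by rw [h2]

theorem gm_condZ : GM.{u} 2 (fun (Ω : Type u) [Group Ω] (S : Subgroup Ω) => CondZ Ω S) := by
  haveI : Fact (Nat.Prime 2) := ⟨Nat.prime_two⟩
  have hW1 : ∀ (Q : Type u) [Group Q] [Finite Q], IsPGroup 2 Q → Nontrivial Q →
      thompsonSubgroupA Q ≠ ⊥ := fun Q _ _ _ h => thompsonSubgroupA_ne_bot Q h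
  have hW2 : ∀ (Q R : Type u) [Group Q] [Group R] [Finite Q], IsPGroup 2 Q → ∀ φ : Q ≃* R,
      (thompsonSubgroupA Q).map φ.toMonoidHom = thompsonSubgroupA R :=
    fun Q R _ _ _ _ e => thompsonSubgroupA_map e
  have hWZ : ∀ (Q : Type u) [Group Q] [Finite Q], IsPGroup 2 Q →
      Subgroup.center Q ≤ thompsonSubgroupA Q := fun Q _ _ _ => center_le_thompsonSubgroupA Q
  have W1 : ∀ (Ω : Type u) [Group Ω] (S : Subgroup Ω) [Finite S], IsPGroup 2 S → S ≠ ⊥ → WJ Ω S ≠ ⊥ :=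
    fun (Ω : Type u) [Group Ω] (S : Subgroup Ω) [Finite S] => WF_ne_bot (Ω := Ω)
    (W := fun (Q : Type u) [Group Q] => thompsonSubgroupA Q) hW1 S
  have W2 : ∀ (Ω : Type u) [Group Ω] (S : Subgroup Ω), WJ Ω S ≤ S :=
    fun (Ω : Type u) [Group Ω] (S : Subgroup Ω) => WF_le (p := 2)
    (W := fun (Q : Type u) [Group Q] => thompsonSubgroupA Q) S
  have W3 : ∀ (Ω : Type u) [Group Ω] (S : Subgroup Ω) [Finite S], IsPGroup 2 S →
      ((WJ Ω S).subgroupOf S).Characteristic := fun (Ω : Type u) [Group Ω] (S : Subgroup Ω) [Finite S] _ =>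
    WF_char (p := 2) (Ω := Ω) (W := fun (Q : Type u) [Group Q] => thompsonSubgroupA Q) hW2 S
  have W4 : ∀ (Ω : Type u) [Group Ω] (S : Subgroup Ω) [Finite S], IsPGroup 2 S →
      ∀ z ∈ S, (∀ s ∈ S, s * z = z * s) → z ∈ WJ Ω S :=
    ctr_functor (p := 2) (W := fun (Q : Type u) [Group Q] => thompsonSubgroupA Q) hWZ
  constructor
  · rintro Ω _ S _ F E D hS hF hD hDs ⟨hNB, z, hz, hzc, h1, h2⟩
    exact ⟨hNB.mono (le_iff_mor.1 hD), z, hz, hzc, fun P f hf => h1 P f (le_iff_mor.1 hD P f hf),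
      fun X f hf => h2 X f (hf.mono_sys hD)⟩
  · rintro Ω _ S _ F E hS hF ⟨hNB, z, hz, hzc, h1, h2⟩ U hU hUne hlt
    have hTp := isPGroup_of_le hS (normalizerIn_le (S := S) (P := U))
    haveI : Finite (normalizerIn S U) := finite_of_le normalizerIn_le
    have hTne : normalizerIn S U ≠ ⊥ := by
      intro h
      apply hUne
      rw [eq_bot_iff, ← h]
      exact le_normalizerIn hU.1
    have hzU : z ∈ normalizerIn S U := by
      refine mem_normalizerIn.2 ⟨hz, ?_⟩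
      refine Subgroup.centralizer_le_normalizer _ (Subgroup.mem_centralizer_iff.2 fun x hx => hzc x (hU.1 hx))
    refine ⟨WJ Ω (normalizerIn S U), W2 _ _, W1 _ _ hTp hTne, W3 _ _ hTp, fun h3 =>
      ⟨nb4_normSys hNB hU.1, z, hzU, fun s hs => hzc s (normalizerIn_le hs), fun P f hf => ?_,
        fun X f hf => ?_⟩⟩
    · have hf' := mor_norm_sub hf
      rw [mor_restrT, ← h1 P f hf']
      exact ⟨fun h => h.2.2, fun h => ⟨hf.le, fun x hx => hf.mem hx, h⟩⟩
    · exact (h1 X f (mor_norm_sub hf.1)).1 (h3 X f hf)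
  · rintro Ω _ S _ F E hS ⟨hF, Q', hQ'n, hQ'c⟩ hcore IH1 IH2 ⟨hNB, z, hz, hzc, h1, hN⟩
    rw [le_iff_mor]
    intro P f hf
    refine (h1 P f hf).2 ?_
    revert P f
    show RSat F (relZ z)
    obtain ⟨G, _, ι, hG⟩ := exists_model hS hF hQ'n hQ'c
    haveI := hG.1
    obtain ⟨T, hTr⟩ := hG.2.2.1
    have hι : Function.Injective ι := hG.2.1.1
    have hzV : z ∈ WJ Ω S := W4 Ω S hS z hz hzc
    refine rsat_of_group_central hG.2.1 hz ?_
    have hni := hNB.not_involves hG.2.1 T hTr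
    have h4 : thompsonSubgroupAOf (T : Subgroup G) = imageAlong ι (WJ Ω S) := by
      show (thompsonSubgroupA ↥(T : Subgroup G)).map (T : Subgroup G).subtype = _
      unfold WJ
      rw [WF_image (W := fun (Q : Type u) [Group Q] => thompsonSubgroupA Q) hW2 hι, ← hTr,
        WF_eq T.isPGroup']
    have h5 := group_central T hG.2.2.2 hni (z := tf ι z) (by rw [hTr]; exact tf_mem_range hz)
      (fun x hx => by
        rw [hTr] at hx
        obtain ⟨a, rfl⟩ := hx
        rw [← tf_coe, ← tf_mul a.2 hz, hzc a a.2, tf_mul hz a.2])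
    rw [h4] at h5
    refine h5 fun u hu => ?_
    have h7 : u * tf ι z * u⁻¹ ∈ imageAlong ι (WJ Ω S) :=
      (Subgroup.mem_normalizer_iff.1 hu _).1 (tf_mem_imageAlong (W2 Ω S) hzV)
    obtain ⟨y, hy, -, hy'⟩ := mem_imageAlong.1 h7
    have h8 := nsat_real hG.2.1 (W2 Ω S) hN hu hz hy hy'
    have h9 : y = z := h8.1 rfl
    rw [h9] at hy'
    conv_rhs => rw [hy']
    group
  · rintro Ω _ S _ F E hS hF hcore hcen hin IH1 IH2 ⟨hNB, z, hz, hzc, h1, hN⟩
    rw [le_iff_mor]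
    intro P f hf
    refine (h1 P f hf).2 ?_
    revert P f
    show RSat F (relZ z)
    have hQ : F.IsNormal F.core := core_normal
    have e0 : z ^ 2 ^ 0 = z := by rw [pow_zero, pow_one]
    have h2 := center_step4 (p := 2) (y := z) W1 W2 W3 W4 hS hF hQ hcore (fun V hV => le_core hV) hNB
      (fun Ω' _ S' _ F' z' hc hS' hF' hNB' hz' hzc' hN' =>
        condZ_rsat hNB' hz' hzc' hN' fun E' hE' => IH1 Ω' S' F' E' hc hS' hF' hE') hz hzc
      (fun D hD hne hDs P f hf => by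
        rw [e0]
        exact (h1 P f (le_iff_mor.1 hD P f hf)).1 (le_iff_mor.1 (IH2 D hD hne hDs) P f hf))
    rw [e0] at h2
    exact center_inn hS hF hQ hin hz hzc h2

/-- The centre of `F` is controlled by `N_F(J(S))` for systems without `S₄`-configurations. -/
theorem rsat_of_nb4 [Finite S] (hS : IsPGroup 2 S) (hF : F.IsSaturated 2) (hNB : NB4 F) (hz : z ∈ S)
    (hzc : ∀ s ∈ S, s * z = z * s) (hN : NSat F (WJ Ω S) (relZ z)) : RSat F (relZ z) := by
  haveI : Fact (Nat.Prime 2) := ⟨Nat.prime_two⟩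
  exact condZ_rsat hNB hz hzc hN fun E' hE' => gmach gm_condZ _ Ω S F E' le_rfl hS hF hE'

end

end Cfsg.Agent.H13
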